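import Cfsg.Agent.H18.Extraspecial
import Cfsg.Agent.H28.Counting
import Cfsg.Prelude.Def_Local
import Cfsg.Agent.H19.Cores

/-!
# Transfer over the centraliser of the central involution of a large extraspecial subgroup
-/

set_option autoImplicit false

namespace Cfsg.Agent.H77.LargeEsp

open Subgroup

variable {G : Type*} [Group G] [Finite G]

/-- The hypotheses. -/
structure Setting (z : G) (E : Subgroup G) : Prop where
  ord : orderOf z = 2
  norm : ∀ c : G, c * z = z * c → ∀ x ∈ E, c * x * c⁻¹ ∈ E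
  two : IsPGroup 2 E
  comm : ∀ x ∈ E, x * z = z * x
  cent : ∀ c : G, (∀ x ∈ E, c * x = x * c) → c = 1 ∨ c = z
  bracket : ∀ x ∈ E, ∀ y ∈ E, x * y * x⁻¹ * y⁻¹ = 1 ∨ x * y * x⁻¹ * y⁻¹ = z
  sq : ∀ x ∈ E, x * x = 1 ∨ x * x = z
  mem : z ∈ E

/-- The setting of the statements. -/
theorem setting_of {z : G} (hz : orderOf z = 2) {E : Subgroup G}
    (hE : E = (Cfsg.pCore 2 ↥(centralizer ({z} : Set G))).map (centralizer ({z} : Set G)).subtype)
    (hext : Cfsg.IsExtraspecial 2 ↥E) (hcent : centralizer (E : Set G) ≤ E) : Setting z E := by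
  have hle : E ≤ centralizer ({z} : Set G) := hE ▸ map_subtype_le _
  have hcomm : ∀ x ∈ E, x * z = z * x := fun x hx => mem_centralizer_singleton_iff.1 (hle hx)
  have hzE : z ∈ E := hcent (mem_centralizer_iff.2 fun x hx => hcomm x hx)
  obtain ⟨w, hw1, -, hw⟩ := H18.center_eq_pair hext
  have hz1 : z ≠ 1 := fun h => by simp [h] at hz
  have hzw : (⟨z, hzE⟩ : E) = w := by
    rcases (hw ⟨z, hzE⟩).1 (mem_center_iff.2 fun x => Subtype.ext (hcomm x x.2)) with h | h
    · exact absurd (congrArg Subtype.val h) hz1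
    · exact h
  subst hzw
  have hbr : ∀ x ∈ E, ∀ y ∈ E, x * y * x⁻¹ * y⁻¹ = 1 ∨ x * y * x⁻¹ * y⁻¹ = z := by
    intro x hx y hy
    rcases (hw _).1 (H18.commutator_mem_center hext ⟨x, hx⟩ ⟨y, hy⟩) with h | h
    · exact Or.inl (by simpa [commutatorElement_def] using congrArg Subtype.val h)
    · exact Or.inr (by simpa [commutatorElement_def] using congrArg Subtype.val h)
  refine ⟨hz, fun c hc x hx => ?_, hext.1.1, hcomm, fun c hc => ?_, hbr, fun x hx => ?_, hzE⟩
  · rw [hE] at hx ⊢
    obtain ⟨y, hy, rfl⟩ := hx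
    haveI := H19.pCore_normal 2 ↥(centralizer ({z} : Set G))
    exact ⟨_, (H19.pCore_normal 2 ↥(centralizer ({z} : Set G))).conj_mem y hy
      ⟨c, mem_centralizer_singleton_iff.2 hc⟩, rfl⟩
  · have hcE : c ∈ E := hcent (mem_centralizer_iff.2 fun x hx => (hc x hx).symm)
    rcases (hw ⟨c, hcE⟩).1 (mem_center_iff.2 fun x => Subtype.ext (hc x x.2).symm) with h | h
    · exact Or.inl (congrArg Subtype.val h)
    · exact Or.inr (congrArg Subtype.val h)
  · have hmem : (⟨x, hx⟩ : E) * ⟨x, hx⟩ ∈ center E := mem_center_iff.2 fun y => Subtype.ext (by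
      show (y : G) * (x * x) = x * x * y
      rcases hbr x hx y y.2 with h | h
      · have e : x * y = y * x := by
          calc x * (y : G) = x * y * x⁻¹ * (y : G)⁻¹ * (y * x) := by group
            _ = y * x := by rw [h, one_mul]
        rw [mul_assoc, e, ← mul_assoc x, e, mul_assoc]
      · have e : x * y = z * (y * x) := by
          calc x * (y : G) = x * y * x⁻¹ * (y : G)⁻¹ * (y * x) := by group
            _ = z * (y * x) := by rw [h]
        have hzz : z * z = 1 := by rw [← pow_two, ← hz, pow_orderOf_eq_one]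
        rw [mul_assoc x x, e, ← mul_assoc x z, hcomm x hx, mul_assoc z x, ← mul_assoc x (y : G), e,
          ← mul_assoc z, ← mul_assoc z, hzz, one_mul, mul_assoc])
    rcases (hw _).1 hmem with h | h
    · exact Or.inl (congrArg Subtype.val h)
    · exact Or.inr (congrArg Subtype.val h)

namespace Setting

variable {z : G} {E : Subgroup G} (S : Setting z E)
include S

theorem z_sq : z * z = 1 := by rw [← pow_two, ← S.ord, pow_orderOf_eq_one]

theorem z_ne : z ≠ 1 := fun h => by simpa [h] using S.ord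

/-- The centraliser of the involution has odd index. -/
theorem odd_index : Odd (centralizer ({z} : Set G)).index := by
  haveI : Fact (Nat.Prime 2) := ⟨Nat.prime_two⟩
  obtain ⟨P, hP⟩ := S.two.exists_le_sylow
  haveI : Nontrivial P := by
    refine ⟨⟨⟨z, hP S.mem⟩, 1, fun h => S.z_ne (congrArg Subtype.val h)⟩⟩
  haveI := P.isPGroup'.center_nontrivial
  obtain ⟨w, hw, hw1⟩ := exists_ne_one_of_nontrivial (center (P : Subgroup G))
  have hwz : (w : G) = z := (S.cent w fun x hx =>
    (congrArg Subtype.val (mem_center_iff.1 hw ⟨x, hP hx⟩)).symm).resolve_left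
      fun h => hw1 (Subtype.ext h)
  have hPC : (P : Subgroup G) ≤ centralizer ({z} : Set G) := fun g hg =>
    mem_centralizer_singleton_iff.2 (hwz ▸ congrArg Subtype.val (mem_center_iff.1 hw ⟨g, hg⟩))
  exact Nat.not_even_iff_odd.1 fun h => P.not_dvd_index
    ((even_iff_two_dvd.1 h).trans (index_dvd_of_le hPC))

/-- The transfer argument. -/
theorem transfer_contra (hres : ∀ φ : G →* ℤˣ, ∀ g, φ g = 1) (K : Subgroup G)
    (hKC : K ≤ centralizer ({z} : Set G)) (hK : K.relIndex (centralizer ({z} : Set G)) = 2)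
    {e : G} (he : e ∈ E) (he2 : e * e = 1) (heK : e ∉ K)
    {x y : G} (hx : x ∈ E) (hy : y ∈ E) (hxe : x * e = e * x) (hye : y * e = e * y)
    (hxy : x * y * x⁻¹ * y⁻¹ = z) : False := by
  classical
  haveI : Fact (Nat.Prime 2) := ⟨Nat.prime_two⟩
  set C := centralizer ({z} : Set G) with hC
  set K' := K.subgroupOf C
  have hK' : K'.index = 2 := hK
  haveI : K'.Normal := normal_of_index_eq_two hK'
  have hKn : ∀ c ∈ C, ∀ k, k ∈ K → c * k * c⁻¹ ∈ K := fun c hc k hk =>
    mem_subgroupOf.1 ((inferInstance : K'.Normal).conj_mem ⟨k, hKC hk⟩ (mem_subgroupOf.2 hk) ⟨c, hc⟩)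
  have hKc : ∀ a ∈ C, ∀ b ∈ C, a * b * a⁻¹ * b⁻¹ ∈ K := fun a ha b hb => by
    have h1 : (⟨a, ha⟩ * ⟨b, hb⟩ * (⟨a, ha⟩ : C)⁻¹ * (⟨b, hb⟩ : C)⁻¹ : C) ∈ K' := by
      rw [← QuotientGroup.eq_one_iff]
      have hcard : Nat.card (↥C ⧸ K') = 2 := by rw [← index_eq_card, hK']
      haveI : IsCyclic (↥C ⧸ K') := isCyclic_of_prime_card hcard
      let : CommGroup (↥C ⧸ K') := IsCyclic.commGroup
      simp only [QuotientGroup.mk_mul, QuotientGroup.mk_inv]
      rw [mul_comm (QuotientGroup.mk (⟨a, ha⟩ : C)) _, mul_inv_cancel_right, mul_inv_cancel]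
    exact mem_subgroupOf.1 h1
  -- the plus set
  let plus : G → Prop := fun g => g⁻¹ * e * g ∈ K
  have plus_mul : ∀ g, ∀ c ∈ C, plus (g * c) ↔ plus g := by
    intro g c hc
    constructor
    · intro h
      have := hKn c hc _ h
      rwa [show c * ((g * c)⁻¹ * e * (g * c)) * c⁻¹ = g⁻¹ * e * g by group] at this
    · intro h
      have := hKn c⁻¹ (inv_mem hc) _ h
      rwa [show c⁻¹ * (g⁻¹ * e * g) * c⁻¹⁻¹ = (g * c)⁻¹ * e * (g * c) by group] at this
  let M : Subgroup G := E ⊓ centralizer ({e} : Set G)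
  let X : Set (G ⧸ C) := {q | ∃ g : G, (g : G ⧸ C) = q ∧ plus g}
  have hX : ∀ g : G, (g : G ⧸ C) ∈ X ↔ plus g := by
    intro g
    refine ⟨?_, fun h => ⟨g, rfl, h⟩⟩
    rintro ⟨h, hh, hp⟩
    have hc : h⁻¹ * g ∈ C := QuotientGroup.eq.1 hh
    have := (plus_mul h _ hc).2 hp
    rwa [mul_inv_cancel_left] at this
  have hMX : ∀ m ∈ M, ∀ q ∈ X, m • q ∈ X := by
    intro m hm q hq
    induction q using QuotientGroup.induction_on with
    | H g =>
      show ((m * g : G) : G ⧸ C) ∈ X
      rw [hX] at hq ⊢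
      have hme := mem_centralizer_singleton_iff.1 hm.2
      show (m * g)⁻¹ * e * (m * g) ∈ K
      rwa [show (m * g)⁻¹ * e * (m * g) = g⁻¹ * (m⁻¹ * (e * m)) * g by group, ← hme,
        inv_mul_cancel_left]
  -- first action
  letI actM : MulAction M X :=
    { smul := fun m q => ⟨(m : G) • q.1, hMX m m.2 q.1 q.2⟩
      one_smul := fun q => Subtype.ext (one_smul G q.1)
      mul_smul := fun m n q => Subtype.ext (mul_smul (m : G) (n : G) q.1) }
  have h2M : IsPGroup 2 M := S.two.to_le inf_le_left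
  have h1 := h2M.card_modEq_card_fixedPoints X
  -- second action
  let Y : Set (G ⧸ C) := {q | q ∈ X ∧ ∀ m ∈ M, m • q = q}
  have hY : Nat.card (MulAction.fixedPoints M X) = Nat.card Y :=
    Nat.card_congr
      { toFun := fun q => ⟨q.1.1, q.1.2, fun m hm => congrArg Subtype.val (q.2 ⟨m, hm⟩)⟩
        invFun := fun q => ⟨⟨q.1, q.2.1⟩, fun m => Subtype.ext (q.2.2 m m.2)⟩
        left_inv := fun q => rfl
        right_inv := fun q => rfl }
  have hMn : ∀ a ∈ E, ∀ m ∈ M, a⁻¹ * m * a ∈ M := by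
    intro a ha m hm
    refine ⟨E.mul_mem (E.mul_mem (E.inv_mem ha) hm.1) ha, mem_centralizer_singleton_iff.2 ?_⟩
    have hme := mem_centralizer_singleton_iff.1 hm.2
    rcases S.bracket a ha e he with h | h
    · have hae : a * e = e * a := by
        calc a * e = a * e * a⁻¹ * e⁻¹ * (e * a) := by group
          _ = e * a := by rw [h, one_mul]
      calc a⁻¹ * m * a * e = a⁻¹ * (m * (a * e)) := by group
        _ = a⁻¹ * ((m * e) * a) := by rw [hae, mul_assoc]
        _ = a⁻¹ * (e * m * a) := by rw [hme]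
        _ = e * (a⁻¹ * m * a) := by
          rw [show a⁻¹ * (e * m * a) = a⁻¹ * (e * a) * a⁻¹ * m * a by group, ← hae]; group
    · have hae : a * e = z * (e * a) := by
        calc a * e = a * e * a⁻¹ * e⁻¹ * (e * a) := by group
          _ = z * (e * a) := by rw [h]
      have hea : e * a = z * (a * e) := by rw [hae, ← mul_assoc, S.z_sq, one_mul]
      have hmz := S.comm m hm.1
      have haz : a⁻¹ * z = z * a⁻¹ := S.comm a⁻¹ (inv_mem ha)
      calc a⁻¹ * m * a * e = a⁻¹ * (m * (a * e)) := by group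
        _ = a⁻¹ * ((m * z) * (e * a)) := by rw [hae, mul_assoc]
        _ = a⁻¹ * (z * ((m * e) * a)) := by rw [hmz]; group
        _ = z * (a⁻¹ * (e * m * a)) := by rw [← mul_assoc a⁻¹ z, haz, hme, mul_assoc]
        _ = z * ((a⁻¹ * (e * a)) * (a⁻¹ * m * a)) := by group
        _ = z * ((a⁻¹ * (z * (a * e))) * (a⁻¹ * m * a)) := by rw [hea]
        _ = z * ((z * e) * (a⁻¹ * m * a)) := by
          rw [← mul_assoc a⁻¹ z, haz, mul_assoc z, inv_mul_cancel_left]
        _ = e * (a⁻¹ * m * a) := by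
          rw [show z * (z * e * (a⁻¹ * m * a)) = z * z * (e * (a⁻¹ * m * a)) by group, S.z_sq, one_mul]
  have hEY : ∀ a ∈ E, ∀ q ∈ Y, a • q ∈ Y := by
    rintro a ha q ⟨hqX, hqM⟩
    refine ⟨?_, fun m hm => ?_⟩
    · induction q using QuotientGroup.induction_on with
      | H g =>
        have hfix : ∀ m ∈ M, g⁻¹ * m * g ∈ C := by
          intro m hm
          have h : ((m * g : G) : G ⧸ C) = g := hqM m hm
          have := QuotientGroup.eq.1 h.symm
          rwa [← mul_assoc] at this
        show ((a * g : G) : G ⧸ C) ∈ X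
        rw [hX] at hqX ⊢
        have hzK : g⁻¹ * z * g ∈ K := by
          have := hKc _ (hfix x ⟨hx, mem_centralizer_singleton_iff.2 hxe⟩) _
            (hfix y ⟨hy, mem_centralizer_singleton_iff.2 hye⟩)
          rwa [show g⁻¹ * x * g * (g⁻¹ * y * g) * (g⁻¹ * x * g)⁻¹ * (g⁻¹ * y * g)⁻¹ =
            g⁻¹ * (x * y * x⁻¹ * y⁻¹) * g by group, hxy] at this
        show (a * g)⁻¹ * e * (a * g) ∈ K
        rcases S.bracket a⁻¹ (inv_mem ha) e he with h | h
        · rw [show (a * g)⁻¹ * e * (a * g) =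
            g⁻¹ * (a⁻¹ * e * a⁻¹⁻¹ * e⁻¹) * g * (g⁻¹ * e * g) by group, h, mul_one, inv_mul_cancel,
            one_mul]
          exact hqX
        · rw [show (a * g)⁻¹ * e * (a * g) =
            g⁻¹ * (a⁻¹ * e * a⁻¹⁻¹ * e⁻¹) * g * (g⁻¹ * e * g) by group, h]
          exact mul_mem hzK hqX
    · rw [← mul_smul, show m * a = a * (a⁻¹ * m * a) by group, mul_smul, hqM _ (hMn a ha m hm)]
  letI actE : MulAction E Y :=
    { smul := fun a q => ⟨(a : G) • q.1, hEY a a.2 q.1 q.2⟩
      one_smul := fun q => Subtype.ext (one_smul G q.1)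
      mul_smul := fun m n q => Subtype.ext (mul_smul (m : G) (n : G) q.1) }
  have h2 := S.two.card_modEq_card_fixedPoints Y
  have hempty : IsEmpty (MulAction.fixedPoints E Y) := by
    refine ⟨fun ⟨⟨q, hqX, _⟩, hq⟩ => ?_⟩
    induction q using QuotientGroup.induction_on with
    | H g =>
      have hfix : ∀ a ∈ E, g⁻¹ * a * g ∈ C := by
        intro a ha
        have h : ((a * g : G) : G ⧸ C) = g := congrArg Subtype.val (hq ⟨a, ha⟩)
        have := QuotientGroup.eq.1 h.symm
        rwa [← mul_assoc] at this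
      rcases S.cent (g * z * g⁻¹) (fun a ha => by
        have := mem_centralizer_singleton_iff.1 (hfix a ha)
        calc g * z * g⁻¹ * a = g * (z * (g⁻¹ * a * g)) * g⁻¹ := by group
          _ = g * ((g⁻¹ * a * g) * z) * g⁻¹ := by rw [this]
          _ = _ := by group) with h | h
      · exact S.z_ne (conj_eq_one_iff.1 h)
      · have hg : g ∈ C := mem_centralizer_singleton_iff.2 (mul_inv_eq_iff_eq_mul.1 h)
        rw [hX] at hqX
        have := hKn g hg _ hqX
        exact heK (by rwa [show g * (g⁻¹ * e * g) * g⁻¹ = e by group] at this)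
  have heven : Even (Nat.card X) := by
    rw [Nat.even_iff]
    have e1 : Nat.card X % 2 = Nat.card (MulAction.fixedPoints M X) % 2 := h1
    have e2 : Nat.card Y % 2 = Nat.card (MulAction.fixedPoints E Y) % 2 := h2
    rw [e1, hY, e2, Nat.card_of_isEmpty]
  -- the sign of `e` on the cosets of `K`
  let : Fintype (G ⧸ K) := Fintype.ofFinite _
  let σ : Equiv.Perm (G ⧸ K) := MulAction.toPermHom G (G ⧸ K) e
  let π : G ⧸ K → G ⧸ C := fun q => (Subgroup.quotientEquivProdOfLE hKC q).1
  have hπ : ∀ g : G, π (g : G ⧸ K) = (g : G ⧸ C) := fun g => rfl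
  have hfix : ∀ q : G ⧸ K, σ q = q ↔ π q ∈ X := by
    intro q
    induction q using QuotientGroup.induction_on with
    | H g =>
      rw [hπ, hX]
      show ((e * g : G) : G ⧸ K) = (g : G ⧸ K) ↔ g⁻¹ * e * g ∈ K
      rw [eq_comm, QuotientGroup.eq, mul_assoc]
  have hF : Nat.card {q : G ⧸ K // σ q = q} = 2 * Nat.card X := by
    have e1 : {q : G ⧸ K // σ q = q} ≃ {p : (G ⧸ C) × (↥C ⧸ K.subgroupOf C) // p.1 ∈ X} :=
      (Subgroup.quotientEquivProdOfLE hKC).subtypeEquiv fun q => hfix q
    have e2 : {p : (G ⧸ C) × (↥C ⧸ K.subgroupOf C) // p.1 ∈ X} ≃ X × (↥C ⧸ K.subgroupOf C) :=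
      { toFun := fun p => (⟨p.1.1, p.2⟩, p.1.2)
        invFun := fun p => ⟨(p.1.1, p.2), p.1.2⟩
        left_inv := fun p => rfl
        right_inv := fun p => rfl }
    rw [Nat.card_congr (e1.trans e2), Nat.card_prod, mul_comm]
    congr 1
  have hsupp : σ.support.card + Nat.card {q : G ⧸ K // σ q = q} = K.index := by
    have : Nat.card {q : G ⧸ K // σ q = q} = σ.supportᶜ.card := by
      rw [Nat.card_eq_fintype_card, Fintype.card_subtype]
      congr 1
      ext q
      simp
    rw [this, Finset.card_add_card_compl, ← Nat.card_eq_fintype_card]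
    rfl
  have hKi : K.index = 2 * C.index := by
    rw [← relIndex_mul_index hKC, hK]
  have hσ2 : σ ^ 2 = 1 := by
    show (MulAction.toPermHom G (G ⧸ K) e) ^ 2 = 1
    rw [← map_pow, pow_two, he2, map_one]
  have hct : σ.cycleType = Multiset.replicate (Multiset.card σ.cycleType) 2 := by
    refine Multiset.eq_replicate_card.mpr fun n hn => ?_
    have h1 : orderOf σ ∣ 2 := orderOf_dvd_of_pow_eq_one hσ2
    have h2 : n ∣ orderOf σ := Equiv.Perm.dvd_of_mem_cycleType hn
    rcases (Nat.dvd_prime Nat.prime_two).mp (h2.trans h1) with h | h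
    · have := Equiv.Perm.two_le_of_mem_cycleType hn
      omega
    · exact h
  have hsum := Equiv.Perm.sum_cycleType σ
  have hsign : Equiv.Perm.sign σ = 1 := hres (Equiv.Perm.sign.comp (MulAction.toPermHom G (G ⧸ K))) e
  rw [Equiv.Perm.sign_of_cycleType, hct, Multiset.sum_replicate, Multiset.card_replicate,
    smul_eq_mul] at hsign
  have hodd : Odd (Multiset.card σ.cycleType) := by
    rw [hct, Multiset.sum_replicate, smul_eq_mul] at hsum
    have h1 : C.index % 2 = 1 := Nat.odd_iff.1 S.odd_index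
    have h3 := Nat.even_iff.1 heven
    rw [Nat.odd_iff]
    omega
  rw [pow_add, pow_mul, hodd.neg_one_pow] at hsign
  simp at hsign

end Setting

theorem hom_trivial_of_residual (hres : Cfsg.pResidual 2 G = ⊤) (φ : G →* ℤˣ) (g : G) : φ g = 1 := by
  have hle : Cfsg.pResidual 2 G ≤ φ.ker := by
    rw [Cfsg.pResidual, closure_le]
    intro a ha
    show φ a = 1
    rcases Int.units_eq_one_or (φ a) with h | h
    · exact h
    · have := congrArg φ (pow_orderOf_eq_one a)
      rw [map_pow, map_one, h, (Nat.coprime_two_right.1 ha).neg_one_pow] at this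
      exact absurd this (by decide)
  exact hle (hres ▸ mem_top g)

namespace Setting

variable {z : G} {E : Subgroup G} (S : Setting z E)
include S

/-- A suitable involution exists outside a hyperplane. -/
theorem exists_data (hbig : 32 ≤ Nat.card E) (H : Subgroup G) (hzH : z ∈ H) {e₀ : G} (he₀ : e₀ ∈ E)
    (he₀H : e₀ ∉ H) (hH2 : ∀ a ∈ E, ∀ b ∈ E, a ∉ H → b ∉ H → a * b ∈ H) :
    ∃ e ∈ E, e * e = 1 ∧ e ∉ H ∧ ∃ x ∈ E, ∃ y ∈ E, x * e = e * x ∧ y * e = e * y ∧
      x * y * x⁻¹ * y⁻¹ = z := by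
  classical
  have commE : ∀ a ∈ E, ∀ b ∈ E, a * b = b * a ∨ a * b = z * (b * a) := by
    intro a ha b hb
    rcases S.bracket a ha b hb with h | h
    · left
      calc a * b = a * b * a⁻¹ * b⁻¹ * (b * a) := by group
        _ = b * a := by rw [h, one_mul]
    · right
      calc a * b = a * b * a⁻¹ * b⁻¹ * (b * a) := by group
        _ = z * (b * a) := by rw [h]
  -- an abelian subgroup of index two is impossible
  have nonab : ∀ L : Subgroup G, L ≤ E → 2 * Nat.card L ≥ Nat.card E → ∀ a ∈ E, a ∉ L →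
      (∀ u ∈ E, ∀ v ∈ E, u ∉ L → v ∉ L → u * v ∈ L) → ∃ u ∈ L, ∃ v ∈ L, u * v ≠ v * u := by
    intro L hLE hL a ha haL hL2
    by_contra hab
    push Not at hab
    -- the centraliser of `a` in `L` is central
    have hmap : ∀ v : {v : L // (v : G) * a = a * v}, (v.1 : G) = 1 ∨ (v.1 : G) = z := by
      intro v
      refine S.cent _ fun u hu => ?_
      by_cases huL : u ∈ L
      · exact hab _ v.1.2 u huL
      · have h1 : a⁻¹ * u ∈ L := by
          refine hL2 _ (inv_mem ha) _ hu (fun h => haL (by simpa using inv_mem h)) huL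
        have h2 := hab _ v.1.2 _ h1
        calc (v.1 : G) * u = (v.1 : G) * a * (a⁻¹ * u) := by group
          _ = a * ((v.1 : G) * (a⁻¹ * u)) := by rw [v.2, mul_assoc]
          _ = a * ((a⁻¹ * u) * v.1) := by rw [h2]
          _ = u * v.1 := by group
    let f : L → (({1, z} : Finset G)) × Bool := fun v =>
      if h : (v : G) * a = a * v then
        (⟨(v : G), by exact Finset.mem_insert.2 ((hmap ⟨v, h⟩).imp id Finset.mem_singleton.2)⟩, true)
      else (⟨1, by simp⟩, false)
    have hcount : ∀ v : L, ¬ (v : G) * a = a * v → ∀ w : L, ¬ (w : G) * a = a * w →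
        ((v⁻¹ * w : L) : G) * a = a * ((v⁻¹ * w : L) : G) := by
      intro v hv w hw
      have h1 := (commE _ (hLE v.2) a ha).resolve_left hv
      have h2 := (commE _ (hLE w.2) a ha).resolve_left hw
      have h3 : (v : G)⁻¹ * a = z * (a * (v : G)⁻¹) := by
        have hz := S.comm _ (hLE v.2)
        calc (v : G)⁻¹ * a = (v : G)⁻¹ * (z * z * (a * v)) * (v : G)⁻¹ := by
              rw [S.z_sq, one_mul]; group
          _ = (v : G)⁻¹ * (z * ((v : G) * a)) * (v : G)⁻¹ := by rw [h1, mul_assoc z z]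
          _ = (v : G)⁻¹ * ((v : G) * z * a) * (v : G)⁻¹ := by rw [hz, ← mul_assoc z]
          _ = z * (a * (v : G)⁻¹) := by group
      show (v : G)⁻¹ * w * a = a * ((v : G)⁻¹ * w)
      calc (v : G)⁻¹ * w * a = (v : G)⁻¹ * z * (a * w) := by rw [mul_assoc, h2, mul_assoc]
        _ = z * ((v : G)⁻¹ * a * w) := by rw [S.comm _ (inv_mem (hLE v.2))]; group
        _ = z * z * (a * (v : G)⁻¹ * w) := by rw [h3]; group
        _ = a * ((v : G)⁻¹ * w) := by rw [S.z_sq, one_mul, mul_assoc]
    have hle : Nat.card L ≤ 4 := by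
      by_cases hex : ∃ v : L, ¬ (v : G) * a = a * v
      · obtain ⟨v0, hv0⟩ := hex
        let F : L → (({1, z} : Finset G)) × Bool := fun w =>
          if h : (w : G) * a = a * w then
            (⟨(w : G), by exact Finset.mem_insert.2 ((hmap ⟨w, h⟩).imp id Finset.mem_singleton.2)⟩, true)
          else (⟨((v0⁻¹ * w : L) : G), by
            exact Finset.mem_insert.2 ((hmap ⟨v0⁻¹ * w, hcount v0 hv0 w h⟩).imp id Finset.mem_singleton.2)⟩, false)
        have hF : Function.Injective F := by
          intro w1 w2 h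
          simp only [F] at h
          split_ifs at h with h1 h2 h2
          · exact Subtype.ext (congrArg (fun p => (p.1 : G)) h)
          · exact absurd (congrArg Prod.snd h) (by simp)
          · exact absurd (congrArg Prod.snd h) (by simp)
          · have := congrArg (fun p => (p.1 : G)) h
            exact Subtype.ext (mul_left_cancel this)
        refine (Nat.card_le_card_of_injective F hF).trans ?_
        rw [Nat.card_prod, Nat.card_eq_fintype_card, Fintype.card_coe]
        have : ({1, z} : Finset G).card ≤ 2 := Finset.card_le_two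
        simp
        omega
      · push Not at hex
        let F : L → ({1, z} : Finset G) := fun w =>
          ⟨(w : G), by exact Finset.mem_insert.2 ((hmap ⟨w, hex w⟩).imp id Finset.mem_singleton.2)⟩
        have hF : Function.Injective F := fun a b h => Subtype.ext (congrArg Subtype.val h : (F a : G) = F b)
        refine (Nat.card_le_card_of_injective F hF).trans ?_
        rw [Nat.card_eq_fintype_card, Fintype.card_coe]
        exact Finset.card_le_two.trans (by norm_num)
    omega
  have half : ∀ L : Subgroup G, L ≤ E → ∀ a ∈ E, a ∉ L →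
      (∀ u ∈ E, ∀ v ∈ E, u ∉ L → v ∉ L → u * v ∈ L) → 2 * Nat.card L ≥ Nat.card E := by
    intro L hLE a ha haL hL2
    let F : E → L × Bool := fun u =>
      if h : (u : G) ∈ L then (⟨u, h⟩, true)
      else (⟨a⁻¹ * u, hL2 _ (inv_mem ha) _ u.2 (fun h' => haL (by simpa using inv_mem h')) h⟩, false)
    have hF : Function.Injective F := by
      intro u v h
      simp only [F] at h
      split_ifs at h with h1 h2 h2
      · exact Subtype.ext (congrArg (fun p => (p.1 : G)) h)
      · exact absurd (congrArg Prod.snd h) (by simp)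
      · exact absurd (congrArg Prod.snd h) (by simp)
      · exact Subtype.ext (mul_left_cancel (congrArg (fun p => (p.1 : G)) h))
    have := Nat.card_le_card_of_injective F hF
    rw [Nat.card_prod] at this
    simp at this
    omega
  have hL := half (E ⊓ H) inf_le_left e₀ he₀ (fun h => he₀H h.2) fun u hu v hv hu' hv' =>
    ⟨mul_mem hu hv, hH2 u hu v hv (fun h => hu' ⟨hu, h⟩) fun h => hv' ⟨hv, h⟩⟩
  -- an involution outside `H`
  obtain ⟨e, heE, he2, heH⟩ : ∃ e ∈ E, e * e = 1 ∧ e ∉ H := by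
    rcases S.sq e₀ he₀ with h0 | h0
    · exact ⟨e₀, he₀, h0, he₀H⟩
    by_contra hno
    push Not at hno
    have hsq : ∀ f ∈ E ⊓ H, (f * e₀ = e₀ * f → f * f = 1) ∧ (f * e₀ ≠ e₀ * f → f * f = z) := by
      intro f hf
      have hprod : (e₀ * f) * (e₀ * f) ≠ 1 := fun h => he₀H (by
        have := mul_mem (hno _ (mul_mem he₀ hf.1) h) (inv_mem hf.2)
        rwa [mul_inv_cancel_right] at this)
      constructor
      · intro hc
        refine (S.sq f hf.1).resolve_right fun hfz => hprod ?_
        calc e₀ * f * (e₀ * f) = e₀ * (f * e₀) * f := by group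
          _ = (e₀ * e₀) * (f * f) := by rw [hc]; group
          _ = 1 := by rw [h0, hfz, S.z_sq]
      · intro hc
        refine (S.sq f hf.1).resolve_left fun hf1 => hprod ?_
        have h' := (commE f hf.1 e₀ he₀).resolve_left hc
        calc e₀ * f * (e₀ * f) = e₀ * (f * e₀) * f := by group
          _ = e₀ * z * (e₀ * (f * f)) := by rw [h']; group
          _ = z * ((e₀ * e₀) * (f * f)) := by rw [S.comm e₀ he₀]; group
          _ = 1 := by rw [h0, hf1, mul_one, S.z_sq]
    obtain ⟨u, hu, v, hv, huv⟩ := nonab (E ⊓ H) inf_le_left hL e₀ he₀ (fun h => he₀H h.2)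
      fun u hu v hv hu' hv' =>
        ⟨mul_mem hu hv, hH2 u hu v hv (fun h => hu' ⟨hu, h⟩) fun h => hv' ⟨hv, h⟩⟩
    have huv' := (commE u hu.1 v hv.1).resolve_left huv
    -- `u ↦ u * u` is additive on `E ⊓ H`
    have key : (u * v) * (u * v) = (u * u) * (v * v) := by
      have hmul : ∀ f ∈ E ⊓ H, f * e₀ * f⁻¹ * e₀⁻¹ = f * f := by
        intro f hf
        by_cases hc : f * e₀ = e₀ * f
        · rw [(hsq f hf).1 hc, hc, mul_inv_cancel_right, mul_inv_cancel]
        · rw [(hsq f hf).2 hc, (commE f hf.1 e₀ he₀).resolve_left hc]; group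
      rw [← hmul _ (mul_mem hu hv), ← hmul u hu]
      rw [show u * v * e₀ * (u * v)⁻¹ * e₀⁻¹ =
        u * (v * e₀ * v⁻¹ * e₀⁻¹) * (e₀ * u⁻¹ * e₀⁻¹) by group, hmul v hv]
      rcases S.sq v hv.1 with h | h
      · rw [h, mul_one, mul_one]; group
      · rw [h, S.comm u hu.1, mul_assoc, show u * (e₀ * u⁻¹ * e₀⁻¹) =
          u * e₀ * u⁻¹ * e₀⁻¹ by group]
        rcases S.bracket u hu.1 e₀ he₀ with h2 | h2
        · rw [h2, mul_one, one_mul]
        · rw [h2]
    apply huv
    have h1 : u * (v * u) * v = u * (u * v) * v := by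
      rw [← mul_assoc u u, mul_assoc (u * u), ← key]; group
    exact (mul_left_cancel (mul_right_cancel h1)).symm
  refine ⟨e, heE, he2, heH, ?_⟩
  -- the centraliser of `e` is not abelian
  let M : Subgroup G := E ⊓ centralizer ({e} : Set G)
  obtain ⟨a, haE, hae⟩ : ∃ a ∈ E, a * e ≠ e * a := by
    by_contra h
    push Not at h
    rcases S.cent e (fun x hx => (h x hx).symm) with h1 | h1
    · exact heH (h1 ▸ one_mem H)
    · exact heH (h1 ▸ hzH)
  have hM2 : ∀ u ∈ E, ∀ v ∈ E, u ∉ M → v ∉ M → u * v ∈ M := by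
    intro u hu v hv hu' hv'
    refine ⟨mul_mem hu hv, mem_centralizer_singleton_iff.2 ?_⟩
    have h1 := (commE u hu e heE).resolve_left fun h => hu' ⟨hu, mem_centralizer_singleton_iff.2 h⟩
    have h2 := (commE v hv e heE).resolve_left fun h => hv' ⟨hv, mem_centralizer_singleton_iff.2 h⟩
    calc u * v * e = u * (v * e) := by group
      _ = (u * z) * (e * v) := by rw [h2]; group
      _ = z * ((u * e) * v) := by rw [S.comm u hu]; group
      _ = (z * z) * (e * (u * v)) := by rw [h1]; group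
      _ = e * (u * v) := by rw [S.z_sq, one_mul]
  have haM : a ∉ M := fun h => hae (mem_centralizer_singleton_iff.1 h.2)
  obtain ⟨x, hx, y, hy, hxy⟩ := nonab M inf_le_left (half M inf_le_left a haE haM hM2) a haE haM hM2
  refine ⟨x, hx.1, y, hy.1, mem_centralizer_singleton_iff.1 hx.2, mem_centralizer_singleton_iff.1 hy.2,
    (S.bracket x hx.1 y hy.1).resolve_left fun h => hxy ?_⟩
  calc x * y = x * y * x⁻¹ * y⁻¹ * (y * x) := by group
    _ = y * x := by rw [h, one_mul]

end Setting

end Cfsg.Agent.H77.LargeEsp
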