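import Mathlib

/-!
# The centraliser of a double transposition in the alternating group of degree six
-/

set_option autoImplicit false

open Equiv DihedralGroup

namespace Cfsg.Agent.H77.AltSix

/-- Four-cycle times transposition. -/
def rot : Perm (Fin 6) := swap 0 2 * swap 2 1 * swap 1 3 * swap 4 5

/-- A reflection. -/
def refl : Perm (Fin 6) := swap 0 1 * swap 4 5

/-- The embedding of the dihedral group of order eight. -/
def emb : DihedralGroup 4 → Perm (Fin 6)
  | r i => rot ^ i.val
  | sr i => refl * rot ^ i.val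

theorem emb_mul : ∀ x y, emb (x * y) = emb x * emb y := by decide +kernel

theorem emb_inj : ∀ x y, emb x = emb y → x = y := by decide +kernel

theorem emb_r_two : emb (r 2) = swap 0 1 * swap 2 3 := by decide +kernel

theorem emb_sign : ∀ x, Perm.sign (emb x) = 1 := by decide +kernel

theorem emb_range : ∀ p : Perm (Fin 6), Perm.sign p = 1 → p * emb (r 2) = emb (r 2) * p →
    ∃ x, emb x = p := by decide +kernel

/-- The centraliser of a double transposition in `A₆` is dihedral of order eight. -/
theorem nonempty_centralizer_equiv (a : ↥(alternatingGroup (Fin 6))) (ha : orderOf a = 2)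
    (hs : (a : Perm (Fin 6)).support.card = 4) :
    Nonempty (↥(Subgroup.centralizer ({a} : Set ↥(alternatingGroup (Fin 6)))) ≃* DihedralGroup 4) := by
  have ha' : orderOf (a : Perm (Fin 6)) = 2 := by rwa [Subgroup.orderOf_coe]
  obtain ⟨n, hn⟩ := Equiv.Perm.cycleType_prime_order (σ := (a : Perm (Fin 6))) (by rw [ha']; exact Nat.prime_two)
  rw [ha'] at hn
  have hsum := Equiv.Perm.sum_cycleType (a : Perm (Fin 6))
  rw [hn, Multiset.sum_replicate, hs, smul_eq_mul] at hsum
  have hstd : (emb (r 2)).cycleType = (a : Perm (Fin 6)).cycleType := by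
    rw [hn, show n + 1 = 2 by omega, emb_r_two, Equiv.Perm.Disjoint.cycleType_mul (Equiv.Perm.disjoint_iff_disjoint_support.2 (by decide +kernel)),
      (Equiv.Perm.isCycle_swap (by decide)).cycleType, (Equiv.Perm.isCycle_swap (by decide)).cycleType,
      Equiv.Perm.card_support_swap (by decide), Equiv.Perm.card_support_swap (by decide)]
    rfl
  obtain ⟨g, hg⟩ := isConj_iff.1 (Equiv.Perm.isConj_iff_cycleType_eq.2 hstd)
  let φ : DihedralGroup 4 →* ↥(Subgroup.centralizer ({a} : Set ↥(alternatingGroup (Fin 6)))) :=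
    MonoidHom.mk' (fun x => ⟨⟨g * emb x * g⁻¹, Equiv.Perm.mem_alternatingGroup.2 (by
        rw [map_mul, map_mul, emb_sign, mul_one, map_inv, mul_inv_cancel])⟩, by
      rw [Subgroup.mem_centralizer_singleton_iff]
      apply Subtype.ext
      show g * emb x * g⁻¹ * (a : Perm (Fin 6)) = (a : Perm (Fin 6)) * (g * emb x * g⁻¹)
      rw [← hg]
      have hc : emb x * emb (r 2) = emb (r 2) * emb x := by
        rw [← emb_mul, ← emb_mul]; congr 1; revert x; decide
      calc g * emb x * g⁻¹ * (g * emb (r 2) * g⁻¹) = g * (emb x * emb (r 2)) * g⁻¹ := by group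
        _ = g * (emb (r 2) * emb x) * g⁻¹ := by rw [hc]
        _ = g * emb (r 2) * g⁻¹ * (g * emb x * g⁻¹) := by group⟩)
      fun x y => by
        apply Subtype.ext; apply Subtype.ext
        show g * emb (x * y) * g⁻¹ = g * emb x * g⁻¹ * (g * emb y * g⁻¹)
        rw [emb_mul]; group
  refine ⟨(MulEquiv.ofBijective φ ⟨fun x y e => emb_inj x y ?_, ?_⟩).symm⟩
  · have : g * emb x * g⁻¹ = g * emb y * g⁻¹ := congrArg (fun z => ((z.1 : ↥(alternatingGroup (Fin 6))) : Perm (Fin 6))) e
    exact mul_left_cancel (mul_right_cancel this)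
  · rintro ⟨⟨p, hp⟩, hpc⟩
    have hpc' : p * (a : Perm (Fin 6)) = (a : Perm (Fin 6)) * p :=
      congrArg Subtype.val (Subgroup.mem_centralizer_singleton_iff.1 hpc)
    obtain ⟨x, hx⟩ := emb_range (g⁻¹ * p * g) (by
        rw [map_mul, map_mul, Equiv.Perm.mem_alternatingGroup.1 hp, mul_one, map_inv, inv_mul_cancel]) (by
      rw [← hg] at hpc'
      calc g⁻¹ * p * g * emb (r 2) = g⁻¹ * (p * (g * emb (r 2) * g⁻¹)) * g := by group
        _ = g⁻¹ * ((g * emb (r 2) * g⁻¹) * p) * g := by rw [hpc']
        _ = emb (r 2) * (g⁻¹ * p * g) := by group)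
    refine ⟨x, Subtype.ext (Subtype.ext ?_)⟩
    show g * emb x * g⁻¹ = p
    rw [hx]; group

end Cfsg.Agent.H77.AltSix
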