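import Cfsg.Agent.H77.SolvableCore
import Cfsg.Agent.H19.Misc
import Cfsg.Prelude.Def_Transfer

set_option autoImplicit false

namespace Cfsg.Agent.H77

open Subgroup

/-- In a group with normal `2`-complement, odd-order elements centralize every normal `2`-subgroup. -/
theorem commute_of_hasNormalPComplement {C : Type*} [Group C] [Finite C]
    (hC : Cfsg.HasNormalPComplement 2 C) {x y : C} {W : Subgroup C} [W.Normal] (hW : IsPGroup 2 ↥W)
    (hx : Odd (orderOf x)) (hy : y ∈ W) : Commute x y := by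
  obtain ⟨P, N, hN, hNP⟩ := hC
  haveI := hN
  have hidx : ∃ k, N.index = 2 ^ k := by
    obtain ⟨k, hk⟩ := P.isPGroup'.exists_card_eq
    exact ⟨k, by rw [← hk]; exact hNP.symm.index_eq_card⟩
  obtain ⟨k, hk⟩ := hidx
  have hxN : x ∈ N := by
    rw [← QuotientGroup.eq_one_iff, ← orderOf_eq_one_iff]
    apply Nat.dvd_one.1
    have h1 : orderOf (x : C ⧸ N) ∣ orderOf x := orderOf_map_dvd (QuotientGroup.mk' N) x
    have h2 : orderOf (x : C ⧸ N) ∣ 2 ^ k := by
      rw [← hk]
      exact orderOf_dvd_natCard _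
    have h3 : Nat.Coprime (orderOf x) (2 ^ k) := Nat.Coprime.pow_right _ hx.coprime_two_right
    exact h3 ▸ Nat.dvd_gcd h1 h2
  have hNodd : (Nat.card N).Coprime 2 := by
    refine Nat.Coprime.symm ((Nat.prime_two.coprime_iff_not_dvd).2 fun h => ?_)
    exact P.not_dvd_index (by rw [hNP.index_eq_card]; exact h)
  have hdisj : N ⊓ W = ⊥ := by
    rw [inf_comm]
    exact H19.inf_eq_bot_of_isPGroup_coprime hW hNodd
  exact commute_of_normal_of_disjoint N W hN inferInstance (disjoint_iff.2 hdisj) x y hxN hy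

/-- With `2`-nilpotent involution centralizers, an odd-order element commuting with the involution `t`
centralizes the part of `O₂` in `C(t)`. -/
theorem commute_pCore_inter {H : Type*} [Group H] [Finite H]
    (hI : ∀ t : H, orderOf t = 2 → Cfsg.HasNormalPComplement 2 ↥(centralizer ({t} : Set H)))
    {t x y : H} (ht : orderOf t = 2) (hx : Odd (orderOf x)) (hxt : Commute x t)
    (hyt : Commute y t) (hy : y ∈ Cfsg.pCore 2 H) : Commute x y := by
  haveI : (Cfsg.pCore 2 H).Normal := H19.pCore_normal 2 H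
  have h := commute_of_hasNormalPComplement (hI t ht)
    (x := ⟨x, mem_centralizer_singleton_iff.2 hxt.eq⟩) (y := ⟨y, mem_centralizer_singleton_iff.2 hyt.eq⟩)
    (W := (Cfsg.pCore 2 H).subgroupOf _)
    ((H19.pCore_isPGroup (G := H) 2).comap_of_injective _ Subtype.val_injective)
    (by rwa [Subgroup.orderOf_mk]) (mem_subgroupOf.2 hy)
  exact congrArg Subtype.val h.eq

/-- With trivial odd core and `2`-nilpotent involution centralizers in a solvable group, no nontrivial
odd-order element centralizes a nontrivial element of `O₂`. -/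
theorem eq_one_of_commute_pCore {H : Type*} [Group H] [Finite H] [Group.IsSolvable H]
    (hO : Cfsg.pPrimeCore 2 H = ⊥)
    (hI : ∀ t : H, orderOf t = 2 → Cfsg.HasNormalPComplement 2 ↥(centralizer ({t} : Set H)))
    {x y : H} (hx : Odd (orderOf x)) (hy : y ∈ Cfsg.pCore 2 H) (hy1 : y ≠ 1) (hxy : Commute x y) :
    x = 1 := by
  set Y := Cfsg.pCore 2 H with hY
  haveI hYn : Y.Normal := H19.pCore_normal 2 H
  have hY2 : IsPGroup 2 ↥Y := H19.pCore_isPGroup 2
  obtain ⟨a, ha⟩ := IsPGroup.iff_orderOf.1 hY2 ⟨y, hy⟩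
  rw [Subgroup.orderOf_mk] at ha
  have ha0 : a ≠ 0 := by
    rintro rfl
    exact hy1 (orderOf_eq_one_iff.1 (by simpa using ha))
  set t := y ^ 2 ^ (a - 1) with htdef
  have hto : orderOf t = 2 := by
    rw [htdef, orderOf_pow, ha,
      Nat.gcd_eq_right (pow_dvd_pow 2 (Nat.sub_le a 1)), Nat.pow_div (Nat.sub_le a 1) two_pos]
    rw [show a - (a - 1) = 1 by omega, pow_one]
  haveI : Group.IsNilpotent ↥Y := hY2.isNilpotent
  haveI : Nontrivial ↥Y := ⟨⟨⟨y, hy⟩, 1, fun h => hy1 (congrArg Subtype.val h)⟩⟩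
  haveI : Fact (Nat.Prime 2) := ⟨Nat.prime_two⟩
  haveI := hY2.center_nontrivial
  obtain ⟨⟨w, hwc⟩, hw1⟩ := exists_ne (1 : ↥(center ↥Y))
  obtain ⟨b, hb⟩ := IsPGroup.iff_orderOf.1 hY2 w
  have hb0 : b ≠ 0 := by
    rintro rfl
    exact hw1 (Subtype.ext (orderOf_eq_one_iff.1 (by simpa using hb)))
  set z : ↥Y := w ^ 2 ^ (b - 1) with hzdef
  have hzo : orderOf (z : H) = 2 := by
    rw [Subgroup.orderOf_coe, hzdef, orderOf_pow, hb, Nat.gcd_eq_right (pow_dvd_pow 2 (Nat.sub_le b 1)),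
      Nat.pow_div (Nat.sub_le b 1) two_pos, show b - (b - 1) = 1 by omega, pow_one]
  have hzc : ∀ v ∈ Y, Commute v (z : H) := fun v hv => by
    have : z ∈ center ↥Y := pow_mem hwc _
    exact congrArg Subtype.val (mem_center_iff.1 this ⟨v, hv⟩)
  have htY : t ∈ Y := pow_mem hy _
  have hxz : Commute x (z : H) :=
    commute_pCore_inter hI hto hx (hxy.pow_right _) ((hzc t htY).symm) z.2
  have hxY : x ∈ centralizer (Y : Set H) := mem_centralizer_iff.2 fun v hv =>
    (commute_pCore_inter hI hzo hx hxz (hzc v hv) hv).eq.symm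
  have hxmem : x ∈ Y := centralizer_pCore_le 2 hO hxY
  obtain ⟨c, hc⟩ := IsPGroup.iff_orderOf.1 hY2 ⟨x, hxmem⟩
  rw [Subgroup.orderOf_mk] at hc
  rw [← orderOf_eq_one_iff, hc]
  rcases Nat.eq_zero_or_pos c with rfl | hc0
  · rfl
  · exfalso
    exact Nat.not_even_iff_odd.2 hx (hc ▸ Nat.even_pow.2 ⟨even_two, hc0.ne'⟩)

end Cfsg.Agent.H77
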