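import Mathlib.GroupTheory.OrderOfElement
import Mathlib.Algebra.Group.Conj

set_option autoImplicit false

namespace Cfsg.Agent.H77

/-- An element inverted by an involution: powers are inverted too. -/
theorem involution_conj_pow {G : Type*} [Group G] {x r : G} (h : x * r * x⁻¹ = r⁻¹) (k : ℕ) :
    x * r ^ k * x⁻¹ = (r ^ k)⁻¹ := by
  rw [← conj_pow, h, inv_pow]

/-- Two involutions are conjugate if their product has odd order. -/
theorem isConj_of_odd_product {G : Type*} [Group G] {x y : G} (hx : x * x = 1) (hy : y * y = 1)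
    (h : Odd (orderOf (x * y))) : IsConj x y := by
  have hxi : x⁻¹ = x := inv_eq_of_mul_eq_one_right hx
  have hyi : y⁻¹ = y := inv_eq_of_mul_eq_one_right hy
  have hinv : x * (x * y) * x⁻¹ = (x * y)⁻¹ := by
    rw [mul_inv_rev, hxi, hyi, ← mul_assoc, hx, one_mul]
  obtain ⟨m, hm⟩ := h
  refine isConj_iff.2 ⟨(x * y) ^ m, ?_⟩
  have h1 : x * ((x * y) ^ m)⁻¹ = (x * y) ^ m * x := by
    have := congrArg (fun t => t⁻¹) (involution_conj_pow hinv m)
    simp only [inv_inv] at this
    rw [mul_inv_rev, mul_inv_rev, inv_inv, ← mul_assoc] at this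
    nth_rw 2 [← this]
    simp [mul_assoc]
  rw [mul_assoc, h1, ← mul_assoc, ← pow_add]
  have h2 : (x * y) ^ (2 * m) = (x * y)⁻¹ := by
    apply eq_inv_of_mul_eq_one_left
    rw [← pow_succ, ← hm, pow_orderOf_eq_one]
  rw [← two_mul, h2, mul_inv_rev, hxi, hyi, mul_assoc, hx, mul_one]

/-- Two non-conjugate involutions commute with a common involution lying in the group they generate. -/
theorem exists_involution_commute_of_not_isConj {G : Type*} [Group G] [Finite G] {x y : G}
    (hx : x * x = 1) (hy : y * y = 1) (h : ¬ IsConj x y) :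
    ∃ u : G, u ∈ Subgroup.zpowers (x * y) ∧ orderOf u = 2 ∧ Commute u x ∧ Commute u y := by
  have hev : Even (orderOf (x * y)) := Nat.not_odd_iff_even.1 fun ho => h (isConj_of_odd_product hx hy ho)
  obtain ⟨m, hm⟩ := even_iff_two_dvd.1 hev
  have hpos := orderOf_pos (x * y)
  have hxi : x⁻¹ = x := inv_eq_of_mul_eq_one_right hx
  have hyi : y⁻¹ = y := inv_eq_of_mul_eq_one_right hy
  have hu2 : orderOf ((x * y) ^ m) = 2 := by
    rw [orderOf_pow' _ (by omega), hm, Nat.gcd_mul_left_left, Nat.mul_div_cancel _ (by omega)]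
  have hinv : x * (x * y) * x⁻¹ = (x * y)⁻¹ := by
    rw [mul_inv_rev, hxi, hyi, ← mul_assoc, hx, one_mul]
  have huinv : ((x * y) ^ m)⁻¹ = (x * y) ^ m := by
    apply inv_eq_of_mul_eq_one_right
    have := pow_orderOf_eq_one ((x * y) ^ m)
    rwa [hu2, pow_two] at this
  have hux : Commute ((x * y) ^ m) x := by
    have := involution_conj_pow hinv m
    rw [huinv] at this
    have := congrArg (fun t => t * x) this
    simp only [inv_mul_cancel_right] at this
    exact this.symm
  refine ⟨(x * y) ^ m, ⟨(m : ℤ), zpow_natCast _ _⟩, hu2, hux, ?_⟩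
  have : Commute ((x * y) ^ m) (x * (x * y)) := hux.mul_right ((Commute.refl _).pow_left m)
  rwa [← mul_assoc, hx, one_mul] at this

end Cfsg.Agent.H77
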