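import Cfsg.Agent.H77.PSL2Aut
import Cfsg.Agent.H1.PSLSimple
import Cfsg.Agent.H50.AbelianSylowTwo
import Cfsg.Agent.H64.StemBasic
import Cfsg.Prelude.Def_TwoFusion

/-!
# Groups with abelian Sylow 2-subgroups and an involution centralizer `2 × PSL₂(q)` extended
-/

set_option autoImplicit false
set_option linter.style.haveILetI false

open Matrix MatrixGroups
open scoped commutatorElement

namespace Cfsg.Agent.H77.JankoRee

variable {F : Type*} [Field F] [Fintype F]

/-- Four-group data in `PSL₂(q)` when its Sylow 2-subgroups are abelian. -/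
theorem exists_four_data (hFo : Odd (Fintype.card F))
    (hab : ∀ R : Sylow 2 PSL(2, F), ∀ a ∈ R, ∀ b ∈ R, a * b = b * a) :
    ∃ (V : Subgroup PSL(2, F)) (x : PSL(2, F)), IsKleinFour V ∧
      (Fintype.card F % 8 = 3 ∨ Fintype.card F % 8 = 5) ∧
      x ∈ Subgroup.normalizer (V : Set PSL(2, F)) ∧ orderOf x = 3 ∧
      (∀ v ∈ V, x * v * x⁻¹ = v → v = 1) ∧
      (∀ n ∈ Subgroup.normalizer (V : Set PSL(2, F)), n ∈ Subgroup.closure (insert x (V : Set PSL(2, F)))) := by
  classical
  have h2 : (2 : F) ≠ 0 := H6.two_ne_of_odd rfl hFo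
  obtain ⟨V, hV⟩ := H6.exists_four (F := F) h2
  haveI : Fact (Nat.Prime 2) := ⟨Nat.prime_two⟩
  haveI : Fact (Nat.Prime 3) := ⟨Nat.prime_three⟩
  have hq8 : Fintype.card F % 8 = 3 ∨ Fintype.card F % 8 = 5 := by
    have := Nat.odd_iff.1 hFo
    by_contra hne
    have h8 : Fintype.card F % 8 = 1 ∨ Fintype.card F % 8 = 7 := by omega
    have hN := H6.card_normalizer_four_one h2 rfl h8 hV
    have hVp : IsPGroup 2 V := IsPGroup.of_card (n := 2) (by rw [hV.card_four]; rfl)
    obtain ⟨R, hR⟩ := hVp.exists_le_sylow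
    have h8R : 2 ^ 3 ∣ Nat.card R :=
      R.pow_dvd_card_of_pow_dvd_card ((show 2 ^ 3 ∣ 24 by norm_num).trans (hN ▸ Subgroup.card_subgroup_dvd_card _))
    have hle : (R : Subgroup PSL(2, F)) ≤ V := fun r hr => H6.centralizer_four_le h2 hV
      (Subgroup.mem_centralizer_iff.2 fun v hv => hab R v (hR hv) r hr)
    have := Nat.le_of_dvd Nat.card_pos h8R
    have hle' := Subgroup.card_le_of_le hle
    rw [hV.card_four] at hle'
    change 2 ^ 3 ≤ Nat.card (R : Subgroup PSL(2, F)) at this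
    omega
  have hN := H6.card_normalizer_four_three h2 rfl hq8 hV
  obtain ⟨⟨x, hx⟩, hxo⟩ := exists_prime_orderOf_dvd_card' 3
    (show 3 ∣ Nat.card (Subgroup.normalizer (V : Set PSL(2, F))) by rw [hN]; norm_num)
  rw [← Subgroup.orderOf_coe] at hxo
  refine ⟨V, x, hV, hq8, hx, hxo, ?_, ?_⟩
  · intro v hv hfix
    by_contra hv1
    have hxV : x ∈ Subgroup.centralizer (V : Set PSL(2, F)) := by
      rw [Subgroup.mem_centralizer_iff]
      intro w hw
      have hxw := (Subgroup.mem_normalizer_iff.1 hx w).1 hw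
      rcases eq_or_ne w 1 with rfl | hw1
      · simp
      rcases eq_or_ne w v with rfl | hwv
      · exact (mul_inv_eq_iff_eq_mul.1 hfix).symm
      have hne1 : x * w * x⁻¹ ≠ 1 := by simpa using hw1
      have hnev : x * w * x⁻¹ ≠ v := by
        intro e; rw [← hfix] at e; exact hwv (by simpa using e)
      by_cases hww : x * w * x⁻¹ = w
      · exact (mul_inv_eq_iff_eq_mul.1 hww).symm
      exfalso
      have hcoe : x * w * x⁻¹ = v * w := by
        have := IsKleinFour.eq_mul_of_ne_all (G := V) (x := ⟨v, hv⟩) (y := ⟨w, hw⟩) (z := ⟨_, hxw⟩)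
          (fun e => hv1 (congrArg Subtype.val e)) (fun e => hw1 (congrArg Subtype.val e))
          (fun e => hwv (congrArg Subtype.val e).symm) (fun e => hne1 (congrArg Subtype.val e))
          (fun e => hnev (congrArg Subtype.val e)) (fun e => hww (congrArg Subtype.val e))
        exact congrArg Subtype.val this
      have hvv : v * v = 1 := by simpa using congrArg Subtype.val (IsKleinFour.mul_self (⟨v, hv⟩ : V))
      have h2x : x * (x * w * x⁻¹) * x⁻¹ = w := by
        calc x * (x * w * x⁻¹) * x⁻¹ = (x * v * x⁻¹) * (x * w * x⁻¹) := by nth_rewrite 1 [hcoe]; group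
          _ = w := by rw [hfix, hcoe, ← mul_assoc, hvv, one_mul]
      have hx3 : x ^ 3 = 1 := hxo ▸ pow_orderOf_eq_one x
      apply hww
      calc x * w * x⁻¹ = x * (x * (x * w * x⁻¹) * x⁻¹) * x⁻¹ := by rw [h2x]
        _ = x ^ 3 * w * (x ^ 3)⁻¹ := by simp [pow_succ, mul_assoc]
        _ = w := by rw [hx3]; simp
    have := Subgroup.orderOf_dvd_natCard V (H6.centralizer_four_le h2 hV hxV)
    rw [hxo, hV.card_four] at this
    norm_num at this
  · set K := Subgroup.closure (insert x (V : Set PSL(2, F)))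
    have hVK : V ≤ K := fun v hv => Subgroup.subset_closure (Set.mem_insert_of_mem _ hv)
    have h12 : 12 ∣ Nat.card K := by
      have h3 : 3 ∣ Nat.card K := hxo ▸ Subgroup.orderOf_dvd_natCard K (Subgroup.subset_closure (Set.mem_insert _ _))
      have h4 : 4 ∣ Nat.card K := hV.card_four ▸ Subgroup.card_dvd_of_le hVK
      exact Nat.Coprime.mul_dvd_of_dvd_of_dvd (by norm_num : Nat.Coprime 3 4) h3 h4
    have hKN : K ≤ Subgroup.normalizer (V : Set PSL(2, F)) := (Subgroup.closure_le _).2 (by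
      rintro y (rfl | hy)
      exacts [hx, Subgroup.le_normalizer hy])
    have heq := Subgroup.eq_of_le_of_card_ge hKN (by rw [hN]; exact Nat.le_of_dvd Nat.card_pos h12)
    intro n hn
    exact heq ▸ hn

/-- An automorphism of 2-power order fixing the normalizer of a four-group is trivial. -/
theorem eq_one_of_pow_two (h8 : Fintype.card F % 8 = 3 ∨ Fintype.card F % 8 = 5)
    {V : Subgroup PSL(2, F)} (hV : IsKleinFour V) (γ : MulAut PSL(2, F)) :
    ∀ m : ℕ, γ ^ 2 ^ m = 1 → (∀ y ∈ Subgroup.normalizer (V : Set PSL(2, F)), γ y = y) → γ = 1 := by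
  intro m
  induction m generalizing γ with
  | zero => intro h _; simpa using h
  | succ m ih =>
    intro h hfix
    refine ih γ ?_ hfix
    have hf : ∀ (n : ℕ), ∀ y ∈ Subgroup.normalizer (V : Set PSL(2, F)), (γ ^ n) y = y := by
      intro n
      induction n with
      | zero => simp
      | succ n ihn => intro y hy; rw [pow_succ, MulAut.mul_apply, hfix y hy, ihn y hy]
    ext z
    exact PSL2Aut.eq_one_of_fix_normalizer_four h8 hV (γ ^ 2 ^ m) (fun w => by
      rw [← MulAut.mul_apply, ← pow_add, ← two_mul, ← pow_succ', h]; rfl) (hf _) z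

variable {G : Type*} [Group G]

/-- An automorphism fixing the image of a four-group and stabilizing the image of `PSL₂(q)` agrees
there with a conjugation from the four-group. -/
theorem exists_four_adjust {V : Subgroup PSL(2, F)} {x : PSL(2, F)}
    (hFo : Odd (Fintype.card F)) (h8 : Fintype.card F % 8 = 3 ∨ Fintype.card F % 8 = 5)
    (hV : IsKleinFour V) (hx : x ∈ Subgroup.normalizer (V : Set PSL(2, F)))
    (hxfix : ∀ v ∈ V, x * v * x⁻¹ = v → v = 1)
    (hgen : ∀ n ∈ Subgroup.normalizer (V : Set PSL(2, F)), n ∈ Subgroup.closure (insert x (V : Set PSL(2, F))))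
    (j : PSL(2, F) →* G) (hj : Function.Injective j) (φ : MulAut G)
    (hst : ∀ z, φ (j z) ∈ j.range) (hfix : ∀ v ∈ V, φ (j v) = j v) (k : ℕ)
    (hk : ∀ z, (φ ^ 2 ^ k) (j z) = j z) :
    ∃ v ∈ V, ∀ z, j v * φ (j z) * (j v)⁻¹ = j z := by
  classical
  have h2 : (2 : F) ≠ 0 := H6.two_ne_of_odd rfl hFo
  choose b hb using hst
  have hbm : ∀ z w, b (z * w) = b z * b w := fun z w => hj (by rw [map_mul, hb, hb, hb, map_mul, map_mul])
  have hbi : Function.Bijective b := by
    have : Function.Injective b := fun z w e => hj (φ.injective (by rw [← hb, ← hb, e]))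
    exact ⟨this, Finite.injective_iff_surjective.1 this⟩
  let β : MulAut PSL(2, F) := MulEquiv.ofBijective (MonoidHom.mk' b hbm) hbi
  have hβ : ∀ z, j (β z) = φ (j z) := hb
  have hβV : ∀ v ∈ V, β v = v := fun v hv => hj (by rw [hβ, hfix v hv])
  have hvv : ∀ v ∈ V, v * v = 1 := fun v hv => by
    simpa using congrArg Subtype.val (IsKleinFour.mul_self (⟨v, hv⟩ : V))
  have hVc : ∀ a ∈ V, ∀ c ∈ V, a * c = c * a := by
    intro a ha c hc
    have h := congrArg (fun z => a * z * c) (hvv _ (mul_mem ha hc))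
    simpa [mul_assoc, hvv a ha, hvv c hc, ← mul_assoc a a] using h.symm
  have hw : x⁻¹ * β x ∈ V := by
    refine H6.centralizer_four_le h2 hV (Subgroup.mem_centralizer_iff.2 fun v hv => ?_)
    have hm := (Subgroup.mem_normalizer_iff.1 hx v).1 hv
    have h := hβV _ hm
    rw [map_mul, map_mul, map_inv, hβV v hv] at h
    calc v * (x⁻¹ * β x) = x⁻¹ * (x * v * x⁻¹) * β x := by group
      _ = x⁻¹ * (β x * v * (β x)⁻¹) * β x := by rw [h]
      _ = x⁻¹ * β x * v := by group
  have hconjmem : ∀ v ∈ V, x⁻¹ * v * x ∈ V := fun v hv => by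
    have := (Subgroup.mem_normalizer_iff.1 (inv_mem hx) v).1 hv
    simpa using this
  let r : V → V := fun v => ⟨(x⁻¹ * v * x) * v, mul_mem (hconjmem v v.2) v.2⟩
  have hr : Function.Injective r := by
    intro a c e
    have e' : x⁻¹ * (a : PSL(2, F)) * x * a = x⁻¹ * c * x * c := congrArg Subtype.val e
    have h1 : x⁻¹ * ((a : PSL(2, F)) * c) * x = a * c := by
      calc x⁻¹ * ((a : PSL(2, F)) * c) * x = (x⁻¹ * a * x) * (x⁻¹ * c * x) := by group
        _ = (x⁻¹ * a * x) * (((a : PSL(2, F)) * a) * (x⁻¹ * c * x)) := by rw [hvv _ a.2, one_mul]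
        _ = (x⁻¹ * a * x * a) * (a * (x⁻¹ * c * x)) := by group
        _ = (x⁻¹ * c * x * c) * (a * (x⁻¹ * c * x)) := by rw [e']
        _ = x⁻¹ * c * x * ((c * a) * (x⁻¹ * c * x)) := by group
        _ = x⁻¹ * c * x * ((x⁻¹ * c * x) * (c * a)) := by rw [hVc _ (mul_mem c.2 a.2) _ (hconjmem _ c.2)]
        _ = a * c := by rw [← mul_assoc, hvv _ (hconjmem _ c.2), one_mul, hVc _ c.2 _ a.2]
    have h2' := hxfix _ (mul_mem a.2 c.2) (by
      calc x * ((a : PSL(2, F)) * c) * x⁻¹ = x * (x⁻¹ * (a * c) * x) * x⁻¹ := by rw [h1]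
        _ = a * c := by group)
    exact Subtype.ext (by rw [eq_inv_of_mul_eq_one_left h2', inv_eq_of_mul_eq_one_right (hvv _ c.2)])
  obtain ⟨v, hv⟩ := Finite.injective_iff_surjective.1 hr ⟨_, hw⟩
  have hv' : x⁻¹ * (v : PSL(2, F)) * x * v = x⁻¹ * β x := congrArg Subtype.val hv
  refine ⟨v, v.2, ?_⟩
  let γ : MulAut PSL(2, F) := MulAut.conj (v : PSL(2, F)) * β
  have hγ : ∀ z, γ z = (v : PSL(2, F)) * β z * (v : PSL(2, F))⁻¹ := fun z => rfl
  have hcomm : Commute (MulAut.conj (v : PSL(2, F))) β := by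
    ext z
    show (v : PSL(2, F)) * β z * (v : PSL(2, F))⁻¹ = β ((v : PSL(2, F)) * z * (v : PSL(2, F))⁻¹)
    rw [map_mul, map_mul, map_inv, hβV v v.2]
  have hγ1 : γ ^ 2 ^ (k + 1) = 1 := by
    have hb1 : β ^ 2 ^ k = 1 := by
      have : ∀ (n : ℕ) (z : PSL(2, F)), j ((β ^ n) z) = (φ ^ n) (j z) := by
        intro n
        induction n with
        | zero => simp
        | succ n ihn => intro z; rw [pow_succ, pow_succ, MulAut.mul_apply, MulAut.mul_apply, ihn, hβ]
      ext z
      exact hj (by rw [this, hk]; rfl)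
    show (MulAut.conj (v : PSL(2, F)) * β) ^ 2 ^ (k + 1) = 1
    rw [hcomm.mul_pow, ← map_pow, pow_succ', pow_mul, sq, hvv v v.2, one_pow, map_one, one_mul, mul_comm 2 (2 ^ k),
      pow_mul, hb1, one_pow]
  have hγx : γ x = x := by
    rw [hγ]
    have hbx : β x = (v : PSL(2, F)) * x * v := by
      rw [show β x = x * (x⁻¹ * β x) by group, ← hv']
      group
    rw [hbx, ← mul_assoc, ← mul_assoc, hvv v v.2, one_mul, mul_inv_cancel_right]
  have hγV : ∀ c ∈ V, γ c = c := fun c hc => by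
    rw [hγ, hβV c hc, hVc _ v.2 _ hc, mul_inv_cancel_right]
  have hγN : ∀ y ∈ Subgroup.normalizer (V : Set PSL(2, F)), γ y = y := by
    intro y hy
    refine Subgroup.closure_induction (p := fun z _ => γ z = z) ?_ (map_one _)
      (fun a c _ _ ha hc => by rw [map_mul, ha, hc]) (fun a _ ha => by rw [map_inv, ha]) (hgen y hy)
    rintro z (rfl | hz)
    exacts [hγx, hγV z hz]
  have := eq_one_of_pow_two h8 hV γ (k + 1) hγ1 hγN
  intro z
  rw [← hβ, ← map_inv, ← map_mul, ← map_mul, ← hγ, this]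
  rfl

end Cfsg.Agent.H77.JankoRee
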