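import Cfsg.Agent.H77.JankoReeSeven

/-!
# Covers and automorphisms in groups of Janko–Ree type
-/

set_option autoImplicit false
set_option linter.style.haveILetI false

open Matrix MatrixGroups
open scoped commutatorElement

namespace Cfsg.Agent.H77.JankoRee

variable {G : Type*} [Group G] [Finite G] {F : Type*} [Field F] [Fintype F]

/-- In an elementary group of order eight, the orbit of a period-seven map satisfies one of two
linear relations. -/
theorem orbit_relation {S : Subgroup G} (hc : Nat.card S = 8) (hsq : ∀ s ∈ S, s * s = 1)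
    (φ : G → G) (hφm : ∀ a ∈ S, ∀ b ∈ S, φ (a * b) = φ a * φ b) (hφS : ∀ a ∈ S, φ a ∈ S)
    (h7 : ∀ a ∈ S, φ^[7] a = a) (hfix : ∀ a ∈ S, φ a = a → a = 1) {u : G} (hu : u ∈ S) (hu1 : u ≠ 1) :
    ∃ a b c : G, a = u ∧ b = φ a ∧ c = φ b ∧ (φ c = a * b ∨ φ c = a * c) ∧
      ∀ s ∈ S, s = 1 ∨ s = a ∨ s = b ∨ s = a * b ∨ s = c ∨ s = a * c ∨ s = b * c ∨ s = a * b * c := by
  classical
  have hcm : ∀ x ∈ S, ∀ y ∈ S, x * y = y * x := fun x hx y hy => by
    have h := congrArg (fun z => x * z * y) (hsq _ (mul_mem hx hy))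
    simpa [mul_assoc, hsq x hx, hsq y hy, ← mul_assoc x x] using h.symm
  have hper : ∀ a ∈ S, a ≠ 1 → ∀ n, 0 < n → n < 7 → φ^[n] a ≠ a := by
    intro a ha ha1 n hn0 hn7 hn
    have h1 : Function.IsPeriodicPt φ n a := hn
    have h2 : Function.IsPeriodicPt φ 7 a := h7 a ha
    have h3 := h1.gcd h2
    have hg : Nat.gcd n 7 = 1 :=
      Nat.coprime_comm.1 ((Nat.Prime.coprime_iff_not_dvd (by norm_num)).2 (fun h => by
        have := Nat.le_of_dvd hn0 h; omega))
    rw [hg] at h3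
    exact ha1 (hfix a ha h3)
  have hφ1 : φ 1 = 1 := by
    have h1 := hφm 1 (one_mem S) 1 (one_mem S)
    rw [one_mul] at h1
    exact mul_left_cancel (h1.symm.trans (mul_one _).symm)
  set b := φ u with hb
  set c := φ b with hcdef
  have hbS : b ∈ S := hφS _ hu
  have hcS : c ∈ S := hφS _ hbS
  have hdS : φ c ∈ S := hφS _ hcS
  have hinv : ∀ x ∈ S, x⁻¹ = x := fun x hx => inv_eq_of_mul_eq_one_right (hsq x hx)
  have hbu : b ≠ u := hper u hu hu1 1 (by norm_num) (by norm_num)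
  have hcu : c ≠ u := hper u hu hu1 2 (by norm_num) (by norm_num)
  have hdu : φ c ≠ u := hper u hu hu1 3 (by norm_num) (by norm_num)
  have hcab : c ≠ u * b := by
    intro e
    refine hper u hu hu1 3 (by norm_num) (by norm_num) ?_
    show φ c = u
    rw [e, hφm u hu b hbS, ← hb, ← hcdef, e, ← mul_assoc, hcm b hbS u hu, mul_assoc, hsq b hbS, mul_one]
  have hinj : ∀ x ∈ S, ∀ y ∈ S, φ x = φ y → x = y := fun x hx y hy e => by
    have h := congrArg φ^[6] e
    rw [← Function.iterate_succ_apply, ← Function.iterate_succ_apply, h7 x hx, h7 y hy] at h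
    exact h
  have hne : ∀ x y : G, x ∈ S → y ∈ S → x ≠ y → x * y ≠ 1 := fun x y hx hy hxy e =>
    hxy (by rw [eq_inv_of_mul_eq_one_left e, hinv y hy])
  have hb1 : b ≠ 1 := fun e => hu1 (hinj u hu 1 (one_mem S) (e.trans hφ1.symm))
  have hc1 : c ≠ 1 := fun e => hb1 (hinj b hbS 1 (one_mem S) (e.trans hφ1.symm))
  have hcb : c ≠ b := fun e => hb1 (hfix b hbS e)
  have hub : u * b ∈ S := mul_mem hu hbS
  let f : ℕ → ℕ → ℕ → G := fun i j k => u ^ i * b ^ j * c ^ k
  have hone : ∀ i j k : ℕ, i < 2 → j < 2 → k < 2 → f i j k = 1 → i = 0 ∧ j = 0 ∧ k = 0 := by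
    intro i j k hi hj hk h
    interval_cases i <;> interval_cases j <;> interval_cases k <;>
      simp only [f, pow_zero, pow_one, one_mul, mul_one] at h <;>
      first
        | exact ⟨rfl, rfl, rfl⟩
        | exact absurd h hu1
        | exact absurd h hb1
        | exact absurd h hc1
        | exact absurd h (hne u b hu hbS hbu.symm)
        | exact absurd h (hne u c hu hcS hcu.symm)
        | exact absurd h (hne b c hbS hcS hcb.symm)
        | exact absurd h (hne (u * b) c hub hcS hcab.symm)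
  have hfS : ∀ i j k, f i j k ∈ S := fun i j k =>
    mul_mem (mul_mem (pow_mem hu _) (pow_mem hbS _)) (pow_mem hcS _)
  have hmod : ∀ (x : G), x ∈ S → ∀ m : ℕ, x ^ m = x ^ (m % 2) := fun x hx m =>
    pow_eq_pow_mod m (by rw [sq, hsq x hx])
  have hmulf : ∀ i j k i' j' k', f i j k * f i' j' k' = f ((i + i') % 2) ((j + j') % 2) ((k + k') % 2) := by
    intro i j k i' j' k'
    have c1 : Commute (c ^ k) (u ^ i' * b ^ j') := hcm _ (pow_mem hcS _) _ (mul_mem (pow_mem hu _) (pow_mem hbS _))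
    have c2 : Commute (b ^ j) (u ^ i') := hcm _ (pow_mem hbS _) _ (pow_mem hu _)
    show u ^ i * b ^ j * c ^ k * (u ^ i' * b ^ j' * c ^ k') = _
    calc u ^ i * b ^ j * c ^ k * (u ^ i' * b ^ j' * c ^ k')
        = u ^ i * b ^ j * (c ^ k * (u ^ i' * b ^ j')) * c ^ k' := by group
      _ = u ^ i * b ^ j * (u ^ i' * b ^ j' * c ^ k) * c ^ k' := by rw [c1.eq]
      _ = u ^ i * (b ^ j * u ^ i') * b ^ j' * (c ^ k * c ^ k') := by group
      _ = u ^ i * (u ^ i' * b ^ j) * b ^ j' * (c ^ k * c ^ k') := by rw [c2.eq]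
      _ = u ^ (i + i') * b ^ (j + j') * c ^ (k + k') := by simp only [pow_add, mul_assoc]
      _ = f ((i + i') % 2) ((j + j') % 2) ((k + k') % 2) := by
        show _ = _ * _ * _
        rw [← hmod u hu, ← hmod b hbS, ← hmod c hcS]
  have hlist : ∀ s ∈ S, ∃ i j k : Fin 2, f i j k = s := by
    let g : Fin 2 × Fin 2 × Fin 2 → S := fun p => ⟨f p.1 p.2.1 p.2.2, hfS _ _ _⟩
    have hg : Function.Injective g := by
      rintro ⟨i, j, k⟩ ⟨i', j', k'⟩ e
      have e' : f i j k = f i' j' k' := congrArg Subtype.val e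
      have h := hmulf i j k i' j' k'
      rw [e', hsq _ (hfS _ _ _)] at h
      obtain ⟨h1, h2, h3⟩ := hone _ _ _ (Nat.mod_lt _ (by norm_num)) (Nat.mod_lt _ (by norm_num))
        (Nat.mod_lt _ (by norm_num)) h.symm
      ext <;> dsimp only <;> omega
    have hb' : Function.Bijective g :=
      (Nat.bijective_iff_injective_and_card g).2 ⟨hg, by rw [hc]; simp⟩
    intro s hs
    obtain ⟨⟨i, j, k⟩, e⟩ := hb'.2 ⟨s, hs⟩
    exact ⟨i, j, k, congrArg Subtype.val e⟩
  have hall : ∀ s ∈ S, s = 1 ∨ s = u ∨ s = b ∨ s = u * b ∨ s = c ∨ s = u * c ∨ s = b * c ∨ s = u * b * c := by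
    intro s hs
    obtain ⟨i, j, k, rfl⟩ := hlist s hs
    fin_cases i <;> fin_cases j <;> fin_cases k <;> simp [f]
  refine ⟨u, b, c, rfl, rfl, rfl, ?_, hall⟩
  rcases hall _ hdS with h | h | h | h | h | h | h | h
  · exact absurd (hinj c hcS 1 (one_mem S) (h.trans hφ1.symm)) hc1
  · exact absurd h hdu
  · exact absurd h (hper b hbS hb1 2 (by norm_num) (by norm_num))
  · exact Or.inl h
  · exact absurd h (hper c hcS hc1 1 (by norm_num) (by norm_num))
  · exact Or.inr h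
  · exfalso
    exact hcab (hinj c hcS _ hub (by rw [hφm u hu b hbS, h]))
  · exfalso
    refine hper u hu hu1 4 (by norm_num) (by norm_num) ?_
    show φ (φ c) = u
    rw [h, hφm (u * b) hub c hcS, hφm u hu b hbS, ← hb, ← hcdef, h]
    calc b * c * (u * b * c) = (b * c) * (u * (b * c)) := by group
      _ = (b * c) * ((b * c) * u) := by rw [hcm u hu _ (mul_mem hbS hcS)]
      _ = u := by rw [← mul_assoc, hsq _ (mul_mem hbS hcS), one_mul]

/-- Conjugation iterates. -/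
theorem conj_iterate (y : G) (n : ℕ) (a : G) :
    (fun z => y * z * y⁻¹)^[n] a = y ^ n * a * (y ^ n)⁻¹ := by
  induction n with
  | zero => simp
  | succ n ih => rw [Function.iterate_succ_apply', ih, pow_succ']; group

/-- No perfect central extension by a nontrivial `2`-group. -/
theorem multiplier [IsSimpleGroup G] (hG : ¬ IsMulCommutative G) {t : G} (ht : orderOf t = 2) (D : Data t F)
    (L : Type*) [Group L] [Finite L] (Z : Subgroup L) [Z.Normal] (hL : commutator L = ⊤)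
    (hZ : Z ≤ Subgroup.center L) (hZp : IsPGroup 2 ↥Z) (he : Nonempty (L ⧸ Z ≃* G)) : Z = ⊥ := by
  classical
  haveI : Fact (Nat.Prime 2) := ⟨Nat.prime_two⟩
  obtain ⟨e⟩ := he
  obtain ⟨y, hy, hy7, hyfix⟩ := D.exists_seven hG ht
  set S := (D.S : Subgroup G)
  let f : L →* G := e.toMonoidHom.comp (QuotientGroup.mk' Z)
  have hf : Function.Surjective f := e.surjective.comp (QuotientGroup.mk'_surjective Z)
  have hker : f.ker = Z := by
    ext z
    rw [MonoidHom.mem_ker]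
    show e (QuotientGroup.mk' Z z) = 1 ↔ _
    rw [map_eq_one_iff e e.injective, QuotientGroup.mk'_apply, QuotientGroup.eq_one_iff]
  obtain ⟨Y, hY⟩ := hf y
  set φ : G → G := fun z => y * z * y⁻¹ with hφ
  have ht1 : t ≠ 1 := fun h => by simp [h] at ht
  obtain ⟨a, b, c, rfl, hb, hc, hrel, hall⟩ := orbit_relation (S := S) D.S_card D.S_sq φ
    (fun p _ q _ => by simp only [hφ]; group) (fun p hp => (Subgroup.mem_normalizer_iff.1 hy p).1 hp)
    (fun p hp => (conj_iterate y 7 p).trans (hy7 p hp)) hyfix D.t_mem ht1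
  set σ : L → L := fun z => Y * z * Y⁻¹ with hσ
  have hfσ : ∀ z, f (σ z) = φ (f z) := fun z => by simp [hσ, hφ, hY]
  obtain ⟨A, hA⟩ := hf a
  set B := σ A with hBdef
  set C := σ B with hCdef
  have hB : f B = b := by rw [hfσ, hA, hb]
  have hC : f C = c := by rw [hfσ, hB, hc]
  have hbS : b ∈ S := hb ▸ (Subgroup.mem_normalizer_iff.1 hy a).1 D.t_mem
  have hcS : c ∈ S := hc ▸ (Subgroup.mem_normalizer_iff.1 hy b).1 hbS
  have hcm : ∀ p ∈ S, ∀ q ∈ S, p * q = q * p := fun p hp q hq => by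
    have h := congrArg (fun z => p * z * q) (D.S_sq _ (mul_mem hp hq))
    simpa [mul_assoc, D.S_sq p hp, D.S_sq q hq, ← mul_assoc p p] using h.symm
  have hcen : ∀ z ∈ Z, ∀ w : L, w * z = z * w := fun z hz w => Subgroup.mem_center_iff.1 (hZ hz) w
  have hcomZ : ∀ P Q : L, f P ∈ S → f Q ∈ S → ⁅P, Q⁆ ∈ Z := by
    intro P Q hP hQ
    rw [← hker, MonoidHom.mem_ker, map_commutatorElement, commutatorElement_eq_one_iff_mul_comm]
    exact hcm _ hP _ hQ
  have hmulr : ∀ P Q R : L, f P ∈ S → f R ∈ S → ⁅P, Q * R⁆ = ⁅P, Q⁆ * ⁅P, R⁆ := by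
    intro P Q R hP hR
    calc ⁅P, Q * R⁆ = ⁅P, Q⁆ * (Q * ⁅P, R⁆ * Q⁻¹) := by simp only [commutatorElement_def]; group
      _ = ⁅P, Q⁆ * ⁅P, R⁆ := by rw [hcen _ (hcomZ P R hP hR) Q, mul_inv_cancel_right]
  have hsigma : ∀ P Q : L, f P ∈ S → f Q ∈ S → ⁅σ P, σ Q⁆ = ⁅P, Q⁆ := by
    intro P Q hP hQ
    have : ⁅σ P, σ Q⁆ = Y * ⁅P, Q⁆ * Y⁻¹ := by simp only [hσ, commutatorElement_def]; group
    rw [this, hcen _ (hcomZ P Q hP hQ) Y, mul_inv_cancel_right]
  have hzc : ∀ (P : L) (z : L), z ∈ Z → ⁅P, z⁆ = 1 := fun P z hz => by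
    rw [commutatorElement_eq_one_iff_mul_comm]; exact hcen z hz P
  have hinvc : ∀ P Q : L, ⁅Q, P⁆ = ⁅P, Q⁆⁻¹ := fun P Q => (commutatorElement_inv P Q).symm
  have hAS : f A ∈ S := hA ▸ D.t_mem
  have hBS : f B ∈ S := hB ▸ hbS
  have hCS : f C ∈ S := hC ▸ hcS
  have h12 : ⁅B, C⁆ = ⁅A, B⁆ := hsigma A B hAS hBS
  have hkill : ⁅A, B⁆ = 1 ∧ ⁅A, C⁆ = 1 := by
    have hd : f (σ C) = φ c := by rw [hfσ, hC]
    rcases hrel with hr | hr
    · have hz : (A * B)⁻¹ * σ C ∈ Z := by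
        rw [← hker, MonoidHom.mem_ker, map_mul, map_inv, map_mul, hA, hB, hd, hr, inv_mul_cancel]
      have hexp : ∀ P : L, f P ∈ S → ⁅P, σ C⁆ = ⁅P, A⁆ * ⁅P, B⁆ := by
        intro P hP
        conv_lhs => rw [← mul_inv_cancel_left (A * B) (σ C)]
        have hzS : f ((A * B)⁻¹ * σ C) ∈ S := by
          rw [MonoidHom.mem_ker.1 (show _ ∈ f.ker from hker ▸ hz)]; exact one_mem S
        rw [hmulr P (A * B) _ hP hzS, hzc P _ hz, mul_one, hmulr P A B hP hBS]
      have e1 : ⁅C, A⁆ * ⁅C, B⁆ = ⁅A, B⁆ := by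
        rw [← hexp C hCS]; exact (hsigma B C hBS hCS).trans h12
      have e2 : ⁅B, A⁆ * ⁅B, B⁆ = ⁅A, C⁆ := by
        rw [← hexp B hBS]; exact hsigma A C hAS hCS
      rw [commutatorElement_self, mul_one, hinvc A B] at e2
      rw [hinvc A C, hinvc B C, ← e2, inv_inv, h12, mul_inv_cancel] at e1
      exact ⟨e1.symm, by rw [← e2, ← e1, inv_one]⟩
    · have hz : (A * C)⁻¹ * σ C ∈ Z := by
        rw [← hker, MonoidHom.mem_ker, map_mul, map_inv, map_mul, hA, hC, hd, hr, inv_mul_cancel]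
      have hexp : ∀ P : L, f P ∈ S → ⁅P, σ C⁆ = ⁅P, A⁆ * ⁅P, C⁆ := by
        intro P hP
        conv_lhs => rw [← mul_inv_cancel_left (A * C) (σ C)]
        have hzS : f ((A * C)⁻¹ * σ C) ∈ S := by
          rw [MonoidHom.mem_ker.1 (show _ ∈ f.ker from hker ▸ hz)]; exact one_mem S
        rw [hmulr P (A * C) _ hP hzS, hzc P _ hz, mul_one, hmulr P A C hP hCS]
      have e1 : ⁅C, A⁆ * ⁅C, C⁆ = ⁅A, B⁆ := by
        rw [← hexp C hCS]; exact (hsigma B C hBS hCS).trans h12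
      have e2 : ⁅B, A⁆ * ⁅B, C⁆ = ⁅A, C⁆ := by
        rw [← hexp B hBS]; exact hsigma A C hAS hCS
      rw [hinvc A B, h12, inv_mul_cancel] at e2
      rw [commutatorElement_self, mul_one, hinvc A C, ← e2, inv_one] at e1
      exact ⟨e1.symm, e2.symm⟩
  have hBC : ⁅B, C⁆ = 1 := h12.trans hkill.1
  let T : Subgroup L := S.comap f
  have hTidx : ¬ 2 ∣ T.index := by
    rw [Subgroup.index_comap_of_surjective _ hf]; exact D.S.not_dvd_index
  let P : Sylow 2 L := (D.S.2.comap_of_ker_isPGroup f (hker ▸ hZp)).toSylow hTidx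
  have hcAB : Commute A B := commutatorElement_eq_one_iff_mul_comm.1 hkill.1
  have hcAC : Commute A C := commutatorElement_eq_one_iff_mul_comm.1 hkill.2
  have hcBC : Commute B C := commutatorElement_eq_one_iff_mul_comm.1 hBC
  have hrep : ∀ p ∈ T, ∃ i j k : ℕ, ∃ z ∈ Z, p = A ^ i * B ^ j * C ^ k * z := by
    intro p hp
    have : ∃ i j k : ℕ, f p = f (A ^ i * B ^ j * C ^ k) := by
      rcases hall _ hp with h | h | h | h | h | h | h | h
      · exact ⟨0, 0, 0, by simp [h]⟩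
      · exact ⟨1, 0, 0, by simp [h, hA]⟩
      · exact ⟨0, 1, 0, by simp [h, hB]⟩
      · exact ⟨1, 1, 0, by simp [h, hA, hB]⟩
      · exact ⟨0, 0, 1, by simp [h, hC]⟩
      · exact ⟨1, 0, 1, by simp [h, hA, hC]⟩
      · exact ⟨0, 1, 1, by simp [h, hB, hC]⟩
      · exact ⟨1, 1, 1, by simp [h, hA, hB, hC]⟩
    obtain ⟨i, j, k, h⟩ := this
    refine ⟨i, j, k, (A ^ i * B ^ j * C ^ k)⁻¹ * p, ?_, by group⟩
    rw [← hker, MonoidHom.mem_ker, map_mul, map_inv, h, inv_mul_cancel]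
  have hTc : ∀ p ∈ T, ∀ q ∈ T, Commute p q := by
    intro p hp q hq
    obtain ⟨i, j, k, z, hz, rfl⟩ := hrep p hp
    obtain ⟨i', j', k', w, hw, rfl⟩ := hrep q hq
    have g : ∀ {P : L}, Commute P A → Commute P B → Commute P C → Commute P (A ^ i' * B ^ j' * C ^ k') :=
      fun hA hB hC => ((hA.pow_right _).mul_right (hB.pow_right _)).mul_right (hC.pow_right _)
    have hm : Commute (A ^ i * B ^ j * C ^ k) (A ^ i' * B ^ j' * C ^ k') :=
      (((g (Commute.refl A) hcAB hcAC).pow_left i).mul_left ((g hcAB.symm (Commute.refl B) hcBC).pow_left j)).mul_left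
        ((g hcAC.symm hcBC.symm (Commute.refl C)).pow_left k)
    have hzall : ∀ w : L, Commute z w := fun w => (hcen z hz w).symm
    exact (hm.mul_right (hcen w hw _)).mul_left (hzall _)
  rw [eq_bot_iff]
  intro z hz
  have hzT : z ∈ (P : Subgroup L) := by
    show f z ∈ S
    rw [MonoidHom.mem_ker.1 (show z ∈ f.ker from hker ▸ hz)]
    exact one_mem S
  have hm := H64.mem_commutator_sylow_of_central P (hZ hz) (hL ▸ Subgroup.mem_top z) hzT
  have hbot : ⁅(P : Subgroup L), (P : Subgroup L)⁆ = ⊥ := by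
    rw [Subgroup.commutator_eq_bot_iff_le_centralizer]
    intro p hp
    rw [Subgroup.mem_centralizer_iff]
    intro q hq
    exact (hTc q hq p hp).eq
  rwa [hbot] at hm

/-- Automorphisms of `2`-power order fixing a Sylow subgroup pointwise are inner. -/
theorem automorphism [IsSimpleGroup G] (hG : ¬ IsMulCommutative G) {t : G} (ht : orderOf t = 2)
    (hmax : IsCoatom (Subgroup.centralizer ({t} : Set G))) (D : Data t F) (hFo : Odd (Fintype.card F))
    (hF3 : 3 < Fintype.card F)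
    (φ₀ : MulAut G) (k : ℕ) (hk : φ₀ ^ 2 ^ k = 1) (hS₀ : ∃ R : Sylow 2 G, ∀ s ∈ (R : Subgroup G), φ₀ s = s) :
    ∃ g : G, ∀ x : G, φ₀ x = g * x * g⁻¹ := by
  classical
  haveI : Fact (Nat.Prime 2) := ⟨Nat.prime_two⟩
  obtain ⟨R, hR⟩ := hS₀
  obtain ⟨h, hh⟩ := MulAction.exists_smul_eq G R D.S
  set S := (D.S : Subgroup G) with hSdef
  set φ : MulAut G := MulAut.conj h * φ₀ * (MulAut.conj h)⁻¹ with hφdef
  have hφS : ∀ s ∈ S, φ s = s := by
    intro s hs
    rw [hSdef, ← hh, Sylow.smul_def, Sylow.pointwise_smul_def, Subgroup.mem_pointwise_smul_iff_inv_smul_mem] at hs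
    show MulAut.conj h (φ₀ ((MulAut.conj h)⁻¹ s)) = s
    rw [show φ₀ ((MulAut.conj h)⁻¹ s) = (MulAut.conj h)⁻¹ s from hR _ hs]
    exact MulEquiv.apply_symm_apply _ _
  have hφk : φ ^ 2 ^ k = 1 := by rw [hφdef, conj_pow, hk, mul_one, mul_inv_cancel]
  suffices hmain : ∃ g : G, ∀ x, φ x = g * x * g⁻¹ by
    obtain ⟨g, hg⟩ := hmain
    refine ⟨h⁻¹ * g * h, fun x => ?_⟩
    have h1 := hg (h * x * h⁻¹)
    have h2 : φ (h * x * h⁻¹) = h * φ₀ x * h⁻¹ := by
      show MulAut.conj h (φ₀ ((MulAut.conj h)⁻¹ (h * x * h⁻¹))) = _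
      rw [MulAut.inv_apply, MulAut.conj_symm_apply, show h⁻¹ * (h * x * h⁻¹) * h = x by group]
      rfl
    calc φ₀ x = h⁻¹ * (h * φ₀ x * h⁻¹) * h := by group
      _ = h⁻¹ * (g * (h * x * h⁻¹) * g⁻¹) * h := by rw [← h2, h1]
      _ = _ := by group
  have htfix : φ t = t := hφS t D.t_mem
  set C := Subgroup.centralizer ({t} : Set G) with hCdef
  have hφC : ∀ c ∈ C, φ c ∈ C := fun c hc => by
    rw [hCdef, Subgroup.mem_centralizer_singleton_iff] at hc ⊢
    rw [← htfix, ← map_mul, ← map_mul, hc]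
  have hVS : ∀ v ∈ D.V, D.j v ∈ S := fun v hv => (D.S_cases _).2 ⟨v, hv, Or.inl rfl⟩
  have hfixV : ∀ v ∈ D.V, φ (D.j v) = D.j v := fun v hv => hφS _ (hVS v hv)
  have hsimple : IsSimpleGroup PSL(2, F) := by
    refine H1.isSimpleGroup_PSL (Or.inr ?_)
    by_contra hcon
    push Not at hcon
    have hsub : (Finset.univ : Finset F) ⊆ {0, 1, -1} := by
      intro x _
      rcases eq_or_ne x 0 with rfl | hx0
      · simp
      · rcases sq_eq_one_iff.1 (hcon x hx0) with rfl | rfl <;> simp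
    have := Finset.card_le_card hsub
    rw [Finset.card_univ] at this
    have := this.trans Finset.card_le_three
    omega
  have hφj : ∀ z, φ (D.j z) ∈ D.j.range := by
    set M := D.j.range.map φ.toMonoidHom with hM
    have hMn : (M.comap D.j).Normal := by
      refine ⟨fun w hw g => ?_⟩
      obtain ⟨y, ⟨z, rfl⟩, hy⟩ := hw
      obtain ⟨w', hw'⟩ := D.conj_mem (φ.symm (D.j g)) (by
        rw [Subgroup.mem_centralizer_singleton_iff]
        apply φ.injective
        rw [map_mul, map_mul, MulEquiv.apply_symm_apply, htfix]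
        exact Subgroup.mem_centralizer_singleton_iff.1 (D.j_mem g)) z
      refine ⟨D.j w', ⟨w', rfl⟩, ?_⟩
      have hy' : φ (D.j z) = D.j w := hy
      show φ (D.j w') = D.j (g * w * g⁻¹)
      rw [hw', map_mul, map_mul, map_inv, MulEquiv.apply_symm_apply, hy', map_mul, map_mul, map_inv]
    have htop : M.comap D.j = ⊤ := by
      refine (hMn.eq_bot_or_eq_top).resolve_left fun hbot => ?_
      obtain ⟨v, hv, hv1⟩ := (Subgroup.nontrivial_iff_exists_ne_one D.V).1
        (Finite.one_lt_card_iff_nontrivial.1 (by rw [D.four.card_four]; norm_num))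
      have : v ∈ M.comap D.j := ⟨D.j v, ⟨v, rfl⟩, hfixV v hv⟩
      rw [hbot, Subgroup.mem_bot] at this
      exact hv1 this
    have hle : D.j.range ≤ M := by
      rintro _ ⟨z, rfl⟩
      exact Subgroup.mem_comap.1 (htop ▸ Subgroup.mem_top z)
    have heq := Subgroup.eq_of_le_of_card_ge hle
      (le_of_eq (Subgroup.card_map_of_injective (f := φ.toMonoidHom) φ.injective))
    intro z
    rw [heq]
    exact ⟨_, ⟨z, rfl⟩, rfl⟩
  obtain ⟨v, hv, hvj⟩ := exists_four_adjust hFo D.q8 D.four D.x_norm D.x_fix D.x_gen D.j D.j_inj φ hφj hfixV k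
    (fun z => by rw [hφk]; rfl)
  set ψ : MulAut G := MulAut.conj (D.j v) * φ with hψdef
  have hψj : ∀ z, ψ (D.j z) = D.j z := hvj
  have hScm : ∀ a ∈ S, ∀ b ∈ S, a * b = b * a := fun p hp q hq => by
    have h := congrArg (fun z => p * z * q) (D.S_sq _ (mul_mem hp hq))
    simpa [mul_assoc, D.S_sq p hp, D.S_sq q hq, ← mul_assoc p p] using h.symm
  have hψS : ∀ s ∈ S, ψ s = s := fun s hs => by
    show D.j v * φ s * (D.j v)⁻¹ = s
    rw [hφS s hs, hScm _ (hVS v hv) s hs, mul_inv_cancel_right]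
  have hψk : ψ ^ 2 ^ (k + 1) = 1 := by
    have hcm : Commute (MulAut.conj (D.j v)) φ := by
      ext z
      show D.j v * φ z * (D.j v)⁻¹ = φ (D.j v * z * (D.j v)⁻¹)
      rw [map_mul, map_mul, map_inv, hfixV v hv]
    rw [hψdef, hcm.mul_pow, ← map_pow, pow_succ', pow_mul, sq, D.S_sq _ (hVS v hv), one_pow, map_one, one_mul,
      mul_comm 2 (2 ^ k), pow_mul, hφk, one_pow]
  have hψt : ψ t = t := hψS t D.t_mem
  have htt : t * t = 1 := D.S_sq t D.t_mem
  have htC : ∀ c ∈ C, c * t = t * c := fun c hc => Subgroup.mem_centralizer_singleton_iff.1 hc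
  -- the fixed subgroup contains `C`
  let Fx : Subgroup G :=
    { carrier := {g | ψ g = g}
      one_mem' := map_one ψ
      mul_mem' := fun {a b} (ha : ψ a = a) (hb : ψ b = b) => by show ψ (a * b) = a * b; rw [map_mul, ha, hb]
      inv_mem' := fun {a} (ha : ψ a = a) => by show ψ a⁻¹ = a⁻¹; rw [map_inv, ha] }
  have hψC : ∀ c ∈ C, ψ c ∈ C := fun c hc => by
    rw [hCdef, Subgroup.mem_centralizer_singleton_iff]
    conv_lhs => rw [← hψt]
    conv_rhs => rw [← hψt]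
    rw [← map_mul, ← map_mul, htC c hc]
  have hδ : ∀ c ∈ C, c⁻¹ * ψ c = 1 ∨ c⁻¹ * ψ c = t := by
    intro c hc
    refine D.cent_eq _ (mul_mem (inv_mem hc) (hψC c hc)) fun z => ?_
    obtain ⟨w, hw⟩ := D.conj_mem c hc z
    have h1 : ψ (c * D.j z * c⁻¹) = c * D.j z * c⁻¹ := by rw [← hw, hψj]
    rw [map_mul, map_mul, map_inv, hψj] at h1
    calc c⁻¹ * ψ c * D.j z = c⁻¹ * (ψ c * D.j z * (ψ c)⁻¹) * ψ c := by group
      _ = c⁻¹ * (c * D.j z * c⁻¹) * ψ c := by rw [h1]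
      _ = D.j z * (c⁻¹ * ψ c) := by group
  have hCF : C ≤ Fx := by
    let r : ↥C ⧸ Fx.subgroupOf C → ↥({1, t} : Finset G) := fun q => ⟨(q.out : G)⁻¹ * ψ q.out, by
      rcases hδ _ q.out.2 with h | h <;> simp [h]⟩
    have hr : Function.Injective r := by
      intro a b e
      have e' : ((a.out : G))⁻¹ * ψ a.out = ((b.out : G))⁻¹ * ψ b.out := congrArg Subtype.val e
      rw [← QuotientGroup.out_eq' a, ← QuotientGroup.out_eq' b, QuotientGroup.eq, Subgroup.mem_subgroupOf]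
      show ψ ((a.out : G)⁻¹ * b.out) = (a.out : G)⁻¹ * b.out
      have hz : ∃ z : G, ((a.out : G))⁻¹ * ψ a.out = z ∧ (z = 1 ∨ z = t) := ⟨_, rfl, hδ _ a.out.2⟩
      obtain ⟨z, hz, hz'⟩ := hz
      have ha : ψ (a.out : G) = a.out * z := by rw [← hz]; group
      have hb : ψ (b.out : G) = b.out * z := by rw [← hz, e']; group
      have hzc : ((a.out : G)⁻¹ * b.out) * z = z * ((a.out : G)⁻¹ * b.out) := by
        rcases hz' with rfl | rfl
        · simp
        · exact htC _ (mul_mem (inv_mem a.out.2) b.out.2)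
      rw [map_mul, map_inv, ha, hb, _root_.mul_inv_rev,
        show z⁻¹ * (a.out : G)⁻¹ * (b.out * z) = z⁻¹ * (((a.out : G)⁻¹ * b.out) * z) by group, hzc, inv_mul_cancel_left]
    have hle : (Fx.subgroupOf C).index ≤ 2 := by
      rw [Subgroup.index_eq_card]
      refine (Nat.card_le_card_of_injective r hr).trans ?_
      rw [Nat.card_eq_fintype_card, Fintype.card_coe]
      exact Finset.card_le_two
    have hSC : S ≤ C := fun s hs => Subgroup.mem_centralizer_singleton_iff.2 (hScm s hs t D.t_mem)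
    have hne : (Fx.subgroupOf C).index ≠ 2 := fun he => by
      have hd : (Fx.subgroupOf C).index ∣ (S.subgroupOf C).index := Subgroup.index_dvd_of_le fun s hs => hψS _ hs
      rw [he] at hd
      exact D.S.not_dvd_index (hd.trans (Dvd.intro _ (Subgroup.relIndex_mul_index hSC)))
    have hpos := Subgroup.index_ne_zero_of_finite (H := Fx.subgroupOf C)
    exact Subgroup.subgroupOf_eq_top.1 (Subgroup.index_eq_one.1 (by omega))
  set K := Subgroup.normalizer (S : Set G) with hKdef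
  have hnS : ∀ n ∈ K, ∀ s ∈ S, n * s * n⁻¹ ∈ S := fun n hn s hs => (Subgroup.mem_normalizer_iff.1 hn s).1 hs
  have hn'S : ∀ n ∈ K, ∀ s ∈ S, n⁻¹ * s * n ∈ S := fun n hn s hs => by simpa using hnS _ (inv_mem hn) s hs
  have hw : ∀ n ∈ K, n⁻¹ * ψ n ∈ S := by
    intro n hn
    have hcS : ∀ s ∈ S, (n⁻¹ * ψ n) * s = s * (n⁻¹ * ψ n) := by
      intro s hs
      have h1 : ψ (n * s * n⁻¹) = n * s * n⁻¹ := hψS _ (hnS n hn s hs)
      rw [map_mul, map_mul, map_inv, hψS s hs] at h1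
      calc n⁻¹ * ψ n * s = n⁻¹ * (ψ n * s * (ψ n)⁻¹) * ψ n := by group
        _ = n⁻¹ * (n * s * n⁻¹) * ψ n := by rw [h1]
        _ = _ := by group
    have hwC : n⁻¹ * ψ n ∈ C := Subgroup.mem_centralizer_singleton_iff.2 (hcS t D.t_mem)
    have hiter : ∀ m : ℕ, (ψ ^ m) n = n * (n⁻¹ * ψ n) ^ m := by
      intro m
      induction m with
      | zero => simp
      | succ m ih =>
        rw [pow_succ', MulAut.mul_apply, ih, map_mul, map_pow, show ψ (n⁻¹ * ψ n) = n⁻¹ * ψ n from hCF hwC,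
          pow_succ', ← mul_assoc, mul_inv_cancel_left]
    refine D.two_elem _ hwC (k + 1) ?_ fun v hv => hcS _ (hVS v hv)
    have := hiter (2 ^ (k + 1))
    rw [hψk, MulAut.one_apply] at this
    exact mul_left_cancel (this.symm.trans (mul_one n).symm)
  obtain ⟨s, hs, hsw⟩ : ∃ s ∈ S, ∀ n ∈ K, s = n⁻¹ * s * n * (n⁻¹ * ψ n) := by
    letI : CommGroup ↥S := { (inferInstance : Group ↥S) with mul_comm := fun a b => Subtype.ext (hScm a a.2 b b.2) }
    haveI : (S.subgroupOf K).Normal := Subgroup.normal_subgroupOf_of_le_normalizer le_rfl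
    let Q := ↥K ⧸ S.subgroupOf K
    letI : Fintype Q := Fintype.ofFinite Q
    let wq : Q → ↥S := fun q => ⟨(q.out : G)⁻¹ * ψ q.out, hw _ q.out.2⟩
    have hwq : ∀ n : ↥K, ((wq (QuotientGroup.mk n)) : G) = (n : G)⁻¹ * ψ n := by
      intro n
      obtain ⟨c, hc⟩ := QuotientGroup.mk_out_eq_mul (S.subgroupOf K) n
      show ((QuotientGroup.mk (s := S.subgroupOf K) n).out : G)⁻¹ *
        ψ ((QuotientGroup.mk (s := S.subgroupOf K) n).out : G) = _
      rw [hc, Subgroup.coe_mul, map_mul, hψS _ (show ((c : ↥K) : G) ∈ S from c.2)]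
      calc ((n : G) * ((c : ↥K) : G))⁻¹ * (ψ n * ((c : ↥K) : G))
          = ((c : ↥K) : G)⁻¹ * (((n : G)⁻¹ * ψ n) * ((c : ↥K) : G)) := by group
        _ = _ := by rw [hScm _ (hw _ n.2) _ (show ((c : ↥K) : G) ∈ S from c.2), inv_mul_cancel_left]
    refine ⟨((∏ q, wq q : ↥S) : G), (∏ q, wq q : ↥S).2, fun n hn => ?_⟩
    let cj : ↥S →* ↥S := MonoidHom.mk' (fun a => ⟨n⁻¹ * a * n, hn'S n hn a a.2⟩)
      fun a b => Subtype.ext (by show n⁻¹ * ((a : G) * b) * n = (n⁻¹ * a * n) * (n⁻¹ * b * n); group)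
    have hmul : ∀ q : Q, wq (q * QuotientGroup.mk ⟨n, hn⟩) = cj (wq q) * ⟨n⁻¹ * ψ n, hw n hn⟩ := by
      intro q
      apply Subtype.ext
      conv_lhs => rw [← QuotientGroup.out_eq' q, ← QuotientGroup.mk_mul, hwq]
      show ((q.out : G) * n)⁻¹ * ψ ((q.out : G) * n) = n⁻¹ * ((q.out : G)⁻¹ * ψ q.out) * n * (n⁻¹ * ψ n)
      rw [map_mul]
      group
    have hprod := Fintype.prod_equiv (Equiv.mulRight (QuotientGroup.mk ⟨n, hn⟩ : Q))
      (fun q => wq (q * QuotientGroup.mk ⟨n, hn⟩)) wq (fun q => rfl)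
    rw [Finset.prod_congr rfl (fun q _ => hmul q), Finset.prod_mul_distrib, ← map_prod, Finset.prod_const,
      Finset.card_univ] at hprod
    have hodd : Odd (Fintype.card Q) := by
      rw [Nat.odd_iff]
      by_contra hcc
      refine D.S.not_dvd_index ((Nat.dvd_of_mod_eq_zero (show Fintype.card Q % 2 = 0 by omega)).trans ?_)
      rw [← Nat.card_eq_fintype_card, ← Subgroup.index_eq_card]
      exact Dvd.intro _ (Subgroup.relIndex_mul_index Subgroup.le_normalizer)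
    obtain ⟨r, hr⟩ := hodd
    rw [hr, pow_succ, pow_mul, show (⟨n⁻¹ * ψ n, hw n hn⟩ : ↥S) ^ 2 = 1 from
      Subtype.ext (by rw [SubmonoidClass.coe_pow, sq]; exact D.S_sq _ (hw n hn)), one_pow, one_mul] at hprod
    exact (congrArg Subtype.val hprod).symm
  obtain ⟨hxK, hxfix⟩ := D.x_facts
  have hst : s = 1 ∨ s = t := by
    have h := hsw _ hxK
    rw [hψj, inv_mul_cancel, mul_one] at h
    refine hxfix s hs ?_
    calc D.j D.x * s * (D.j D.x)⁻¹ = D.j D.x * ((D.j D.x)⁻¹ * s * D.j D.x) * (D.j D.x)⁻¹ := by rw [← h]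
      _ = s := by group
  obtain ⟨y, hy, -, hyfix⟩ := D.exists_seven hG ht
  have hnfix : ∀ n ∈ K, s * ψ n * s⁻¹ = n := by
    intro n hn
    have h := hsw n hn
    have hc := hScm _ (hn'S n hn s hs) _ (hw n hn)
    have hs2 : s⁻¹ = s := inv_eq_of_mul_eq_one_right (D.S_sq s hs)
    have e : ψ n = n * ((n⁻¹ * s * n) * s) := by
      have : n⁻¹ * ψ n = (n⁻¹ * s * n) * s := by
        calc n⁻¹ * ψ n = (n⁻¹ * s * n)⁻¹ * (n⁻¹ * s * n * (n⁻¹ * ψ n)) := by group
          _ = (n⁻¹ * s * n) * s := by rw [← h, inv_eq_of_mul_eq_one_right (D.S_sq _ (hn'S n hn s hs))]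
      rw [← this]; group
    rw [e, hs2]
    calc s * (n * (n⁻¹ * s * n * s)) * s = (s * s) * n * (s * s) := by group
      _ = n := by rw [D.S_sq s hs, one_mul, mul_one]
  let χ : MulAut G := MulAut.conj s * ψ
  let Fy : Subgroup G :=
    { carrier := {g | χ g = g}
      one_mem' := map_one χ
      mul_mem' := fun {a b} (ha : χ a = a) (hb : χ b = b) => by show χ (a * b) = a * b; rw [map_mul, ha, hb]
      inv_mem' := fun {a} (ha : χ a = a) => by show χ a⁻¹ = a⁻¹; rw [map_inv, ha] }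
  have hCFy : C ≤ Fy := fun c hc => by
    show s * ψ c * s⁻¹ = c
    rw [show ψ c = c from hCF hc]
    rcases hst with rfl | rfl
    · simp
    · rw [← htC c hc, mul_inv_cancel_right]
  have hyFy : y ∈ Fy := hnfix y hy
  have hyC : y ∉ C := fun hyC => by
    have : t = 1 := hyfix t D.t_mem (by rw [htC y hyC, mul_inv_cancel_right])
    rw [this, orderOf_one] at ht
    omega
  have htop : Fy = ⊤ := (hmax.le_iff.1 hCFy).resolve_right fun e => hyC (e ▸ hyFy)
  refine ⟨(D.j v)⁻¹ * s⁻¹, fun x => ?_⟩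
  have hx : s * (D.j v * φ x * (D.j v)⁻¹) * s⁻¹ = x := (htop.ge (Subgroup.mem_top x) : x ∈ Fy)
  calc φ x = (D.j v)⁻¹ * s⁻¹ * (s * (D.j v * φ x * (D.j v)⁻¹) * s⁻¹) * ((D.j v)⁻¹ * s⁻¹)⁻¹ := by group
    _ = _ := by rw [hx]

end Cfsg.Agent.H77.JankoRee
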