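import Cfsg.Agent.H77.JankoRee

/-!
# The local structure of groups of Janko–Ree type
-/

set_option autoImplicit false
set_option linter.style.haveILetI false

open Matrix MatrixGroups

namespace Cfsg.Agent.H77.JankoRee

/-- The data extracted from the centralizer hypothesis. -/
structure Data {G : Type*} [Group G] (t : G) (F : Type*) [Field F] [Fintype F] where
  /-- embedding of `PSL₂(q)` -/
  j : PSL(2, F) →* G
  j_inj : Function.Injective j
  j_mem : ∀ z, j z ∈ Subgroup.centralizer ({t} : Set G)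
  conj_mem : ∀ c ∈ Subgroup.centralizer ({t} : Set G), ∀ z, c * j z * c⁻¹ ∈ j.range
  cent_eq : ∀ c ∈ Subgroup.centralizer ({t} : Set G), (∀ z, c * j z = j z * c) → c = 1 ∨ c = t
  t_notMem : t ∉ j.range
  /-- four-group -/
  V : Subgroup PSL(2, F)
  four : IsKleinFour V
  q8 : Fintype.card F % 8 = 3 ∨ Fintype.card F % 8 = 5
  /-- element of order three -/
  x : PSL(2, F)
  x_norm : x ∈ Subgroup.normalizer (V : Set PSL(2, F))
  x_order : orderOf x = 3
  x_fix : ∀ v ∈ V, x * v * x⁻¹ = v → v = 1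
  x_gen : ∀ n ∈ Subgroup.normalizer (V : Set PSL(2, F)), n ∈ Subgroup.closure (insert x (V : Set PSL(2, F)))
  /-- Sylow subgroup -/
  S : Sylow 2 G
  t_mem : t ∈ (S : Subgroup G)
  S_cases : ∀ s, s ∈ (S : Subgroup G) ↔ ∃ v ∈ V, s = j v ∨ s = t * j v
  S_card : Nat.card (S : Subgroup G) = 8
  S_sq : ∀ s ∈ (S : Subgroup G), s * s = 1
  two_elem : ∀ a ∈ Subgroup.centralizer ({t} : Set G), ∀ k : ℕ, a ^ 2 ^ k = 1 →
    (∀ v ∈ V, a * j v = j v * a) → a ∈ (S : Subgroup G)

variable {G : Type*} [Group G] [Finite G]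
  {F : Type*} [Field F] [Fintype F]

/-- The hypotheses give the data. -/
theorem nonempty_data (hab : ∀ S : Sylow 2 G, IsMulCommutative ↥(S : Subgroup G))
    (t : G) (ht : orderOf t = 2)
    (E : Subgroup G) (hE : Cfsg.IsInternalDirectProduct (Subgroup.zpowers t) E (Subgroup.centralizer ({t} : Set G)))
    (hFo : Odd (Fintype.card F))
    (N : Subgroup ↥E) [N.Normal] (hN : Nonempty (↥N ≃* PSL(2, F)))
    (hNc : Subgroup.centralizer (N : Set ↥E) = ⊥) : Nonempty (Data t F) := by
  classical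
  haveI : Fact (Nat.Prime 2) := ⟨Nat.prime_two⟩
  obtain ⟨e⟩ := hN
  obtain ⟨htC, hEC, hcomm, hdisj, hsup⟩ := hE
  have h2 : (2 : F) ≠ 0 := H6.two_ne_of_odd rfl hFo
  have htt : t * t = 1 := by rw [← sq, ← ht]; exact pow_orderOf_eq_one t
  have ht1 : t ≠ 1 := fun h => by simp [h] at ht
  have htE : t ∉ E := fun h => ht1 (by
    have : t ∈ Subgroup.zpowers t ⊓ E := ⟨Subgroup.mem_zpowers t, h⟩
    rwa [hdisj, Subgroup.mem_bot] at this)
  have htcases : ∀ y ∈ Subgroup.zpowers t, y = 1 ∨ y = t := by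
    intro y hy
    obtain ⟨i, rfl⟩ := Subgroup.mem_zpowers_iff.1 hy
    rcases Int.even_or_odd i with ⟨r, rfl⟩ | ⟨r, rfl⟩
    · left; rw [_root_.zpow_add, ← (Commute.refl t).mul_zpow, htt, _root_.one_zpow]
    · right; rw [_root_.zpow_add, two_mul, _root_.zpow_add, ← (Commute.refl t).mul_zpow, htt, _root_.one_zpow, one_mul, zpow_one]
  have hdec : ∀ c ∈ Subgroup.centralizer ({t} : Set G), ∃ y ∈ E, c = y ∨ c = t * y := by
    intro c hc
    let H : Subgroup G :=
      { carrier := {c | ∃ y ∈ E, c = y ∨ c = t * y}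
        one_mem' := ⟨1, one_mem _, Or.inl rfl⟩
        mul_mem' := by
          rintro a b ⟨y, hy, rfl | rfl⟩ ⟨z, hz, rfl | rfl⟩
          · exact ⟨_, mul_mem hy hz, Or.inl rfl⟩
          · exact ⟨_, mul_mem hy hz, Or.inr (by rw [← mul_assoc, ← hcomm t (Subgroup.mem_zpowers t) a hy, mul_assoc])⟩
          · exact ⟨_, mul_mem hy hz, Or.inr (by rw [mul_assoc])⟩
          · exact ⟨_, mul_mem hy hz, Or.inl (by
              rw [← mul_assoc, mul_assoc t, ← hcomm t (Subgroup.mem_zpowers t) y hy, ← mul_assoc, htt, one_mul])⟩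
        inv_mem' := by
          rintro a ⟨y, hy, rfl | rfl⟩
          · exact ⟨_, inv_mem hy, Or.inl rfl⟩
          · exact ⟨_, inv_mem hy, Or.inr (by
              rw [_root_.mul_inv_rev, hcomm t (Subgroup.mem_zpowers t) _ (inv_mem hy), inv_eq_of_mul_eq_one_right htt])⟩ }
    have hle : Subgroup.zpowers t ⊔ E ≤ H := sup_le
      (fun y hy => by rcases htcases y hy with rfl | rfl
                      exacts [one_mem H, ⟨1, one_mem _, Or.inr (mul_one _).symm⟩])
      (fun y hy => ⟨y, hy, Or.inl rfl⟩)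
    rw [hsup] at hle
    exact hle hc
  let j : PSL(2, F) →* G := (E.subtype.comp N.subtype).comp e.symm.toMonoidHom
  have hjE : ∀ z, j z ∈ E := fun z => ((e.symm z : N) : E).2
  have hjinj : Function.Injective j := fun a b h =>
    e.symm.injective (Subtype.ext (Subtype.ext h))
  have hjr : ∀ g : G, g ∈ j.range ↔ ∃ hg : g ∈ E, (⟨g, hg⟩ : E) ∈ N := by
    intro g
    constructor
    · rintro ⟨z, rfl⟩
      exact ⟨hjE z, (e.symm z : N).2⟩
    · rintro ⟨hg, hgN⟩
      refine ⟨e ⟨⟨g, hg⟩, hgN⟩, ?_⟩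
      show ((e.symm (e ⟨⟨g, hg⟩, hgN⟩) : N) : G) = g
      rw [e.symm_apply_apply]
  have hconj : ∀ c ∈ Subgroup.centralizer ({t} : Set G), ∀ z, c * j z * c⁻¹ ∈ j.range := by
    intro c hc z
    obtain ⟨y, hy, hcy⟩ := hdec c hc
    have : c * j z * c⁻¹ = y * j z * y⁻¹ := by
      rcases hcy with rfl | rfl
      · rfl
      · have hm : y * j z * y⁻¹ ∈ E := mul_mem (mul_mem hy (hjE z)) (inv_mem hy)
        calc t * y * j z * (t * y)⁻¹ = (t * (y * j z * y⁻¹)) * t⁻¹ := by group
          _ = y * j z * y⁻¹ := by rw [hcomm t (Subgroup.mem_zpowers t) _ hm, mul_inv_cancel_right]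
    rw [this, hjr]
    exact ⟨mul_mem (mul_mem hy (hjE z)) (inv_mem hy),
      (inferInstance : N.Normal).conj_mem ⟨j z, hjE z⟩ (e.symm z : N).2 ⟨y, hy⟩⟩
  have hcent : ∀ c ∈ Subgroup.centralizer ({t} : Set G), (∀ z, c * j z = j z * c) → c = 1 ∨ c = t := by
    intro c hc hz
    obtain ⟨y, hy, hcy⟩ := hdec c hc
    have hy1 : (⟨y, hy⟩ : E) ∈ Subgroup.centralizer (N : Set E) := by
      rw [Subgroup.mem_centralizer_iff]
      intro n hn
      obtain ⟨z, hz'⟩ : (n : G) ∈ j.range := (hjr _).2 ⟨n.2, hn⟩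
      apply Subtype.ext
      show (n : G) * y = y * n
      have h := hz z
      rw [hz'] at h
      rcases hcy with rfl | rfl
      · exact h.symm
      · rw [mul_assoc, ← mul_assoc (n : G), ← hcomm t (Subgroup.mem_zpowers t) _ n.2, mul_assoc] at h
        exact (mul_left_cancel h).symm
    rw [hNc, Subgroup.mem_bot] at hy1
    have : y = 1 := congrArg Subtype.val hy1
    subst this
    rcases hcy with rfl | rfl
    · exact Or.inl rfl
    · exact Or.inr (mul_one _)
  have hcommS : ∀ (S : Sylow 2 G), ∀ a ∈ (S : Subgroup G), ∀ b ∈ (S : Subgroup G), a * b = b * a :=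
    fun S a ha b hb => congrArg Subtype.val ((hab S).is_comm.comm ⟨a, ha⟩ ⟨b, hb⟩)
  obtain ⟨V, x, hV, hq8, hx, hxo, hxfix, hgen⟩ := exists_four_data hFo fun R a ha b hb => by
    obtain ⟨S, hS⟩ := (R.2.map j).exists_le_sylow
    apply hjinj
    rw [map_mul, map_mul]
    exact hcommS S _ (hS (Subgroup.mem_map_of_mem j ha)) _ (hS (Subgroup.mem_map_of_mem j hb))
  have hvv : ∀ v ∈ V, v * v = 1 := fun v hv => by
    simpa using congrArg Subtype.val (IsKleinFour.mul_self (⟨v, hv⟩ : V))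
  have htj : ∀ z, t * j z = j z * t := fun z => hcomm t (Subgroup.mem_zpowers t) _ (hjE z)
  let P : Subgroup G :=
    { carrier := {g | ∃ v ∈ V, g = j v ∨ g = t * j v}
      one_mem' := ⟨1, one_mem _, Or.inl (map_one j).symm⟩
      mul_mem' := by
        rintro a b ⟨v, hv, rfl | rfl⟩ ⟨w, hw, rfl | rfl⟩
        · exact ⟨_, mul_mem hv hw, Or.inl (map_mul j v w).symm⟩
        · exact ⟨_, mul_mem hv hw, Or.inr (by rw [map_mul, ← mul_assoc, ← htj, mul_assoc])⟩
        · exact ⟨_, mul_mem hv hw, Or.inr (by rw [map_mul, mul_assoc])⟩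
        · exact ⟨_, mul_mem hv hw, Or.inl (by
            rw [map_mul, ← mul_assoc, mul_assoc t, ← htj, ← mul_assoc, htt, one_mul])⟩
      inv_mem' := by
        rintro a ⟨v, hv, rfl | rfl⟩
        · exact ⟨_, inv_mem hv, Or.inl (map_inv j v).symm⟩
        · exact ⟨_, inv_mem hv, Or.inr (by rw [_root_.mul_inv_rev, map_inv, ← map_inv, inv_eq_of_mul_eq_one_right htt, htj])⟩ }
  have htP : t ∈ P := ⟨1, one_mem _, Or.inr (by rw [map_one, mul_one])⟩
  have hPsq : ∀ g ∈ P, g * g = 1 := by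
    rintro g ⟨v, hv, rfl | rfl⟩
    · rw [← map_mul, hvv v hv, map_one]
    · rw [mul_assoc, ← mul_assoc (j v), ← htj, mul_assoc, ← map_mul, hvv v hv, map_one, mul_one, htt]
  have htnr : t ∉ j.range := fun h => htE ((hjr t).1 h).1
  have hPcard : Nat.card P = 8 := by
    let f : Fin 2 × V → P := fun p => ⟨t ^ (p.1 : ℕ) * j p.2, by
      obtain ⟨⟨i, hi⟩, v⟩ := p
      interval_cases i
      · exact ⟨v, v.2, Or.inl (by simp)⟩
      · exact ⟨v, v.2, Or.inr (by simp)⟩⟩
    have hf : Function.Bijective f := by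
      constructor
      · rintro ⟨⟨i, hi⟩, v⟩ ⟨⟨i', hi'⟩, w⟩ h
        have h' : t ^ i * j v = t ^ i' * j w := congrArg Subtype.val h
        interval_cases i <;> interval_cases i' <;> simp only [pow_zero, pow_one, one_mul] at h'
        · rw [Subtype.ext (hjinj h')]
        · exact absurd ⟨(v : PSL(2, F)) * (w : PSL(2, F))⁻¹, by rw [map_mul, map_inv, h', mul_inv_cancel_right]⟩ htnr
        · exact absurd ⟨(w : PSL(2, F)) * (v : PSL(2, F))⁻¹, by rw [map_mul, map_inv, ← h', mul_inv_cancel_right]⟩ htnr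
        · rw [Subtype.ext (hjinj (mul_left_cancel h'))]
      · rintro ⟨g, v, hv, rfl | rfl⟩
        · exact ⟨(0, ⟨v, hv⟩), Subtype.ext (by simp [f])⟩
        · exact ⟨(1, ⟨v, hv⟩), Subtype.ext (by simp [f])⟩
    rw [← Nat.card_eq_of_bijective f hf, Nat.card_prod, Nat.card_fin, hV.card_four]
  have hPp : IsPGroup 2 P := IsPGroup.of_card (n := 3) hPcard
  obtain ⟨S, hS⟩ := hPp.exists_le_sylow
  have hSC : ∀ a ∈ (S : Subgroup G), a ∈ Subgroup.centralizer ({t} : Set G) := fun a ha =>
    Subgroup.mem_centralizer_singleton_iff.2 (hcommS S a ha t (hS htP))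
  have htwo : ∀ a ∈ Subgroup.centralizer ({t} : Set G), ∀ k : ℕ, a ^ 2 ^ k = 1 →
      (∀ v ∈ V, a * j v = j v * a) → a ∈ P := by
    intro a ha k hk hav
    have hstab : ∀ z, MulAut.conj a (j z) ∈ j.range := fun z => hconj a ha z
    have hfix : ∀ v ∈ V, MulAut.conj a (j v) = j v := fun v hv => by
      rw [MulAut.conj_apply, hav v hv, mul_inv_cancel_right]
    obtain ⟨v, hv, hvz⟩ := exists_four_adjust hFo hq8 hV hx hxfix hgen j hjinj (MulAut.conj a) hstab hfix k
      (fun z => by rw [← map_pow, hk, map_one]; rfl)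
    have hz : ∀ z, j v * a * j z = j z * (j v * a) := by
      intro z
      have h := hvz z
      rw [MulAut.conj_apply] at h
      calc j v * a * j z = j v * (a * j z * a⁻¹) * (j v)⁻¹ * (j v * a) := by group
        _ = j z * (j v * a) := by rw [h]
    have hmem : j v * a ∈ Subgroup.centralizer ({t} : Set G) :=
      mul_mem (Subgroup.mem_centralizer_singleton_iff.2 (htj v).symm) ha
    have hP' : j v * a ∈ P := by
      rcases hcent _ hmem hz with h | h <;> rw [h]
      exacts [one_mem P, htP]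
    have := mul_mem (inv_mem (show j v ∈ P from ⟨v, hv, Or.inl rfl⟩)) hP'
    rwa [inv_mul_cancel_left] at this
  have hSP : (S : Subgroup G) = P := le_antisymm (fun a ha => by
    obtain ⟨k, hk⟩ := S.2 ⟨a, ha⟩
    exact htwo a (hSC a ha) k (by simpa using congrArg Subtype.val hk)
      fun v hv => hcommS S a ha _ (hS ⟨v, hv, Or.inl rfl⟩)) hS
  exact ⟨{ j := j, j_inj := hjinj, j_mem := fun z => hEC (hjE z), conj_mem := hconj, cent_eq := hcent
           t_notMem := htnr, V := V, four := hV, q8 := hq8, x := x, x_norm := hx, x_order := hxo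
           x_fix := hxfix, x_gen := hgen, S := S, t_mem := hS htP
           S_cases := fun s => by rw [hSP]; rfl
           S_card := by rw [hSP]; exact hPcard
           S_sq := fun s hs => hPsq s (hSP ▸ hs)
           two_elem := fun a ha k hk hav => hS (htwo a ha k hk hav) }⟩

/-- The element of order three normalizes the Sylow subgroup and fixes only `1` and `t` there. -/
theorem Data.x_facts {t : G} (D : Data t F) :
    D.j D.x ∈ Subgroup.normalizer ((D.S : Subgroup G) : Set G) ∧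
      ∀ s ∈ (D.S : Subgroup G), D.j D.x * s * (D.j D.x)⁻¹ = s → s = 1 ∨ s = t := by
  have htc : ∀ z, t * D.j z = D.j z * t := fun z =>
    (Subgroup.mem_centralizer_singleton_iff.1 (D.j_mem z)).symm
  have himg : ∀ s ∈ (D.S : Subgroup G), D.j D.x * s * (D.j D.x)⁻¹ ∈ (D.S : Subgroup G) := by
    intro s hs
    obtain ⟨v, hv, h⟩ := (D.S_cases s).1 hs
    refine (D.S_cases _).2 ⟨D.x * v * D.x⁻¹, (Subgroup.mem_normalizer_iff.1 D.x_norm v).1 hv, ?_⟩
    rcases h with rfl | rfl
    · left; simp only [map_mul, map_inv]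
    · right; simp only [map_mul, map_inv, ← mul_assoc, ← htc D.x]
  refine ⟨?_, fun s hs hfix => ?_⟩
  · rw [Subgroup.mem_normalizer_iff]
    intro s
    refine ⟨himg s, fun h => ?_⟩
    let r : ↥(D.S : Subgroup G) → ↥(D.S : Subgroup G) := fun u => ⟨_, himg u u.2⟩
    obtain ⟨u, hu⟩ := Finite.injective_iff_surjective.1
      (show Function.Injective r from fun a b e => Subtype.ext (by simpa [r] using congrArg Subtype.val e)) ⟨_, h⟩
    have : (u : G) = s := by simpa [r] using congrArg Subtype.val hu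
    exact this ▸ u.2
  · obtain ⟨v, hv, rfl | rfl⟩ := (D.S_cases s).1 hs
    · left
      rw [D.x_fix v hv (D.j_inj (by simpa using hfix)), map_one]
    · right
      rw [D.x_fix v hv (D.j_inj ?_), map_one, mul_one]
      simp only [map_mul, map_inv]
      simp only [← mul_assoc, ← htc D.x] at hfix
      simp only [mul_assoc] at hfix ⊢
      exact mul_left_cancel hfix

end Cfsg.Agent.H77.JankoRee
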