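import Cfsg.Agent.H77.JankoReeSetup

/-!
# Fusion of the involutions in a group of Janko–Ree type
-/

set_option autoImplicit false
set_option linter.style.haveILetI false

open Matrix MatrixGroups

namespace Cfsg.Agent.H77.JankoRee

variable {G : Type*} [Group G] [Finite G] {F : Type*} [Field F] [Fintype F]

/-- An element acting with period seven and without fixed points on the Sylow subgroup. -/
theorem Data.exists_seven [IsSimpleGroup G] (hG : ¬ IsMulCommutative G) {t : G} (ht : orderOf t = 2)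
    (D : Data t F) :
    ∃ y ∈ Subgroup.normalizer ((D.S : Subgroup G) : Set G),
      (∀ s ∈ (D.S : Subgroup G), y ^ 7 * s * (y ^ 7)⁻¹ = s) ∧
      (∀ s ∈ (D.S : Subgroup G), y * s * y⁻¹ = s → s = 1) := by
  classical
  haveI : Fact (Nat.Prime 2) := ⟨Nat.prime_two⟩
  haveI : Fact (Nat.Prime 7) := ⟨by norm_num⟩
  set S := (D.S : Subgroup G) with hSdef
  set K := Subgroup.normalizer (S : Set G) with hKdef
  obtain ⟨hxK, hxfix⟩ := D.x_facts
  have hScomm : ∀ a ∈ S, ∀ b ∈ S, a * b = b * a := fun a ha b hb => by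
    have h := congrArg (fun z => a * z * b) (D.S_sq _ (mul_mem ha hb))
    simpa [mul_assoc, D.S_sq a ha, D.S_sq b hb, ← mul_assoc a a] using h.symm
  have hidx : ∀ H : Subgroup G, H.index ≠ 2 := by
    intro H hH
    haveI := Subgroup.normal_of_index_eq_two hH
    rcases Subgroup.Normal.eq_bot_or_eq_top (inferInstance : H.Normal) with h | h
    · subst h
      rw [Subgroup.index_bot] at hH
      haveI : IsCyclic G := isCyclic_of_prime_card (p := 2) hH
      exact hG IsCyclic.commutative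
    · subst h; simp at hH
  have ht1 : t ≠ 1 := fun h => by simp [h] at ht
  obtain ⟨n, hn, hnt⟩ : ∃ n ∈ K, n * t * n⁻¹ ≠ t := by
    by_contra hc
    push Not at hc
    exact ht1 (H50.abelian_sylow_fixed_trivial hidx D.S ⟨⟨fun a b => Subtype.ext (hScomm a a.2 b b.2)⟩⟩ D.t_mem
      fun n hn => mul_inv_eq_iff_eq_mul.1 (hc n hn))
  -- the orbit of `t`
  let O : Set G := {u | ∃ k ∈ K, k * t * k⁻¹ = u}
  let H : Subgroup K := (Subgroup.centralizer ({t} : Set G)).subgroupOf K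
  have hOcard : Nat.card O = H.index := by
    rw [Subgroup.index_eq_card]
    refine (Nat.card_eq_of_bijective (fun q : K ⧸ H => (⟨(q.out : G) * t * (q.out : G)⁻¹, _, q.out.2, rfl⟩ : O)) ?_).symm
    constructor
    · intro a b h
      have h' : (a.out : G) * t * (a.out : G)⁻¹ = (b.out : G) * t * (b.out : G)⁻¹ := congrArg Subtype.val h
      rw [← QuotientGroup.out_eq' a, ← QuotientGroup.out_eq' b, QuotientGroup.eq]
      rw [Subgroup.mem_subgroupOf, Subgroup.mem_centralizer_singleton_iff]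
      show ((a.out : G))⁻¹ * (b.out : G) * t = t * (((a.out : G))⁻¹ * (b.out : G))
      calc ((a.out : G))⁻¹ * (b.out : G) * t
          = ((a.out : G))⁻¹ * ((b.out : G) * t * (b.out : G)⁻¹) * (b.out : G) := by group
        _ = t * (((a.out : G))⁻¹ * (b.out : G)) := by rw [← h']; group
    · rintro ⟨u, k, hk, rfl⟩
      refine ⟨QuotientGroup.mk ⟨k, hk⟩, Subtype.ext ?_⟩
      obtain ⟨c, hc⟩ := QuotientGroup.mk_out_eq_mul H ⟨k, hk⟩
      show ((QuotientGroup.mk (s := H) ⟨k, hk⟩).out : G) * t * ((QuotientGroup.mk (s := H) ⟨k, hk⟩).out : G)⁻¹ = k * t * k⁻¹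
      rw [hc, Subgroup.coe_mul]
      have hct : ((c : K) : G) * t = t * ((c : K) : G) := Subgroup.mem_centralizer_singleton_iff.1 c.2
      rw [_root_.mul_inv_rev, mul_assoc k, hct]
      group
  have hodd : Odd H.index := by
    have hSK : S ≤ K := Subgroup.le_normalizer
    have hdvd : H.index ∣ (S.subgroupOf K).index := Subgroup.index_dvd_of_le fun a ha =>
      Subgroup.mem_centralizer_singleton_iff.2 (hScomm _ ha t D.t_mem)
    have h2 : ¬ 2 ∣ (S.subgroupOf K).index := fun h =>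
      D.S.not_dvd_index (h.trans (Dvd.intro _ (Subgroup.relIndex_mul_index hSK)))
    rw [Nat.odd_iff]
    by_contra hc
    exact h2 ((Nat.dvd_of_mod_eq_zero (by omega)).trans hdvd)
  have hOS : ∀ u ∈ O, u ∈ S ∧ u ≠ 1 := by
    rintro u ⟨k, hk, rfl⟩
    exact ⟨(Subgroup.mem_normalizer_iff.1 hk t).1 D.t_mem, by simpa using ht1⟩
  have htO : t ∈ O := ⟨1, one_mem _, by simp⟩
  have hxt : D.j D.x * t * (D.j D.x)⁻¹ = t :=
    mul_inv_eq_iff_eq_mul.2 (Subgroup.mem_centralizer_singleton_iff.1 (D.j_mem D.x))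
  have hxinv : ∀ u ∈ O, D.j D.x * u * (D.j D.x)⁻¹ ∈ O := by
    rintro u ⟨k, hk, rfl⟩
    exact ⟨D.j D.x * k, mul_mem hxK hk, by group⟩
  have hx3 : ∀ u : G, D.j D.x * (D.j D.x * (D.j D.x * u * (D.j D.x)⁻¹) * (D.j D.x)⁻¹) * (D.j D.x)⁻¹ = u := by
    intro u
    have h3 : (D.j D.x) ^ 3 = 1 := by rw [← map_pow, ← D.x_order, pow_orderOf_eq_one, map_one]
    calc D.j D.x * (D.j D.x * (D.j D.x * u * (D.j D.x)⁻¹) * (D.j D.x)⁻¹) * (D.j D.x)⁻¹
        = (D.j D.x) ^ 3 * u * ((D.j D.x) ^ 3)⁻¹ := by simp [pow_succ, mul_assoc]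
      _ = u := by rw [h3]; simp
  -- an element other than `t` gives a triple of distinct elements
  have htriple : ∀ u ∈ S, u ≠ 1 → u ≠ t →
      let a := D.j D.x * u * (D.j D.x)⁻¹
      let b := D.j D.x * a * (D.j D.x)⁻¹
      u ≠ a ∧ a ≠ b ∧ u ≠ b ∧ a ≠ 1 ∧ b ≠ 1 ∧ a ≠ t ∧ b ≠ t := by
    intro u hu hu1 hut a b
    have hne : a ≠ u := fun e => by rcases hxfix u hu e with h | h <;> contradiction
    have hinj : ∀ v w : G, D.j D.x * v * (D.j D.x)⁻¹ = D.j D.x * w * (D.j D.x)⁻¹ → v = w := fun v w h => by simpa using h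
    have ha1 : a ≠ 1 := by simpa [a] using hu1
    have hat : a ≠ t := fun e => hut (hinj u t (e.trans hxt.symm))
    refine ⟨hne.symm, fun e => hne (hinj u a e).symm, fun e => hne ?_, ha1, by simpa [b] using ha1, hat,
      fun e => hat (hinj a t (e.trans hxt.symm))⟩
    have h3 : D.j D.x * b * (D.j D.x)⁻¹ = u := hx3 u
    rw [← e] at h3
    exact h3
  obtain ⟨u, huO, hut⟩ : ∃ u ∈ O, u ≠ t := ⟨_, ⟨n, hn, rfl⟩, hnt⟩
  have h4 : 4 ≤ Nat.card O := by
    obtain ⟨h1, h2, h3, -, -, hat, hbt⟩ := htriple u (hOS u huO).1 (hOS u huO).2 hut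
    have hsub : (({t, u, D.j D.x * u * (D.j D.x)⁻¹,
        D.j D.x * (D.j D.x * u * (D.j D.x)⁻¹) * (D.j D.x)⁻¹} : Finset G) : Set G) ⊆ O := by
      intro z hz
      simp only [Finset.coe_insert, Finset.coe_singleton, Set.mem_insert_iff, Set.mem_singleton_iff] at hz
      rcases hz with rfl | rfl | rfl | rfl
      exacts [htO, huO, hxinv _ huO, hxinv _ (hxinv _ huO)]
    have := Nat.card_mono (Set.toFinite O) hsub
    rw [Nat.card_coe_set_eq, Set.ncard_coe_finset, Finset.card_insert_of_notMem (by simp [hut.symm, hat.symm, hbt.symm]),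
      Finset.card_insert_of_notMem (by simp [h1, h3]), Finset.card_insert_of_notMem (by simp [h2]),
      Finset.card_singleton] at this
    exact this
  have hsubS : O ⊆ ((S : Set G) \ {1}) := fun u hu => ⟨(hOS u hu).1, (hOS u hu).2⟩
  have hS7 : ((S : Set G) \ {1}).ncard = 7 := by
    rw [Set.ncard_sdiff_singleton_of_mem (one_mem S), ← Nat.card_coe_set_eq]
    show Nat.card S - 1 = 7
    rw [hSdef, D.S_card]
  have h7 : Nat.card O = 7 := by
    have hle : Nat.card O ≤ 7 := by rw [Nat.card_coe_set_eq, ← hS7]; exact Set.ncard_le_ncard hsubS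
    rw [hOcard] at h4 hle ⊢
    have := Nat.odd_iff.1 hodd
    by_contra hc
    have h5 : H.index = 5 := by omega
    obtain ⟨w, hw, hwO⟩ : ∃ w ∈ ((S : Set G) \ {1}), w ∉ O := by
      by_contra hall
      push Not at hall
      have := Set.ncard_le_ncard (s := ((S : Set G) \ {1})) (t := O) hall
      rw [hS7, ← Nat.card_coe_set_eq, hOcard] at this
      omega
    have hwt : w ≠ t := fun e => hwO (e ▸ htO)
    obtain ⟨h1, h2, h3, ha1, hb1, -, -⟩ := htriple w hw.1 hw.2 hwt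
    have hout : ∀ v, v ∉ O → D.j D.x * v * (D.j D.x)⁻¹ ∉ O := fun v hv hm => hv (by
      have := hxinv _ (hxinv _ hm); rwa [hx3] at this)
    have hmemS : ∀ v ∈ S, D.j D.x * v * (D.j D.x)⁻¹ ∈ S := fun v hv => (Subgroup.mem_normalizer_iff.1 hxK v).1 hv
    have hsub : O ∪ (({w, D.j D.x * w * (D.j D.x)⁻¹,
        D.j D.x * (D.j D.x * w * (D.j D.x)⁻¹) * (D.j D.x)⁻¹} : Finset G) : Set G) ⊆ ((S : Set G) \ {1}) := by
      refine Set.union_subset hsubS fun z hz => ?_
      simp only [Finset.coe_insert, Finset.coe_singleton, Set.mem_insert_iff, Set.mem_singleton_iff] at hz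
      rcases hz with rfl | rfl | rfl
      exacts [hw, ⟨hmemS _ hw.1, ha1⟩, ⟨hmemS _ (hmemS _ hw.1), hb1⟩]
    have hle' := Set.ncard_le_ncard hsub
    rw [hS7, Set.ncard_union_eq (by
      rw [Set.disjoint_left]
      intro z hz hz'
      simp only [Finset.coe_insert, Finset.coe_singleton, Set.mem_insert_iff, Set.mem_singleton_iff] at hz'
      rcases hz' with rfl | rfl | rfl
      exacts [hwO hz, hout _ hwO hz, hout _ (hout _ hwO) hz]),
      ← Nat.card_coe_set_eq, hOcard, h5, Set.ncard_coe_finset,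
      Finset.card_insert_of_notMem (by simp [h1, h3]), Finset.card_insert_of_notMem (by simp [h2]),
      Finset.card_singleton] at hle'
    omega
  -- an element of order seven modulo the centralizer
  let Z : Subgroup K := (Subgroup.centralizer (S : Set G)).subgroupOf K
  haveI : Z.Normal := by
    refine ⟨fun z hz k => ?_⟩
    rw [Subgroup.mem_subgroupOf] at hz ⊢
    rw [Subgroup.mem_centralizer_iff] at hz ⊢
    intro s hs
    have hs' : (k : G)⁻¹ * s * k ∈ S := by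
      have := (Subgroup.mem_normalizer_iff.1 (inv_mem k.2) s).1 hs
      simpa using this
    show s * ((k : G) * z * (k : G)⁻¹) = (k : G) * z * (k : G)⁻¹ * s
    calc s * ((k : G) * z * (k : G)⁻¹) = (k : G) * (((k : G)⁻¹ * s * k) * z) * (k : G)⁻¹ := by group
      _ = (k : G) * (z * ((k : G)⁻¹ * s * k)) * (k : G)⁻¹ := by rw [hz _ hs']
      _ = (k : G) * z * (k : G)⁻¹ * s := by group
  have hdvd : 7 ∣ Nat.card (K ⧸ Z) := by
    rw [← h7, hOcard, ← Subgroup.index_eq_card]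
    exact Subgroup.index_dvd_of_le fun z hz =>
      Subgroup.mem_centralizer_singleton_iff.2 ((Subgroup.mem_centralizer_iff.1 hz) t D.t_mem).symm
  obtain ⟨yb, hyb⟩ := exists_prime_orderOf_dvd_card' 7 hdvd
  obtain ⟨⟨y, hyK⟩, rfl⟩ := QuotientGroup.mk_surjective yb
  have hy7 : (⟨y, hyK⟩ : K) ^ 7 ∈ Z := by
    rw [← QuotientGroup.eq_one_iff, QuotientGroup.mk_pow, ← hyb]
    exact pow_orderOf_eq_one _
  have hy1 : (⟨y, hyK⟩ : K) ∉ Z := fun h => by
    rw [(QuotientGroup.eq_one_iff _).2 h, orderOf_one] at hyb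
    norm_num at hyb
  have hact7 : ∀ s ∈ S, y ^ 7 * s * (y ^ 7)⁻¹ = s := fun s hs => by
    rw [mul_inv_eq_iff_eq_mul]
    have hy7' : y ^ 7 ∈ Subgroup.centralizer (S : Set G) := hy7
    exact (Subgroup.mem_centralizer_iff.1 hy7' s hs).symm
  refine ⟨y, hyK, hact7, fun s hs hfix => ?_⟩
  by_contra hs1
  obtain ⟨w, hw, hyw⟩ : ∃ w ∈ S, y * w * y⁻¹ ≠ w := by
    by_contra hc
    push Not at hc
    exact hy1 (Subgroup.mem_centralizer_iff.2 fun s hs => (mul_inv_eq_iff_eq_mul.1 (hc s hs)).symm)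
  have hmem : ∀ (i : ℕ) (v : G), v ∈ S → y ^ i * v * (y ^ i)⁻¹ ∈ S := fun i v hv =>
    (Subgroup.mem_normalizer_iff.1 (pow_mem hyK i) v).1 hv
  have hinj : Function.Injective fun i : Fin 7 => y ^ (i : ℕ) * w * (y ^ (i : ℕ))⁻¹ := by
    intro a b e
    by_contra hab
    wlog hlt : (a : ℕ) < b generalizing a b
    · exact this e.symm (Ne.symm hab) (by have : (a : ℕ) ≠ b := fun h => hab (Fin.ext h); omega)
    obtain ⟨d, hd⟩ : ∃ d, (b : ℕ) = a + d := ⟨b - a, by omega⟩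
    have hd7 : 0 < d ∧ d < 7 := by omega
    have hfixd : y ^ d * w * (y ^ d)⁻¹ = w := by
      have e' : y ^ (a : ℕ) * w * (y ^ (a : ℕ))⁻¹ = y ^ (a : ℕ) * (y ^ d * w * (y ^ d)⁻¹) * (y ^ (a : ℕ))⁻¹ := by
        calc y ^ (a : ℕ) * w * (y ^ (a : ℕ))⁻¹ = y ^ (b : ℕ) * w * (y ^ (b : ℕ))⁻¹ := e
          _ = _ := by rw [hd, pow_add]; group
      simpa using e'.symm
    have hc1 : Commute (y ^ d) w := mul_inv_eq_iff_eq_mul.1 hfixd
    have hc2 : Commute (y ^ 7) w := mul_inv_eq_iff_eq_mul.1 (hact7 w hw)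
    have hgcd : Nat.gcd d 7 = 1 :=
      Nat.coprime_comm.1 ((Nat.Prime.coprime_iff_not_dvd (by norm_num)).2 (fun h => by
        have := Nat.le_of_dvd hd7.1 h; omega))
    have hy : y = (y ^ d) ^ (Nat.gcdA d 7) * (y ^ 7) ^ (Nat.gcdB d 7) := by
      rw [← zpow_natCast, ← zpow_natCast, ← _root_.zpow_mul, ← _root_.zpow_mul, ← _root_.zpow_add, ← Nat.gcd_eq_gcd_ab, hgcd]
      simp
    have hc : Commute y w := hy ▸ (hc1.zpow_left _).mul_left (hc2.zpow_left _)
    exact hyw (mul_inv_eq_iff_eq_mul.2 hc.eq)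
  have hw1 : w ≠ 1 := fun e => hyw (by rw [e]; simp)
  have hsurj : s ∈ Set.range fun i : Fin 7 => y ^ (i : ℕ) * w * (y ^ (i : ℕ))⁻¹ := by
    have hr : Set.range (fun i : Fin 7 => y ^ (i : ℕ) * w * (y ^ (i : ℕ))⁻¹) = ((S : Set G) \ {1}) := by
      refine Set.eq_of_subset_of_ncard_le ?_ ?_ (Set.toFinite _)
      · rintro _ ⟨i, rfl⟩; exact ⟨hmem i w hw, by simpa using hw1⟩
      · rw [hS7, ← Nat.card_coe_set_eq, Nat.card_range_of_injective hinj, Nat.card_fin]
    rw [hr]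
    exact ⟨hs, hs1⟩
  obtain ⟨i, hi⟩ := hsurj
  have hi' : y ^ (i : ℕ) * w * (y ^ (i : ℕ))⁻¹ = s := hi
  apply hyw
  have h := hfix
  rw [← hi'] at h
  calc y * w * y⁻¹ = (y ^ (i : ℕ))⁻¹ * (y * (y ^ (i : ℕ) * w * (y ^ (i : ℕ))⁻¹) * y⁻¹) * y ^ (i : ℕ) := by
        rw [show (y ^ (i : ℕ))⁻¹ * (y * (y ^ (i : ℕ) * w * (y ^ (i : ℕ))⁻¹) * y⁻¹) * y ^ (i : ℕ) =
          ((y ^ (i : ℕ))⁻¹ * (y * y ^ (i : ℕ))) * w * ((y ^ (i : ℕ))⁻¹ * (y * y ^ (i : ℕ)))⁻¹ by group,
          ← pow_succ', pow_succ, ← mul_assoc, inv_mul_cancel, one_mul]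
    _ = (y ^ (i : ℕ))⁻¹ * (y ^ (i : ℕ) * w * (y ^ (i : ℕ))⁻¹) * y ^ (i : ℕ) := by rw [h]
    _ = w := by group

end Cfsg.Agent.H77.JankoRee
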