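import Cfsg.Agent.H77.RankOneSylowCentral
import Cfsg.Agent.H1.SylowTwoDim
import Mathlib

/-!
`SL₂(F)` in characteristic `p ≥ 5` carries the rank one data.
-/

set_option autoImplicit false

open scoped Pointwise MatrixGroups

namespace Cfsg.Agent.H77.RankOne

open Matrix

variable {F : Type*} [Field F] [Fintype F] {p : ℕ} [Fact p.Prime] [CharP F p]

theorem smul_eq_of_lowerLeft {k : SpecialLinearGroup (Fin 2) F}
    (hk : (k : Matrix (Fin 2) (Fin 2) F) 1 0 = 0) :
    k • H1.sylowSL (F := F) p = H1.sylowSL p := by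
  rw [Sylow.smul_eq_iff_mem_normalizer, ← H1.sylow_coe_set, H1.coe_sylowSL]
  exact H1.mem_normalizer_upperUni hk

theorem lowerLeft_of_smul_eq {k : SpecialLinearGroup (Fin 2) F}
    (hk : k • H1.sylowSL (F := F) p = H1.sylowSL p) :
    (k : Matrix (Fin 2) (Fin 2) F) 1 0 = 0 := by
  rw [Sylow.smul_eq_iff_mem_normalizer, ← H1.sylow_coe_set, H1.coe_sylowSL] at hk
  have h1 := (Subgroup.mem_normalizer_iff.1 hk (H1.upperUniHom F (Multiplicative.ofAdd 1))).1 ⟨_, rfl⟩
  obtain ⟨c, hc⟩ := h1
  have h2 : H1.upperUniHom F c * k = k * H1.upperUniHom F (Multiplicative.ofAdd 1) := by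
    rw [hc]; group
  have h4 := congrFun (congrFun (congrArg Subtype.val h2) 1) 1
  simpa [H1.upperUniHom_val, Matrix.mul_apply, Fin.sum_univ_two, eq_comm] using h4

/-- The Weyl element. -/
def weyl : SpecialLinearGroup (Fin 2) F := ⟨!![0, 1; -1, 0], by simp [Matrix.det_fin_two]⟩

/-- The diagonal element. -/
def dia (a : Fˣ) : SpecialLinearGroup (Fin 2) F :=
  ⟨!![(a : F), 0; 0, ((a⁻¹ : Fˣ) : F)], by simp [Matrix.det_fin_two]⟩

/-- The diagonal elements as a homomorphism. -/
def diaHom : Fˣ →* SpecialLinearGroup (Fin 2) F where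
  toFun := dia
  map_one' := by
    apply Subtype.ext
    ext i j
    fin_cases i <;> fin_cases j <;> simp [dia]
  map_mul' a b := by
    apply Subtype.ext
    show _ = !![(a : F), 0; 0, ((a⁻¹ : Fˣ) : F)] * !![(b : F), 0; 0, ((b⁻¹ : Fˣ) : F)]
    ext i j
    fin_cases i <;> fin_cases j <;>
      simp [dia, Matrix.mul_apply, Fin.sum_univ_two, mul_comm]

omit [Fintype F] in
theorem diaHom_val (a : Fˣ) :
    ((diaHom a : SpecialLinearGroup (Fin 2) F) : Matrix (Fin 2) (Fin 2) F) =
      !![(a : F), 0; 0, ((a⁻¹ : Fˣ) : F)] := rfl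

omit [Fintype F] in
theorem weyl_val :
    ((weyl : SpecialLinearGroup (Fin 2) F) : Matrix (Fin 2) (Fin 2) F) = !![0, 1; -1, 0] := rfl

omit [Fintype F] in
theorem exists_unit_sq_ne_one (hp : 5 ≤ p) : ∃ a : Fˣ, a ^ (p - 1) = 1 ∧ (a : F) ^ 2 ≠ 1 := by
  obtain ⟨b, hb⟩ := IsCyclic.exists_generator (α := (ZMod p)ˣ)
  let f : ZMod p →+* F := ZMod.castHom dvd_rfl F
  refine ⟨Units.map f.toMonoidHom b, ?_, fun h => ?_⟩
  · rw [← map_pow, ZMod.units_pow_card_sub_one_eq_one, map_one]
  · have h1 : f ((b : ZMod p) ^ 2) = f 1 := by rw [map_pow, map_one]; exact h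
    have h2 : b ^ 2 = 1 := Units.ext (f.injective h1)
    have h3 : orderOf b = p - 1 := by
      rw [orderOf_eq_card_of_forall_mem_zpowers hb, Nat.card_eq_fintype_card, ZMod.card_units p]
    have h4 := Nat.le_of_dvd two_pos (orderOf_dvd_of_pow_eq_one h2)
    omega

/-- The rank one data of `SL₂(F)`. -/
theorem nonempty_data_SL2 (hp : 5 ≤ p) : Nonempty (Data p (SpecialLinearGroup (Fin 2) F)) := by
  obtain ⟨a, ha, ha2⟩ := exists_unit_sq_ne_one (F := F) hp
  obtain ⟨b, hb⟩ := IsCyclic.exists_generator (α := Fˣ)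
  set U := H1.sylowSL (F := F) p with hU
  set V := weyl (F := F) • U with hV
  have hVU : V ≠ U := fun e => by
    have := lowerLeft_of_smul_eq (p := p) e
    simp [weyl_val] at this
  have htrans : ∀ W : Sylow p (SpecialLinearGroup (Fin 2) F), W ≠ U →
      ∃ u ∈ (U : Subgroup (SpecialLinearGroup (Fin 2) F)), u • V = W := by
    intro W hW
    obtain ⟨g, rfl⟩ := MulAction.exists_smul_eq (SpecialLinearGroup (Fin 2) F) U W
    have hg : (g : Matrix (Fin 2) (Fin 2) F) 1 0 ≠ 0 := fun h => hW (smul_eq_of_lowerLeft h)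
    set z := (g : Matrix (Fin 2) (Fin 2) F) 1 0
    set u := H1.upperUniHom F (Multiplicative.ofAdd ((g : Matrix (Fin 2) (Fin 2) F) 0 0 / z))
      with hu
    refine ⟨u, ?_, ?_⟩
    · rw [hU, H1.coe_sylowSL]; exact ⟨_, rfl⟩
    · have h : (((u * weyl)⁻¹ * g : SpecialLinearGroup (Fin 2) F) : Matrix (Fin 2) (Fin 2) F) 1 0 = 0 := by
        simp [hu, weyl_val, Matrix.adjugate_fin_two, H1.upperUniHom_val, Matrix.mul_apply,
          Fin.sum_univ_two]
        field_simp
        ring
      have h2 := smul_eq_of_lowerLeft (p := p) h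
      rw [hV, smul_smul]
      calc (u * weyl) • U = (u * weyl) • (((u * weyl)⁻¹ * g) • U) := by rw [h2]
        _ = g • U := by rw [smul_smul, mul_inv_cancel_left]
  refine ⟨{
    U := U
    V := V
    t := diaHom a
    g := diaHom b
    tU := smul_eq_of_lowerLeft (by simp [-map_inv, diaHom_val])
    tV := by
      have h : (diaHom a * weyl : SpecialLinearGroup (Fin 2) F) = weyl * diaHom a⁻¹ := by
        apply Subtype.ext
        ext i j
        fin_cases i <;> fin_cases j <;>
          simp [-map_inv, diaHom_val, weyl_val, Matrix.mul_apply, Fin.sum_univ_two]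
      rw [hV, smul_smul, h, mul_smul, smul_eq_of_lowerLeft (by simp [-map_inv, diaHom_val])]
    VU := hVU
    t_pow := by rw [← map_pow, ha, map_one]
    fpf := ?_
    gU := smul_eq_of_lowerLeft (by simp [-map_inv, diaHom_val])
    cyc := ?_
    trans := htrans
    kerC := ?_
    gen := ?_
    cop := ?_ }⟩
  · intro u hu h
    rw [hU, H1.coe_sylowSL] at hu
    obtain ⟨c, rfl⟩ := hu
    have h1 := congrFun (congrFun (congrArg Subtype.val h) 0) 1
    simp [-map_inv, diaHom_val, H1.upperUniHom_val, Matrix.mul_apply, Fin.sum_univ_two] at h1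
    have hc : c.toAdd = 0 := by
      by_contra hne
      apply ha2
      have : (a : F) * c.toAdd * a = c.toAdd := by
        rw [h1, mul_assoc, inv_mul_cancel₀ a.ne_zero, mul_one]
      apply mul_left_cancel₀ hne
      linear_combination this
    rw [show c = 1 from hc, map_one]
  · intro x hx
    have h10 := lowerLeft_of_smul_eq (p := p) hx
    have hdet : (x : Matrix (Fin 2) (Fin 2) F) 0 0 * (x : Matrix (Fin 2) (Fin 2) F) 1 1 = 1 := by
      have := x.2
      rw [Matrix.det_fin_two, h10, mul_zero, sub_zero] at this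
      exact this
    obtain ⟨k, hk⟩ := mem_powers_iff_mem_zpowers.2 (hb (Units.mk0 _ (left_ne_zero_of_mul_eq_one hdet)))
    refine ⟨k, ?_⟩
    rw [hU, H1.coe_sylowSL, ← map_pow, show b ^ k = _ from hk]
    refine ⟨Multiplicative.ofAdd ((x : Matrix (Fin 2) (Fin 2) F) 0 1 * (x : Matrix (Fin 2) (Fin 2) F) 0 0), ?_⟩
    rw [← map_inv]
    apply Subtype.ext
    ext i j
    fin_cases i <;> fin_cases j <;>
      simp [-map_inv, diaHom_val, H1.upperUniHom_val, Matrix.mul_apply, Fin.sum_univ_two, h10]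
    · rw [mul_inv_cancel₀ (left_ne_zero_of_mul_eq_one hdet)]
    · rw [mul_comm, hdet]
  · intro x hx
    have h10 := lowerLeft_of_smul_eq (p := p) (hx U)
    have hconj : ∀ y : SpecialLinearGroup (Fin 2) F,
        ((y⁻¹ * x * y : SpecialLinearGroup (Fin 2) F) : Matrix (Fin 2) (Fin 2) F) 1 0 = 0 := fun y => by
      refine lowerLeft_of_smul_eq (p := p) ?_
      rw [mul_smul, mul_smul, hx, inv_smul_smul]
    have h01 := hconj weyl
    have h11 := hconj (weyl * H1.upperUniHom F (Multiplicative.ofAdd 1))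
    simp [weyl_val, Matrix.adjugate_fin_two, H1.upperUniHom_val, Matrix.mul_apply, Matrix.vecMul, dotProduct, Fin.sum_univ_two] at h01
    have hy := hconj (H1.upperUniHom F (Multiplicative.ofAdd 1) * weyl)
    simp [weyl_val, Matrix.adjugate_fin_two, H1.upperUniHom_val, Matrix.mul_apply, Matrix.vecMul, dotProduct,
      Fin.sum_univ_two, h10, h01] at hy
    refine Subgroup.mem_center_iff.2 fun y => ?_
    apply Subtype.ext
    ext i j
    fin_cases i <;> fin_cases j <;>
      simp [Matrix.mul_apply, Fin.sum_univ_two, h10, h01] <;> grobner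
  · refine top_unique ?_
    rw [← H1.sylowSL_sup_eq_top p U V hVU.symm]
    refine sup_le Subgroup.subset_normalClosure ?_
    rintro _ ⟨u, hu, rfl⟩
    exact Subgroup.normalClosure_normal.conj_mem _ (Subgroup.subset_normalClosure hu) _
  · rw [Nat.card_congr SpecialLinearGroup.center_equiv_rootsOfUnity.toEquiv]
    rw [Nat.coprime_comm, (Fact.out : p.Prime).coprime_iff_not_dvd]
    intro hd
    have h2 := Nat.le_of_dvd Nat.card_pos hd
    have h3 : Nat.card (rootsOfUnity (Fintype.card (Fin 2)) F) ≤ Fintype.card (Fin 2) := by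
      haveI : NeZero (Fintype.card (Fin 2)) := ⟨by simp⟩
      exact card_rootsOfUnity _ _
    have h4 : p ≤ Fintype.card (Fin 2) := h2.trans h3
    rw [Fintype.card_fin] at h4
    omega

end Cfsg.Agent.H77.RankOne
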