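import Cfsg.Agent.H77.RankOneSylowCentral
import Cfsg.Agent.H14.UThree.Radical
import Mathlib

/-!
`SU₃(F)` in characteristic `p ≥ 5` carries the rank one data.
-/

set_option autoImplicit false

open scoped Pointwise

namespace Cfsg.Agent.H77.RankOne

open Matrix Cfsg Cfsg.Agent.H14.UThree

attribute [local instance] vecAction

variable {F : Type*} [Field F] [Fintype F] {q : ℕ} {p : ℕ} [Fact p.Prime] [CharP F p]
  (hF : Fintype.card F = q ^ 2)
include hF

theorem conj_mem_unip {v : Fin 3 → F} (x : SU 3 F q) {g : SU 3 F q} (hg : g ∈ unip q v) :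
    x * g * x⁻¹ ∈ unip q (x • v) := by
  refine ⟨by rw [mul_smul, mul_smul, inv_smul_smul, hg.1], fun y hy => ?_⟩
  obtain ⟨a, ha⟩ := hg.2 (x⁻¹ • y) (by
    rw [← form_smul x, smul_inv_smul]; exact hy)
  refine ⟨a, ?_⟩
  rw [mul_smul, mul_smul, ha, smul_add', smul_inv_smul, smul_comm']

theorem map_conj_unip {v : Fin 3 → F} (x : SU 3 F q) :
    (unip q v).map (MulAut.conj x).toMonoidHom = unip q (x • v) := by
  refine le_antisymm ?_ fun g hg => ⟨x⁻¹ * g * x, ?_, by simp [mul_assoc]⟩
  · rintro _ ⟨g, hg, rfl⟩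
    exact conj_mem_unip hF x hg
  · have h := conj_mem_unip hF x⁻¹ hg
    rwa [inv_smul_smul, inv_inv] at h

theorem unip_smul {v : Fin 3 → F} {c : F} (hc : c ≠ 0) : unip q (c • v) = unip q v := by
  have h0 : ∀ y, hermForm 3 F q y (c • v) = 0 ↔ hermForm 3 F q y v = 0 := fun y => by
    rw [H3.hermForm_smul_right hF, mul_eq_zero, or_iff_right (pow_ne_zero _ hc)]
  ext g
  constructor
  · rintro ⟨h1, h2⟩
    refine ⟨?_, fun y hy => ?_⟩
    · rw [smul_comm'] at h1
      exact smul_right_injective _ hc h1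
    · obtain ⟨a, ha⟩ := h2 y ((h0 y).2 hy)
      exact ⟨a * c, by rw [ha, smul_smul]⟩
  · rintro ⟨h1, h2⟩
    refine ⟨by rw [smul_comm', h1], fun y hy => ?_⟩
    obtain ⟨a, ha⟩ := h2 y ((h0 y).1 hy)
    exact ⟨a * c⁻¹, by rw [ha, smul_smul, inv_mul_cancel_right₀ hc]⟩

theorem isPGroup_unip (hp : 3 ≤ p) {v : Fin 3 → F} (hv0 : hermForm 3 F q v v = 0) :
    IsPGroup p (unip q v) := by
  rintro ⟨g, hg⟩
  refine ⟨1, Subtype.ext (Subtype.ext (Subtype.ext ?_))⟩
  set M := (g.1 : Matrix (Fin 3) (Fin 3) F) with hM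
  have hsub : ∀ z, (M - 1) *ᵥ z = g • z - z := fun z => by
    rw [Matrix.sub_mulVec, Matrix.one_mulVec]; rfl
  have h3 : (M - 1) ^ 3 = 0 := by
    refine Matrix.ext_of_mulVec_single fun i => ?_
    rw [pow_succ', pow_two, ← Matrix.mulVec_mulVec, ← Matrix.mulVec_mulVec, Matrix.zero_mulVec]
    generalize (Pi.single i 1 : Fin 3 → F) = y
    have h1 : hermForm 3 F q ((M - 1) *ᵥ y) v = 0 := by
      rw [hsub, H3.hermForm_sub_left hF]
      conv_lhs => enter [1]; rw [← hg.1]
      rw [form_smul, sub_self]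
    obtain ⟨a, ha⟩ := hg.2 _ h1
    have h2 : (M - 1) *ᵥ ((M - 1) *ᵥ y) = a • v := by rw [hsub ((M - 1) *ᵥ y), ha, add_sub_cancel_left]
    rw [h2, hsub, smul_comm', hg.1, sub_self]
  have hpow : (M - 1) ^ p = 0 := pow_eq_zero_of_le hp h3
  rw [sub_pow_char_of_commute p (Commute.one_right M), one_pow, sub_eq_zero] at hpow
  simpa [hM] using hpow

/-- The common fixed points of `unip v` lie on the line of `v`. -/
theorem fixed_unip {v : Fin 3 → F} (hv : v ≠ 0) (hv0 : hermForm 3 F q v v = 0) {y : Fin 3 → F}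
    (hy : ∀ g ∈ unip q v, g • y = y) : ∃ c : F, y = c • v := by
  obtain ⟨x, w, T⟩ := exists_trip hF hv hv0
  obtain ⟨a, ha⟩ := H3.exists_trace_eq hF (a := (-1 : F))
    (by rw [← H3.conjQ_apply hF, map_neg, map_one])
  have haP : a + a ^ q + hermForm 3 F q x x = 0 := by rw [T.xx]; linear_combination ha
  have h := hy _ (root_mem_unip hF hv0 (T.vx hF) haP)
  have hh : H3.rootMat q v x a *ᵥ y = y := h
  rw [H3.rootMat_mulVec] at hh
  have e1 := congrArg (fun z => hermForm 3 F q z x) hh
  have e2 := congrArg (fun z => hermForm 3 F q z w) hh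
  simp only [H3.hermForm_add_left hF, H3.hermForm_sub_left hF, H3.hermForm_smul_left hF, T.xx,
    T.vx hF, T.xw, T.vw hF, mul_one, mul_zero, sub_zero, add_zero, add_eq_left] at e1 e2
  refine ⟨hermForm 3 F q y w, ?_⟩
  rw [e1] at e2
  simp at e2
  conv_lhs => rw [T.coord hF y, e1, e2, zero_smul, zero_smul, add_zero, add_zero]

theorem line_of_normalizes {v : Fin 3 → F} (hv : v ≠ 0) (hv0 : hermForm 3 F q v v = 0)
    {x : SU 3 F q} (hx : unip q (x • v) = unip q v) : ∃ c : F, x • v = c • v :=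
  fixed_unip hF hv hv0 fun g hg => by
    rw [← hx] at hg; exact hg.1

/-- The linear map fixing the triple up to the scalars `a, 1, a⁻¹`. -/
theorem exists_torus {v x w : Fin 3 → F} (T : Trip q v x w) (a : Fˣ) (ha : (a : F) ^ q = a) :
    ∃ t : SU 3 F q, t • v = (a : F) • v ∧ t • x = x ∧ t • w = ((a⁻¹ : Fˣ) : F) • w := by
  let L : (Fin 3 → F) →ₗ[F] (Fin 3 → F) :=
    { toFun := fun y => ((a : F) * hermForm 3 F q y w) • v + hermForm 3 F q y x • x
        + (((a⁻¹ : Fˣ) : F) * hermForm 3 F q y v) • w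
      map_add' := fun y z => by
        simp only [H3.hermForm_add_left hF, mul_add, add_smul]; abel
      map_smul' := fun c y => by
        simp only [H3.hermForm_smul_left hF, RingHom.id_apply, smul_add, smul_smul]
        module }
  have Lv : L v = (a : F) • v := by simp [L, T.vw hF, T.vx hF, T.vv]
  have Lx : L x = x := by simp [L, T.xw, T.xx, T.xv]
  have Lw : L w = ((a⁻¹ : Fˣ) : F) • w := by simp [L, T.ww, T.wx hF, T.wv]
  have hdet : (LinearMap.toMatrix' L).det = 1 := by
    rw [LinearMap.det_toMatrix', ← LinearMap.det_toMatrix (T.basis hF)]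
    have hb : ∀ j, (T.basis hF) j = ![v, x, w] j := fun j => by
      rw [Trip.basis, coe_basisOfLinearIndependentOfCardEqFinrank]
    have hd : LinearMap.toMatrix (T.basis hF) (T.basis hF) L =
        Matrix.diagonal ![(a : F), 1, ((a⁻¹ : Fˣ) : F)] := by
      ext i j
      rw [LinearMap.toMatrix_apply]
      have : L ((T.basis hF) j) = (![(a : F), 1, ((a⁻¹ : Fˣ) : F)] j) • (T.basis hF) j := by
        rw [hb]
        fin_cases j <;> simp [Lv, Lx, Lw]
      rw [this, map_smul, Module.Basis.repr_self, Finsupp.smul_apply, Matrix.diagonal_apply]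
      by_cases hij : i = j
      · subst hij; simp
      · simp [hij, Ne.symm hij]
    rw [hd, Matrix.det_diagonal, Fin.prod_univ_three]
    simp
  refine ⟨⟨⟨LinearMap.toMatrix' L, hdet⟩, H3.mem_SU_iff.2 fun y z => ?_⟩, ?_, ?_, ?_⟩
  · simp only [LinearMap.toMatrix'_mulVec]
    have ha' : ((a⁻¹ : Fˣ) : F) ^ q = ((a⁻¹ : Fˣ) : F) := by
      rw [Units.val_inv_eq_inv_val, inv_pow, ha]
    conv_rhs => rw [T.coord hF y, T.coord hF z]
    simp only [L, LinearMap.coe_mk, AddHom.coe_mk, H3.hermForm_add_left hF,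
      H3.hermForm_add_right hF, H3.hermForm_smul_left hF, H3.hermForm_smul_right hF, T.vv, T.ww,
      T.wv, T.xx, T.xv, T.xw, T.vw hF, T.vx hF, T.wx hF, mul_pow, ha, ha']
    have e : (a : F) * ((a⁻¹ : Fˣ) : F) = 1 := a.mul_inv
    linear_combination (hermForm 3 F q y w * hermForm 3 F q z v ^ q
      + hermForm 3 F q y v * hermForm 3 F q z w ^ q) * e
  all_goals rw [smul_def]; simp [Lv, Lx, Lw]

/-- The rank one data of `SU₃(F)`. -/
theorem nonempty_data_SU3 (hp : 5 ≤ p) {k : ℕ} (hq : q = p ^ k) :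
    Nonempty (Data p (SU 3 F q)) := by
  have h32 : ¬ ((3 : ℕ) = 3 ∧ q = 2) := by
    rintro ⟨-, h2⟩
    rcases k with _ | k
    · simp [h2] at hq
    · have : p ≤ q := hq ▸ Nat.le_self_pow (Nat.succ_ne_zero k) p
      omega
  obtain ⟨v, hv, hv0⟩ := H3.exists_isotropic hF (n := 3) (by norm_num)
  obtain ⟨x, w, T⟩ := exists_trip hF hv hv0
  have hw : w ≠ 0 := fun e => by
    have := T.wv; rw [e, H3.hermForm_zero_left hF] at this; exact zero_ne_one this
  have hUp := isPGroup_unip (p := p) hF (by omega) hv0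
  have hmax : ∀ {Q : Subgroup (SU 3 F q)}, IsPGroup p Q → unip q v ≤ Q → Q = unip q v := by
    intro Q hQ hle
    by_contra hne
    haveI : Finite Q := inferInstance
    have hlt : (unip q v).subgroupOf Q < ⊤ := by
      rw [lt_top_iff_ne_top, Ne, Subgroup.subgroupOf_eq_top]
      exact fun h => hne (le_antisymm h hle)
    have := Group.normalizerCondition_of_isNilpotent (G := Q) (h := hQ.isNilpotent) _ hlt
    obtain ⟨y, hy, hy'⟩ := Set.exists_of_ssubset this
    refine hy' (Subgroup.mem_subgroupOf.2 ?_)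
    have hyn : (y : SU 3 F q) ∈ Subgroup.normalizer (unip q v : Set (SU 3 F q)) := by
      refine Subgroup.mem_normalizer_fintype fun g hg => ?_
      have := (Subgroup.mem_normalizer_iff.1 hy ⟨g, hle hg⟩).1 hg
      exact this
    have hline : unip q ((y : SU 3 F q) • v) = unip q v := by
      rw [← map_conj_unip hF]
      exact Subgroup.mem_normalizer_iff_map_conj_eq.1 hyn
    obtain ⟨c, hc⟩ := line_of_normalizes hF hv hv0 hline
    obtain ⟨j, hj⟩ := hQ y
    have hiter : ∀ i : ℕ, ((y : SU 3 F q) ^ i) • v = c ^ i • v := by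
      intro i
      induction i with
      | zero => simp
      | succ i ih => rw [pow_succ', mul_smul, ih, smul_comm', hc, smul_smul, ← pow_succ]
    have h1 : c ^ p ^ j = 1 := by
      have h0 := hiter (p ^ j)
      rw [show (y : SU 3 F q) ^ p ^ j = 1 by simpa using congrArg Subtype.val hj, one_smul] at h0
      exact (smul_left_injective F hv (h0.symm.trans (one_smul F v).symm))
    have hc1 : c = 1 := by
      have h2 : (c - 1) ^ p ^ j = 0 := by rw [sub_pow_char_pow, h1, one_pow, sub_self]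
      exact sub_eq_zero.1 (pow_eq_zero_iff (pow_ne_zero _ (Fact.out : p.Prime).ne_zero) |>.1 h2)
    rw [← stabilizer_eq_unip hF hv hv0, MulAction.mem_stabilizer_iff, hc, hc1, one_smul]
  let U : Sylow p (SU 3 F q) := ⟨unip q v, hUp, hmax⟩
  have hUiff : ∀ g : SU 3 F q, g • U = U ↔ ∃ c : F, g • v = c • v := by
    intro g
    constructor
    · intro h
      refine line_of_normalizes hF hv hv0 ?_
      rw [← map_conj_unip hF]
      exact congrArg (fun W : Sylow p (SU 3 F q) => (W : Subgroup (SU 3 F q))) h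
    · rintro ⟨c, hc⟩
      apply Sylow.ext
      show (unip q v).map (MulAut.conj g).toMonoidHom = unip q v
      rw [map_conj_unip hF, hc, unip_smul hF]
      rintro rfl
      rw [zero_smul] at hc
      exact hv (by rw [← inv_smul_smul g v, hc, smul_def, Matrix.mulVec_zero])
  obtain ⟨a, ha, ha2⟩ : ∃ a : Fˣ, a ^ (p - 1) = 1 ∧ (a : F) ^ 2 ≠ 1 := by
    obtain ⟨b, hb⟩ := IsCyclic.exists_generator (α := (ZMod p)ˣ)
    let f : ZMod p →+* F := ZMod.castHom dvd_rfl F
    refine ⟨Units.map f.toMonoidHom b, ?_, fun h => ?_⟩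
    · rw [← map_pow, ZMod.units_pow_card_sub_one_eq_one, map_one]
    · have h1 : f ((b : ZMod p) ^ 2) = f 1 := by rw [map_pow, map_one]; exact h
      have h2 : b ^ 2 = 1 := Units.ext (f.injective h1)
      have h3 : orderOf b = p - 1 := by
        rw [orderOf_eq_card_of_forall_mem_zpowers hb, Nat.card_eq_fintype_card, ZMod.card_units p]
      have h4 := Nat.le_of_dvd two_pos (orderOf_dvd_of_pow_eq_one h2)
      omega
  have haq : (a : F) ^ q = a := by
    have hpp : (a : F) ^ p = a := by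
      conv_lhs => rw [show p = p - 1 + 1 by omega, pow_succ, ← Units.val_pow_eq_pow_val, ha,
        Units.val_one, one_mul]
    subst hq
    clear hF h32 v x w T hv hv0 hw hUp hmax U hUiff
    induction k with
    | zero => simp
    | succ k ih => rw [pow_succ, pow_mul, ih, hpp]
  obtain ⟨t, tv, tx, tw⟩ := exists_torus hF T a haq
  -- the element exchanging the two points
  set V0 := unip q w with hV0
  haveI : Finite (SU 3 F q) := inferInstance
  -- transitivity on isotropic points
  have hmove : ∀ z : Fin 3 → F, hermForm 3 F q z z = 0 → (∀ c : F, z ≠ c • v) →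
      ∃ u ∈ unip q v, ∃ c : F, c ≠ 0 ∧ c • (u • w) = z := by
    intro z hz hzl
    set α := hermForm 3 F q z w
    set β := hermForm 3 F q z x
    set γ := hermForm 3 F q z v
    have hco : z = α • v + β • x + γ • w := T.coord hF z
    have hzz : α * γ ^ q + β * β ^ q + γ * α ^ q = 0 := by
      conv_rhs => rw [← hz, hco]
      simp only [H3.hermForm_add_left hF, H3.hermForm_add_right hF, H3.hermForm_smul_left hF,
        H3.hermForm_smul_right hF, T.vv, T.ww, T.wv, T.xx, T.xv, T.xw, T.vw hF, T.vx hF, T.wx hF]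
      ring
    have hq0 : q ≠ 0 := by have := H3.two_le_q hF; omega
    have hγ : γ ≠ 0 := by
      intro h0
      rw [h0, zero_pow hq0] at hzz
      have : β * β ^ q = 0 := by linear_combination hzz
      have hβ : β = 0 := by
        rcases mul_eq_zero.1 this with h | h
        · exact h
        · exact (pow_eq_zero_iff hq0).1 h
      exact hzl α (by rw [hco, hβ, h0]; simp)
    have hy : hermForm 3 F q v ((γ⁻¹ * β) • x) = 0 := by
      rw [H3.hermForm_smul_right hF, T.vx hF, mul_zero]
    have hu : γ⁻¹ * α + (γ⁻¹ * α) ^ q + hermForm 3 F q ((γ⁻¹ * β) • x) ((γ⁻¹ * β) • x) = 0 := by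
      simp only [H3.hermForm_smul_left hF, H3.hermForm_smul_right hF, T.xx, mul_pow, inv_pow]
      field_simp
      linear_combination hzz
    refine ⟨_, root_mem_unip hF hv0 hy hu, γ, hγ, ?_⟩
    show γ • (H3.rootMat q v _ _ *ᵥ w) = z
    rw [H3.rootMat_mulVec, T.wv, H3.hermForm_smul_right hF, T.wx hF, mul_zero, zero_smul, sub_zero,
      one_smul, mul_one, smul_add, smul_add, smul_smul, smul_smul, ← mul_assoc, ← mul_assoc,
      mul_inv_cancel₀ hγ, one_mul, one_mul, hco]
    abel
  obtain ⟨σ, hσ⟩ : ∃ σ : SU 3 F q, unip q (σ • v) = V0 := by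
    obtain ⟨S0, hS0⟩ := (isPGroup_unip (p := p) hF (by omega) T.ww).exists_le_sylow
    obtain ⟨σ, hσ⟩ := MulAction.exists_smul_eq (SU 3 F q) U S0
    refine ⟨σ, ?_⟩
    have h1 : (unip q v).map (MulAut.conj σ).toMonoidHom = (S0 : Subgroup _) :=
      congrArg (fun W : Sylow p (SU 3 F q) => (W : Subgroup (SU 3 F q))) hσ
    rw [map_conj_unip hF] at h1
    rw [← h1] at hS0
    obtain ⟨c, hc⟩ := fixed_unip hF hw T.ww (y := σ • v) fun g hg => (hS0 hg).1
    rw [hV0, hc, unip_smul hF]
    rintro rfl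
    rw [zero_smul] at hc
    exact hv (by rw [← inv_smul_smul σ v, hc, smul_def, Matrix.mulVec_zero])
  set V := σ • U with hVdef
  have hVcoe : (V : Subgroup (SU 3 F q)) = V0 := by
    rw [hVdef, ← hσ, ← map_conj_unip hF]
    rfl
  have hsmulcoe : ∀ (g : SU 3 F q), ((g • U : Sylow p (SU 3 F q)) : Subgroup (SU 3 F q))
      = unip q (g • v) := fun g => by rw [← map_conj_unip hF]; rfl
  have htrans : ∀ W : Sylow p (SU 3 F q), W ≠ U → ∃ u ∈ (U : Subgroup (SU 3 F q)), u • V = W := by
    intro W hW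
    obtain ⟨g, rfl⟩ := MulAction.exists_smul_eq (SU 3 F q) U W
    obtain ⟨u, hu, c, hc, e⟩ := hmove (g • v) (by rw [form_smul, hv0])
      (fun c hc => hW ((hUiff g).2 ⟨c, hc⟩))
    refine ⟨u, hu, Sylow.ext ?_⟩
    show (V : Subgroup (SU 3 F q)).map (MulAut.conj u).toMonoidHom = _
    rw [hVcoe, hV0, map_conj_unip hF, hsmulcoe, ← e, unip_smul hF hc]
  -- cyclic torus
  let M : Subgroup (SU 3 F q) := MulAction.stabilizer (SU 3 F q) U
  have hMiff : ∀ g : M, ∃ c : F, (g : SU 3 F q) • v = c • v := fun g => (hUiff g).1 g.2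
  choose χ0 hχ0 using hMiff
  have hχne : ∀ g : M, χ0 g ≠ 0 := fun g h0 => by
    have := hχ0 g
    rw [h0, zero_smul] at this
    exact hv (by rw [← inv_smul_smul (g : SU 3 F q) v, this, smul_def, Matrix.mulVec_zero])
  have huniq : ∀ {c d : F}, c • v = d • v → c = d := fun h => smul_left_injective F hv h
  let χ : M →* Fˣ :=
    { toFun := fun g => Units.mk0 (χ0 g) (hχne g)
      map_one' := Units.ext (huniq (by
        rw [Units.val_mk0, ← hχ0, OneMemClass.coe_one, one_smul, Units.val_one, one_smul]))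
      map_mul' := fun g h => Units.ext (huniq (by
        rw [Units.val_mk0, ← hχ0, Subgroup.coe_mul, mul_smul, hχ0 h, smul_comm', hχ0 g, smul_smul,
          mul_comm]
        rfl)) }
  obtain ⟨⟨cg, ⟨g0, rfl⟩⟩, hg0⟩ := IsCyclic.exists_generator (α := χ.range)
  refine ⟨{
    U := U
    V := V
    t := t
    g := g0
    tU := (hUiff t).2 ⟨_, tv⟩
    tV := by
      apply Sylow.ext
      show (V : Subgroup (SU 3 F q)).map (MulAut.conj t).toMonoidHom = _
      rw [hVcoe, hV0, map_conj_unip hF, tw, unip_smul hF (Units.ne_zero _)]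
    VU := fun h => by
      have h1 : unip q w = unip q v := by
        rw [← hV0, ← hVcoe, h]
      obtain ⟨c, hc⟩ := fixed_unip hF hv hv0 (y := w) fun g hg => (h1.symm ▸ hg : g ∈ unip q w).1
      have := T.wv
      rw [hc, H3.hermForm_smul_left hF, hv0, mul_zero] at this
      exact zero_ne_one this
    t_pow := by
      have hpow : ∀ (i : ℕ) (y : Fin 3 → F) (c : F), t • y = c • y → t ^ i • y = c ^ i • y := by
        intro i y c h
        induction i with
        | zero => simp
        | succ i ih => rw [pow_succ', mul_smul, ih, smul_comm', h, smul_smul, ← pow_succ]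
      refine T.ext_smul hF ?_ ?_ ?_
      · rw [hpow _ _ _ tv, one_smul, ← Units.val_pow_eq_pow_val, ha, Units.val_one, one_smul]
      · rw [hpow _ _ 1 (by rw [tx, one_smul]), one_pow, one_smul, one_smul]
      · rw [hpow _ _ _ tw, one_smul, ← Units.val_pow_eq_pow_val, inv_pow, ha, inv_one,
          Units.val_one, one_smul]
    fpf := ?_
    gU := g0.2
    cyc := ?_
    trans := htrans
    kerC := ?_
    gen := ?_
    cop := ?_ }⟩
  · intro u hu h
    have hu' : u ∈ unip q v := hu
    have hh : ∀ y : Fin 3 → F, t • (u • y) = u • (t • y) := fun y => by rw [← mul_smul, h, mul_smul]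
    have ew : t • (u • w) = ((a⁻¹ : Fˣ) : F) • (u • w) := by rw [hh, tw, smul_comm']
    have ex : t • (u • x) = u • x := by rw [hh, tx]
    have key : ∀ y : Fin 3 → F, hermForm 3 F q (t • y) w = (a : F) * hermForm 3 F q y w ∧
        hermForm 3 F q (t • y) x = hermForm 3 F q y x ∧
        hermForm 3 F q (t • y) v = ((a⁻¹ : Fˣ) : F) * hermForm 3 F q y v := by
      intro y
      have ety : t • y = ((a : F) * hermForm 3 F q y w) • v + hermForm 3 F q y x • x
          + (((a⁻¹ : Fˣ) : F) * hermForm 3 F q y v) • w := by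
        conv_lhs => rw [T.coord hF y]
        simp only [smul_add', smul_comm', tv, tx, tw, smul_smul]
        module
      rw [ety]
      simp only [H3.hermForm_add_left hF, H3.hermForm_smul_left hF, T.vv, T.ww, T.wv, T.xx, T.xv,
        T.xw, T.vw hF, T.vx hF, T.wx hF, mul_zero, mul_one, add_zero, zero_add, and_self]
    have hai : ((a⁻¹ : Fˣ) : F) ≠ (a : F) := fun e => ha2 (by
      have := a.mul_inv; rw [e] at this; rw [pow_two]; exact this)
    have ha1 : ((a⁻¹ : Fˣ) : F) ≠ 1 := fun e => ha2 (by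
      have := a.mul_inv; rw [e, mul_one] at this; rw [this, one_pow])
    have ha1' : (a : F) ≠ 1 := fun e => ha2 (by rw [e, one_pow])
    obtain ⟨k1, k2, -⟩ := key (u • w)
    rw [ew, H3.hermForm_smul_left hF] at k1 k2
    obtain ⟨l1, -, -⟩ := key (u • x)
    rw [ex] at l1
    have w1 : hermForm 3 F q (u • w) w = 0 := by
      by_contra hne
      exact hai (mul_right_cancel₀ hne k1)
    have w2 : hermForm 3 F q (u • w) x = 0 := by
      by_contra hne
      exact ha1 (mul_right_cancel₀ hne (k2.trans (one_mul _).symm))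
    have w3 : hermForm 3 F q (u • w) v = 1 := by
      conv_lhs => rw [← hu'.1]
      rw [form_smul, T.wv]
    have x1 : hermForm 3 F q (u • x) w = 0 := by
      by_contra hne
      exact ha1' (mul_right_cancel₀ hne (((one_mul _).trans l1).symm))
    obtain ⟨b, hb⟩ := hu'.2 x T.xv
    rw [hb, H3.hermForm_add_left hF, H3.hermForm_smul_left hF, T.xw, T.vw hF] at x1
    simp at x1
    refine T.ext_smul hF (by rw [hu'.1, one_smul]) (by rw [hb, x1, zero_smul, add_zero, one_smul]) ?_
    rw [one_smul]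
    conv_lhs => rw [T.coord hF (u • w), w1, w2, w3]
    simp
  · intro y hy
    obtain ⟨k, hk⟩ := mem_powers_iff_mem_zpowers.2 (hg0 ⟨χ ⟨y, hy⟩, ⟨_, rfl⟩⟩)
    have hk' : χ (g0 ^ k) = χ ⟨y, hy⟩ := by
      rw [map_pow]; exact congrArg Subtype.val hk
    refine ⟨k, ?_⟩
    show _ ∈ unip q v
    rw [← stabilizer_eq_unip hF hv hv0, MulAction.mem_stabilizer_iff]
    have h1 : χ (⟨y, hy⟩ * (g0 ^ k)⁻¹) = 1 := by rw [map_mul, map_inv, hk', mul_inv_cancel]
    have h2 := hχ0 (⟨y, hy⟩ * (g0 ^ k)⁻¹)
    rw [show χ0 (⟨y, hy⟩ * (g0 ^ k)⁻¹) = 1 from congrArg Units.val h1, one_smul] at h2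
    simpa using h2
  · intro g hg
    rcases H3.normal_le_center_or_eq_top hF le_rfl h32
      (MulAction.toPermHom (SU 3 F q) (Sylow p (SU 3 F q))).ker with hc | ht
    · refine hc ?_
      rw [MonoidHom.mem_ker]
      exact Equiv.ext hg
    · exfalso
      have h0 : σ ∈ (MulAction.toPermHom (SU 3 F q) (Sylow p (SU 3 F q))).ker :=
        ht ▸ Subgroup.mem_top σ
      rw [MonoidHom.mem_ker] at h0
      have h1 : σ • U = U := Equiv.congr_fun h0 U
      have h2 : unip q w = unip q v := by
        rw [← hV0, ← hVcoe, hVdef, h1]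
      obtain ⟨c, hc⟩ := fixed_unip hF hv hv0 (y := w) fun g hg => (h2.symm ▸ hg : g ∈ unip q w).1
      have := T.wv
      rw [hc, H3.hermForm_smul_left hF, hv0, mul_zero] at this
      exact zero_ne_one this
  · haveI := Subgroup.normalClosure_normal (s := ((U : Subgroup (SU 3 F q)) : Set (SU 3 F q)))
    rcases H3.normal_le_center_or_eq_top hF le_rfl h32
      (Subgroup.normalClosure ((U : Subgroup (SU 3 F q)) : Set (SU 3 F q))) with hc | ht
    · exfalso
      obtain ⟨b, hb⟩ := H3.exists_trace_eq hF (a := (-1 : F))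
        (by rw [← H3.conjQ_apply hF, map_neg, map_one])
      have hbP : b + b ^ q + hermForm 3 F q x x = 0 := by rw [T.xx]; linear_combination hb
      have hmem := hc (Subgroup.subset_normalClosure (root_mem_unip hF hv0 (T.vx hF) hbP))
      obtain ⟨l, hl⟩ := (H3.mem_center_SU_iff hF (by norm_num) _).1 hmem
      have hh : H3.rootMat q v x b *ᵥ w = l • w := hl w
      rw [H3.rootMat_mulVec, T.wv, T.wx hF] at hh
      have := congrArg (fun z => hermForm 3 F q z x) hh
      simp [H3.hermForm_add_left hF, H3.hermForm_smul_left hF, H3.hermForm_sub_left hF, T.xx,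
        T.wx hF, T.vx hF] at this
    · exact ht
  · rw [H3.card_center_SU hF (by norm_num)]
    refine Nat.Coprime.coprime_dvd_left (Nat.gcd_dvd_left _ _) ?_
    exact (Nat.coprime_primes Nat.prime_three Fact.out).2 (by omega)

end Cfsg.Agent.H77.RankOne
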