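import Cfsg.Prelude.Def_Transfer
import Cfsg.Prelude.Def_Solvable
import Cfsg.Agent.H19.Cores
import Cfsg.Agent.H22.PResidual
import Mathlib

/-!
A finite group `H` with `O_p(H) = 1` and a normal subgroup `R` of `p`-power index that looks like
a rank one group in characteristic `p`: no non-trivial element of a Sylow `p`-subgroup `S` of `H`
centralises the normaliser of `S`.
-/

set_option autoImplicit false

open scoped Pointwise

namespace Cfsg.Agent.H77.RankOne

variable {R : Type*} [Group R]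

/-- The rank one data: a Sylow subgroup `U` with cyclic torus, a torus element `t` of order
dividing `p - 1` acting without fixed points on `U`, and a second Sylow subgroup `V` fixed by `t`,
the `U`-orbit of which consists of all the other Sylow subgroups. -/
structure Data (p : ℕ) (R : Type*) [Group R] where
  U : Sylow p R
  V : Sylow p R
  t : R
  g : R
  tU : t • U = U
  tV : t • V = V
  VU : V ≠ U
  t_pow : t ^ (p - 1) = 1
  fpf : ∀ u ∈ (U : Subgroup R), t * u = u * t → u = 1
  gU : g • U = U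
  cyc : ∀ x : R, x • U = U → ∃ k : ℕ, x * (g ^ k)⁻¹ ∈ (U : Subgroup R)
  trans : ∀ W : Sylow p R, W ≠ U → ∃ u ∈ (U : Subgroup R), u • V = W
  kerC : ∀ x : R, (∀ W : Sylow p R, x • W = W) → x ∈ Subgroup.center R
  gen : Subgroup.normalClosure ((U : Subgroup R) : Set R) = ⊤
  cop : (Nat.card (Subgroup.center R)).Coprime p

variable {p : ℕ} [Fact p.Prime]

theorem map_injective {R' : Type*} [Group R'] [Finite R] (π : R →* R')
    (hk : π.ker ≤ Subgroup.center R) (hc : (Nat.card (Subgroup.center R)).Coprime p)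
    (A B : Sylow p R) (h : (A : Subgroup R).map π = (B : Subgroup R).map π) : A = B := by
  apply Sylow.ext
  refine Subgroup.eq_of_le_of_card_ge (fun x hx => ?_) (by rw [A.card_eq_multiplicity, B.card_eq_multiplicity])
  obtain ⟨b, hb, hbx⟩ : π x ∈ (B : Subgroup R).map π := h ▸ ⟨x, hx, rfl⟩
  have hz : b⁻¹ * x ∈ π.ker := by
    rw [MonoidHom.mem_ker, map_mul, map_inv, hbx, inv_mul_cancel]
  have hzc := Subgroup.mem_center_iff.1 (hk hz) b⁻¹
  have hcomm : Commute b⁻¹ x := by
    have h1 : b⁻¹ * (b⁻¹ * x) = b⁻¹ * x * b⁻¹ := hzc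
    show b⁻¹ * x = x * b⁻¹
    calc b⁻¹ * x = b * (b⁻¹ * (b⁻¹ * x)) := by group
      _ = b * (b⁻¹ * x * b⁻¹) := by rw [h1]
      _ = x * b⁻¹ := by group
  obtain ⟨i, hi⟩ := A.2 ⟨x, hx⟩
  obtain ⟨j, hj⟩ := B.2 ⟨b, hb⟩
  have hi' : x ^ p ^ i = 1 := congrArg Subtype.val hi
  have hj' : b ^ p ^ j = 1 := congrArg Subtype.val hj
  have hpow : (b⁻¹ * x) ^ p ^ (i + j) = 1 := by
    rw [hcomm.mul_pow, inv_pow, pow_add, mul_comm, pow_mul, hj', one_pow, inv_one, one_mul,
      mul_comm, pow_mul, hi', one_pow]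
  have h1 : b⁻¹ * x = 1 := by
    rw [← orderOf_eq_one_iff]
    refine Nat.eq_one_of_dvd_coprimes (hc.pow_right (i + j)) ?_ (orderOf_dvd_of_pow_eq_one hpow)
    exact Subgroup.orderOf_dvd_natCard _ (hk hz)
  rw [inv_mul_eq_one] at h1
  exact h1 ▸ hb

theorem mapSurjective_smul {R' : Type*} [Group R'] [Finite R] {π : R →* R'}
    (hπ : Function.Surjective π) (x : R) (A : Sylow p R) :
    π x • A.mapSurjective hπ = (x • A).mapSurjective hπ := by
  apply Sylow.ext
  show Subgroup.map (MulAut.conj (π x)).toMonoidHom (Subgroup.map π (A : Subgroup R)) =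
    Subgroup.map π (Subgroup.map (MulAut.conj x).toMonoidHom (A : Subgroup R))
  rw [Subgroup.map_map, Subgroup.map_map]
  congr 1
  ext r
  simp

/-- Data pass to quotients by central subgroups of order prime to `p`. -/
noncomputable def Data.map {R' : Type*} [Group R'] [Finite R] (d : Data p R) (π : R →* R')
    (hπ : Function.Surjective π) (hk : π.ker ≤ Subgroup.center R) : Data p R' := by
  haveI : Finite R' := Finite.of_surjective π hπ
  have hinj : ∀ A B : Sylow p R, A.mapSurjective hπ = B.mapSurjective hπ → A = B := fun A B h =>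
    map_injective π hk d.cop A B (congrArg (fun W : Sylow p R' => (W : Subgroup R')) h)
  have hsurj : ∀ W : Sylow p R', ∃ A : Sylow p R, A.mapSurjective hπ = W := fun W => by
    obtain ⟨r', hr'⟩ := MulAction.exists_smul_eq R' (d.U.mapSurjective hπ) W
    obtain ⟨r, rfl⟩ := hπ r'
    exact ⟨r • d.U, by rw [← mapSurjective_smul hπ, hr']⟩
  have hker : ∀ x : R, (∀ W : Sylow p R', π x • W = W) → x ∈ Subgroup.center R := fun x hx =>
    d.kerC x fun A => hinj _ _ (by rw [← mapSurjective_smul hπ, hx])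
  exact
  { U := d.U.mapSurjective hπ
    V := d.V.mapSurjective hπ
    t := π d.t
    g := π d.g
    tU := by rw [mapSurjective_smul hπ, d.tU]
    tV := by rw [mapSurjective_smul hπ, d.tV]
    VU := fun h => d.VU (hinj _ _ h)
    t_pow := by rw [← map_pow, d.t_pow, map_one]
    fpf := by
      rintro _ ⟨u, hu, rfl⟩ h
      rw [← map_mul, ← map_mul] at h
      have h1 : d.t * u * (u * d.t)⁻¹ ∈ π.ker := by
        rw [MonoidHom.mem_ker, map_mul, map_inv, h, mul_inv_cancel]
      have h2 : d.t * u * d.t⁻¹ * u⁻¹ ∈ (d.U : Subgroup R) := by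
        refine mul_mem ?_ (inv_mem hu)
        have := Sylow.smul_eq_iff_mem_normalizer.1 d.tU
        exact (Subgroup.mem_normalizer_iff.1 this u).1 hu
      have h3 : d.t * u * d.t⁻¹ * u⁻¹ = 1 := by
        obtain ⟨k, hk'⟩ := d.U.2 ⟨_, h2⟩
        rw [← orderOf_eq_one_iff]
        refine Nat.eq_one_of_dvd_coprimes (d.cop.pow_right k) ?_
          (orderOf_dvd_of_pow_eq_one (congrArg Subtype.val hk'))
        refine Subgroup.orderOf_dvd_natCard _ (hk ?_)
        rwa [mul_inv_rev, ← mul_assoc] at h1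
      rw [d.fpf u hu (by rw [mul_inv_eq_one, mul_inv_eq_iff_eq_mul] at h3; exact h3), map_one]
    gU := by rw [mapSurjective_smul hπ, d.gU]
    cyc := fun x' hx' => by
      obtain ⟨x, rfl⟩ := hπ x'
      rw [mapSurjective_smul hπ] at hx'
      obtain ⟨k, hk'⟩ := d.cyc x (hinj _ _ hx')
      exact ⟨k, ⟨_, hk', by rw [map_mul, map_inv, map_pow]⟩⟩
    trans := fun W' hW' => by
      obtain ⟨A, rfl⟩ := hsurj W'
      obtain ⟨u, hu, rfl⟩ := d.trans A (fun e => hW' (by rw [e]))
      exact ⟨π u, ⟨u, hu, rfl⟩, mapSurjective_smul hπ u d.V⟩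
    kerC := fun x' hx' => by
      obtain ⟨x, rfl⟩ := hπ x'
      refine Subgroup.mem_center_iff.2 fun y' => ?_
      obtain ⟨y, rfl⟩ := hπ y'
      rw [← map_mul, ← map_mul, Subgroup.mem_center_iff.1 (hker x hx') y]
    gen := by
      refine top_unique fun y' _ => ?_
      obtain ⟨y, rfl⟩ := hπ y'
      have hle : Subgroup.normalClosure ((d.U : Subgroup R) : Set R) ≤
          (Subgroup.normalClosure (((d.U.mapSurjective hπ : Sylow p R') : Subgroup R') : Set R')).comap π :=
        Subgroup.normalClosure_le_normal fun u hu => Subgroup.subset_normalClosure ⟨u, hu, rfl⟩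
      exact hle (d.gen ▸ Subgroup.mem_top y)
    cop := by
      have e : Subgroup.center R' = (Subgroup.center R).map π := by
        refine le_antisymm (fun x' hx' => ?_) ?_
        · obtain ⟨x, rfl⟩ := hπ x'
          refine ⟨x, hker x fun W => ?_, rfl⟩
          rw [Sylow.smul_eq_iff_mem_normalizer]
          exact Subgroup.center_le_normalizer _ hx'
        · rintro _ ⟨x, hx, rfl⟩
          refine Subgroup.mem_center_iff.2 fun y' => ?_
          obtain ⟨y, rfl⟩ := hπ y'
          rw [← map_mul, ← map_mul, Subgroup.mem_center_iff.1 hx y]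
      rw [e]
      exact d.cop.coprime_dvd_left ((Subgroup.center R).card_map_dvd π) }

/-- Data with a prescribed Sylow subgroup. -/
theorem Data.exists_with [Finite R] (d : Data p R) (U₀ : Sylow p R) :
    ∃ d' : Data p R, d'.U = U₀ := by
  obtain ⟨r, hr⟩ := MulAction.exists_smul_eq R d.U U₀
  refine ⟨d.map (MulAut.conj r).toMonoidHom (MulAut.conj r).surjective
    (by rw [(MonoidHom.ker_eq_bot_iff _).2 (MulAut.conj r).injective]; exact bot_le), ?_⟩
  rw [← hr]
  exact Sylow.ext rfl

/-- The key lemma. -/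
theorem eq_one {H : Type*} [Group H] [Finite H] (N : Subgroup H) [N.Normal] (d₀ : Data p N)
    (hquot : ∀ h : H, ∃ k : ℕ, h ^ p ^ k ∈ N) (hcore : Cfsg.pCore p H = ⊥) (S : Sylow p H)
    {c : H} (hc : c ∈ (S : Subgroup H))
    (hcN : ∀ n ∈ Subgroup.normalizer ((S : Subgroup H) : Set H), n * c = c * n) : c = 1 := by
  classical
  have hp : p.Prime := Fact.out
  have hUp : IsPGroup p ((S : Subgroup H).subgroupOf N) :=
    S.2.comap_of_injective _ N.subtype_injective
  set U₀ : Sylow p N := hUp.toSylow (by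
    have := H22.sylow_not_dvd_relIndex_normal S N
    exact this) with hU₀
  obtain ⟨d, hd⟩ := d₀.exists_with U₀
  have hU : ∀ u : N, u ∈ (d.U : Subgroup N) ↔ (u : H) ∈ (S : Subgroup H) := fun u => by rw [hd]; rfl
  -- automorphisms induced by `S` fix `U`
  let cj : H →* MulAut N := MulAut.conjNormal
  have hcjU : ∀ s ∈ (S : Subgroup H), ∀ u : N, u ∈ (d.U : Subgroup N) → cj s u ∈ (d.U : Subgroup N) := by
    intro s hs u hu
    rw [hU] at hu ⊢
    simp only [cj, MulAut.conjNormal_apply]
    exact mul_mem (mul_mem hs hu) (inv_mem hs)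
  -- the normaliser of `U` modulo `U`
  set M := Subgroup.normalizer ((d.U : Subgroup N) : Set N) with hM
  have hMiff : ∀ x : N, x ∈ M ↔ x • d.U = d.U := fun x => Sylow.smul_eq_iff_mem_normalizer.symm
  haveI : ((d.U : Subgroup N).subgroupOf M).Normal := Subgroup.normal_in_normalizer
  have hcjM : ∀ s ∈ (S : Subgroup H), ∀ x ∈ M, cj s x ∈ M := by
    intro s hs x hx
    refine Subgroup.mem_normalizer_fintype fun u hu => ?_
    have e : cj s x * u * (cj s x)⁻¹ = cj s (x * cj s⁻¹ u * x⁻¹) := by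
      rw [map_mul, map_mul, map_inv (cj s), ← MulAut.mul_apply, ← map_mul, mul_inv_cancel, map_one,
        MulAut.one_apply]
    rw [SetLike.mem_coe, e]
    exact hcjU s hs _ ((Subgroup.mem_normalizer_iff.1 hx _).1 (hcjU _ (inv_mem hs) u hu))
  -- `t` normalises `S`
  have htS : (d.t : H) ∈ Subgroup.normalizer ((S : Subgroup H) : Set H) := by
    refine Subgroup.mem_normalizer_fintype fun s hs => ?_
    let α : M →* M :=
      { toFun := fun x => ⟨cj s x, hcjM s hs x x.2⟩
        map_one' := by ext1; simp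
        map_mul' := fun x y => by ext1; simp }
    set Q := M ⧸ (d.U : Subgroup N).subgroupOf M
    let q : M →* Q := QuotientGroup.mk' _
    let β : Q →* Q := QuotientGroup.map _ _ α (fun u hu => hcjU s hs _ hu)
    have hβq : ∀ x, β (q x) = q (α x) := fun x => rfl
    let gM : M := ⟨d.g, (hMiff _).2 d.gU⟩
    let tM : M := ⟨d.t, (hMiff _).2 d.tU⟩
    have hgen : ∀ y : Q, ∃ k : ℕ, y = q gM ^ k := by
      intro y
      obtain ⟨x, rfl⟩ := QuotientGroup.mk'_surjective _ y
      obtain ⟨k, hk⟩ := d.cyc x ((hMiff _).1 x.2)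
      refine ⟨k, ?_⟩
      rw [← map_pow]
      refine (QuotientGroup.eq_iff_div_mem).2 ?_
      rw [Subgroup.mem_subgroupOf, div_eq_mul_inv]
      simpa using hk
    obtain ⟨k, hk⟩ := hgen (β (q gM))
    have hpow : ∀ y : Q, β y = y ^ k := by
      intro y
      obtain ⟨m, rfl⟩ := hgen y
      rw [map_pow, hk, ← pow_mul, ← pow_mul, mul_comm]
    obtain ⟨n, hn⟩ := S.2 ⟨s, hs⟩
    have hiter : ∀ (i : ℕ) (y : Q), β^[i] y = y ^ (k ^ i) := by
      intro i
      induction i with
      | zero => intro y; simp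
      | succ i ih =>
        intro y
        rw [Function.iterate_succ_apply', ih, hpow, ← pow_mul, ← pow_succ]
    have hiterα : ∀ (i : ℕ) (x : M), β^[i] (q x) = q (α^[i] x) := by
      intro i
      induction i with
      | zero => intro x; rfl
      | succ i ih => intro x; rw [Function.iterate_succ_apply', ih, hβq, Function.iterate_succ_apply']
    have hαval : ∀ (i : ℕ) (x : M), ((α^[i] x : M) : N) = cj (s ^ i) x := by
      intro i
      induction i with
      | zero => intro x; simp
      | succ i ih =>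
        intro x
        rw [Function.iterate_succ_apply', pow_succ', map_mul, MulAut.mul_apply, ← ih]
        rfl
    have hid : q tM ^ (k ^ p ^ n) = q tM := by
      rw [← hiter, hiterα]
      congr 1
      refine Subtype.ext ?_
      rw [hαval, show s ^ p ^ n = 1 from congrArg Subtype.val hn, map_one]
      rfl
    have hk1 : q tM ^ k = q tM := by
      set e := orderOf (q tM) with he
      have hedvd : e ∣ p - 1 := orderOf_dvd_of_pow_eq_one (by
        rw [← map_pow, show tM ^ (p - 1) = 1 from Subtype.ext (by simpa using d.t_pow), map_one])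
      rcases Nat.lt_or_ge e 2 with h2 | h2
      · have : q tM = 1 := orderOf_eq_one_iff.1 (by have := orderOf_pos (q tM); omega)
        rw [this, one_pow]
      haveI : NeZero e := ⟨by omega⟩
      have h1 : (k : ZMod e) ^ p ^ n = 1 := by
        have := pow_eq_pow_iff_modEq.1 (hid.trans (pow_one _).symm)
        rw [← he, ← ZMod.natCast_eq_natCast_iff] at this
        simpa using this
      let u : (ZMod e)ˣ := Units.ofPowEqOne (k : ZMod e) (p ^ n) h1 (pow_pos hp.pos _).ne'
      have hu1 : orderOf u ∣ p ^ n := orderOf_dvd_of_pow_eq_one (Units.ext (by simpa [u] using h1))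
      have hu2 : orderOf u ∣ e.totient := by
        rw [← ZMod.card_units_eq_totient]; exact orderOf_dvd_card
      have hlt : e.totient < p := by
        have := Nat.totient_lt e h2
        have h3 := Nat.le_of_dvd (by have := hp.two_le; omega) hedvd
        omega
      have hu : orderOf u = 1 := by
        obtain ⟨j, -, hj⟩ := (Nat.dvd_prime_pow hp).1 hu1
        rcases j with _ | j
        · simpa using hj
        · exfalso
          have h4 : p ∣ e.totient := (dvd_pow_self p (Nat.succ_ne_zero j)).trans (hj ▸ hu2)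
          exact absurd (Nat.le_of_dvd (Nat.totient_pos.2 (by omega)) h4) (by omega)
      have hkk : (k : ZMod e) = 1 := by
        have := congrArg Units.val (orderOf_eq_one_iff.1 hu)
        simpa [u] using this
      conv_rhs => rw [← pow_one (q tM)]
      rw [pow_eq_pow_iff_modEq, ← he, ← ZMod.natCast_eq_natCast_iff, hkk, Nat.cast_one]
    have hmem : cj s d.t * d.t⁻¹ ∈ (d.U : Subgroup N) := by
      have h1 : q (α tM) = q tM := by rw [← hβq, hpow, hk1]
      have h2 := (QuotientGroup.eq_iff_div_mem).1 h1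
      rw [Subgroup.mem_subgroupOf, div_eq_mul_inv] at h2
      simpa [α, tM] using h2
    have h3 : s * (d.t : H) * s⁻¹ * (d.t : H)⁻¹ ∈ (S : Subgroup H) := by
      have := (hU _).1 hmem
      simpa [cj, MulAut.conjNormal_apply] using this
    have h4 : (d.t : H) * s⁻¹ * (d.t : H)⁻¹ ∈ (S : Subgroup H) := by
      have := mul_mem (inv_mem hs) h3
      simpa [mul_assoc] using this
    show (d.t : H) * s * (d.t : H)⁻¹ ∈ (S : Subgroup H)
    have := inv_mem h4
    simpa [mul_assoc] using this
  -- `c` centralises `U` and `t`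
  set β : MulAut N := cj c with hβ
  have hcS : ∀ s ∈ (S : Subgroup H), s * c = c * s := fun s hs => hcN s (Subgroup.le_normalizer hs)
  have hfix : ∀ u : N, (u : H) * c = c * u → β u = u := fun u h => Subtype.ext (by
    simp only [hβ, cj, MulAut.conjNormal_apply]
    rw [← h, mul_inv_cancel_right])
  have hβU : ∀ u : N, u ∈ (d.U : Subgroup N) → β u = u := fun u hu => hfix u (hcS _ ((hU u).1 hu))
  have hβt : β d.t = d.t := hfix _ (hcN _ htS)
  have hsm : ∀ (r : N) (W : Sylow p N), β • (r • W) = β r • (β • W) := by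
    intro r W
    apply Sylow.ext
    show Subgroup.map β.toMonoidHom (Subgroup.map (MulAut.conj r).toMonoidHom (W : Subgroup N)) =
      Subgroup.map (MulAut.conj (β r)).toMonoidHom (Subgroup.map β.toMonoidHom (W : Subgroup N))
    rw [Subgroup.map_map, Subgroup.map_map]
    congr 1
    ext x
    simp
  have hβUU : β • d.U = d.U := by
    apply Sylow.ext
    show Subgroup.map β.toMonoidHom (d.U : Subgroup N) = (d.U : Subgroup N)
    ext x
    constructor
    · rintro ⟨u, hu, rfl⟩
      show β u ∈ (d.U : Subgroup N)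
      rw [hβU u hu]; exact hu
    · exact fun hx => ⟨x, hx, by simpa using hβU x hx⟩
  have hβV : β • d.V = d.V := by
    have hne : β • d.V ≠ d.U := fun e => d.VU (MulAction.injective β (e.trans hβUU.symm))
    obtain ⟨u, hu, e⟩ := d.trans _ hne
    have ht : d.t • (β • d.V) = β • d.V := by
      conv_lhs => rw [← hβt, ← hsm, d.tV]
    rw [← e] at ht ⊢
    have hconj : ∀ w : N, w ∈ (d.U : Subgroup N) → d.t * w * d.t⁻¹ ∈ (d.U : Subgroup N) := fun w hw =>
      (Subgroup.mem_normalizer_iff.1 ((hMiff _).2 d.tU) w).1 hw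
    let W1 := {w : N // w ∈ (d.U : Subgroup N) ∧ w • d.V = d.V}
    have hclosed : ∀ w : W1, w.1⁻¹ * (d.t * w.1 * d.t⁻¹) ∈ (d.U : Subgroup N) ∧
        (w.1⁻¹ * (d.t * w.1 * d.t⁻¹)) • d.V = d.V := fun w => by
      refine ⟨mul_mem (inv_mem w.2.1) (hconj _ w.2.1), ?_⟩
      rw [mul_smul, mul_smul, mul_smul, (inv_smul_eq_iff).2 d.tV.symm, w.2.2, d.tV,
        (inv_smul_eq_iff).2 w.2.2.symm]
    let φ : W1 → W1 := fun w => ⟨_, hclosed w⟩
    have hφ : Function.Injective φ := by
      intro a b h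
      have h1 : a.1⁻¹ * (d.t * a.1 * d.t⁻¹) = b.1⁻¹ * (d.t * b.1 * d.t⁻¹) := congrArg Subtype.val h
      have h2 : d.t * (a.1 * b.1⁻¹) = a.1 * b.1⁻¹ * d.t := by
        calc d.t * (a.1 * b.1⁻¹)
            = a.1 * (a.1⁻¹ * (d.t * a.1 * d.t⁻¹)) * d.t * b.1⁻¹ := by group
          _ = a.1 * (b.1⁻¹ * (d.t * b.1 * d.t⁻¹)) * d.t * b.1⁻¹ := by rw [h1]
          _ = a.1 * b.1⁻¹ * d.t := by group
      exact Subtype.ext (mul_inv_eq_one.1 (d.fpf _ (mul_mem a.2.1 (inv_mem b.2.1)) h2))
    have hu1 : u⁻¹ * (d.t * u * d.t⁻¹) ∈ (d.U : Subgroup N) ∧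
        (u⁻¹ * (d.t * u * d.t⁻¹)) • d.V = d.V := by
      refine ⟨mul_mem (inv_mem hu) (hconj u hu), ?_⟩
      rw [mul_smul, mul_smul, mul_smul, (inv_smul_eq_iff).2 d.tV.symm, ht, inv_smul_smul]
    obtain ⟨w, hw⟩ := (Finite.injective_iff_surjective.1 hφ) ⟨_, hu1⟩
    have h1 : w.1⁻¹ * (d.t * w.1 * d.t⁻¹) = u⁻¹ * (d.t * u * d.t⁻¹) := congrArg Subtype.val hw
    have h2 : d.t * (u * w.1⁻¹) = u * w.1⁻¹ * d.t := by
      calc d.t * (u * w.1⁻¹) = u * (u⁻¹ * (d.t * u * d.t⁻¹)) * d.t * w.1⁻¹ := by group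
        _ = u * (w.1⁻¹ * (d.t * w.1 * d.t⁻¹)) * d.t * w.1⁻¹ := by rw [h1]
        _ = u * w.1⁻¹ * d.t := by group
    rw [mul_inv_eq_one.1 (d.fpf _ (mul_mem hu (inv_mem w.2.1)) h2)]
    exact w.2.2
  have hall : ∀ W : Sylow p N, β • W = W := by
    intro W
    rcases eq_or_ne W d.U with rfl | hne
    · exact hβUU
    obtain ⟨u, hu, rfl⟩ := d.trans W hne
    rw [hsm, hβV, hβU u hu]
  have hcentral : ∀ r : N, r⁻¹ * β r ∈ Subgroup.center N := fun r => d.kerC _ fun W => by
    have h1 := hall (r • W)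
    rw [hsm, hall] at h1
    rw [mul_smul, h1, inv_smul_smul]
  let δ : N →* N :=
    { toFun := fun r => r⁻¹ * β r
      map_one' := by simp
      map_mul' := fun r r' => by
        show (r * r')⁻¹ * β (r * r') = r⁻¹ * β r * (r'⁻¹ * β r')
        have h := Subgroup.mem_center_iff.1 (hcentral r) r'⁻¹
        calc (r * r')⁻¹ * β (r * r') = r'⁻¹ * (r⁻¹ * β r) * β r' := by rw [map_mul]; group
          _ = r⁻¹ * β r * r'⁻¹ * β r' := by rw [h]
          _ = _ := by group }
  have hδ : δ.ker = ⊤ := by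
    refine top_unique ?_
    rw [← d.gen]
    refine Subgroup.normalClosure_le_normal fun u hu => ?_
    show u⁻¹ * β u = 1
    rw [hβU u hu, inv_mul_cancel]
  have hβ1 : ∀ r : N, β r = r := fun r => by
    have : r⁻¹ * β r = 1 := (MonoidHom.mem_ker.1 (hδ ▸ Subgroup.mem_top r : r ∈ δ.ker))
    exact (inv_mul_eq_one.1 this).symm
  -- the centraliser of `N` has a normal Sylow subgroup
  set C := Subgroup.centralizer (N : Set H) with hC
  have hcC : c ∈ C := Subgroup.mem_centralizer_iff.2 fun r hr => by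
    have h1 := congrArg Subtype.val (hβ1 ⟨r, hr⟩)
    simp only [hβ, cj, MulAut.conjNormal_apply] at h1
    exact (mul_inv_eq_iff_eq_mul.1 h1).symm
  haveI : C.Normal := Subgroup.normal_centralizer
  have hq : IsPGroup p (C ⧸ Subgroup.center C) := by
    intro x
    obtain ⟨y, rfl⟩ := QuotientGroup.mk'_surjective _ x
    obtain ⟨k, hk⟩ := hquot y
    refine ⟨k, ?_⟩
    rw [← map_pow, QuotientGroup.mk'_apply, QuotientGroup.eq_one_iff]
    refine Subgroup.mem_center_iff.2 fun z => Subtype.ext ?_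
    simpa using (Subgroup.mem_centralizer_iff.1 z.2 _ hk).symm
  have hnil : Group.IsNilpotent C := Group.of_quotient_center_nilpotent hq.isNilpotent
  obtain ⟨j, hj⟩ := S.2 ⟨c, hc⟩
  have hz : IsPGroup p (Subgroup.zpowers (⟨c, hcC⟩ : C)) := by
    refine IsPGroup.of_card_dvd_pow (n := j) ?_
    rw [Nat.card_zpowers]
    refine orderOf_dvd_of_pow_eq_one (Subtype.ext ?_)
    simpa using congrArg Subtype.val hj
  obtain ⟨P, hP⟩ := hz.exists_le_sylow
  haveI := hnil
  have hPn : (P : Subgroup C).Normal := inferInstance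
  haveI := H19.pCore_characteristic p C
  have hle : (Cfsg.pCore p C).map C.subtype ≤ Cfsg.pCore p H :=
    H19.le_pCore inferInstance ((H19.pCore_isPGroup p).map _)
  have hmem : c ∈ Cfsg.pCore p H :=
    hle ⟨⟨c, hcC⟩, H19.le_pCore hPn P.2 (hP (Subgroup.mem_zpowers _)), rfl⟩
  rwa [hcore, Subgroup.mem_bot] at hmem

end Cfsg.Agent.H77.RankOne
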