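import Cfsg.Agent.H69.SL2Classes
import Cfsg.Agent.H1.Generation
import Mathlib.FieldTheory.Finite.Basic
import Mathlib.Algebra.Group.Subgroup.Pointwise

set_option autoImplicit false

namespace Cfsg.Agent.H77.SLPair

open Matrix

variable {F : Type*} [Field F] [Fintype F]

local notation "SL₂F" => Matrix.SpecialLinearGroup (Fin 2) F

theorem two_ne_zero' (hF : Odd (Fintype.card F)) : (2 : F) ≠ 0 := by
  have h : ringChar F ≠ 2 := fun h =>
    Nat.not_even_iff_odd.2 hF (FiniteField.even_card_iff_char_two.1 h |> Nat.even_iff.2)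
  exact Ring.two_ne_zero h

theorem neg_one_ne_one (hF : Odd (Fintype.card F)) : (-1 : SL₂F) ≠ 1 := by
  intro h
  have := congrArg (fun g : SL₂F => g.1 0 0) h
  simp at this
  exact two_ne_zero' hF (by linear_combination -this)

/-- The only square roots of `1` in `SL₂`, odd characteristic, are `±1`. -/
theorem eq_of_sq_eq_one (hF : Odd (Fintype.card F)) {g : SL₂F} (h : g * g = 1) : g = 1 ∨ g = -1 := by
  rw [← Cfsg.Agent.H69.sl2_mem_center_iff_eq, Cfsg.Agent.H69.sl2_mem_center_iff]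
  have hch := Cfsg.Agent.H69.mul_self_fin_two (g : Matrix (Fin 2) (Fin 2) F)
  rw [← Matrix.SpecialLinearGroup.coe_mul, h, Matrix.SpecialLinearGroup.coe_one, g.2] at hch
  have h00 := congrFun (congrFun hch 0) 0
  have h01 := congrFun (congrFun hch 0) 1
  have h10 := congrFun (congrFun hch 1) 0
  have h11 := congrFun (congrFun hch 1) 1
  simp at h00 h01 h10 h11
  have ht : (g : Matrix (Fin 2) (Fin 2) F).trace ≠ 0 := by
    intro ht
    rw [ht] at h00
    exact two_ne_zero' hF (by linear_combination h00)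
  refine ⟨?_, ?_, ?_⟩
  · rcases h01 with h' | h'
    · exact absurd h' ht
    · exact h'
  · rcases h10 with h' | h'
    · exact absurd h' ht
    · exact h'
  · exact mul_left_cancel₀ ht (by linear_combination h11 - h00)

/-- In `SL₂`, odd characteristic, all square roots of `-1` are conjugate. -/
theorem isConj_of_sq_eq_neg_one (hF : Odd (Fintype.card F)) {g k : SL₂F} (hg : g * g = -1) (hk : k * k = -1) :
    IsConj g k := by
  have key : ∀ {g : SL₂F}, g * g = -1 →
      ¬ Cfsg.Agent.H69.IsScalar2 (g : Matrix (Fin 2) (Fin 2) F) ∧ (g : Matrix (Fin 2) (Fin 2) F).trace = 0 := by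
    intro g hg
    refine ⟨fun hs => ?_, ?_⟩
    · rw [← Cfsg.Agent.H69.sl2_mem_center_iff, Cfsg.Agent.H69.sl2_mem_center_iff_eq] at hs
      rcases hs with rfl | rfl <;> simp [neg_one_ne_one hF, (neg_one_ne_one hF).symm] at hg
    · have hch := Cfsg.Agent.H69.mul_self_fin_two (g : Matrix (Fin 2) (Fin 2) F)
      rw [← Matrix.SpecialLinearGroup.coe_mul, hg, Matrix.SpecialLinearGroup.coe_neg,
        Matrix.SpecialLinearGroup.coe_one, g.2, one_smul] at hch
      have hz : (g : Matrix (Fin 2) (Fin 2) F).trace • (g : Matrix (Fin 2) (Fin 2) F) = 0 := by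
        linear_combination (norm := module) -hch
      rcases smul_eq_zero.1 hz with h | h
      · exact h
      · exfalso
        have := g.2
        rw [h] at this
        simp at this
  obtain ⟨g1, g2⟩ := key hg
  obtain ⟨k1, k2⟩ := key hk
  refine Cfsg.Agent.H69.sl2_isConj_of_trace g1 k1 (g2.trans k2.symm) (Or.inl ?_)
  rw [g2, zero_pow two_ne_zero]
  intro h
  exact two_ne_zero' hF (mul_self_eq_zero.1 (by linear_combination -h))

/-- A square root of `-1` in `SL₂`. -/
def rootNegOne : SL₂F := ⟨!![0, 1; -1, 0], by simp [Matrix.det_fin_two]⟩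

omit [Fintype F] in
theorem rootNegOne_sq : (rootNegOne : SL₂F) * rootNegOne = -1 := by
  apply Subtype.ext
  rw [Matrix.SpecialLinearGroup.coe_mul, Matrix.SpecialLinearGroup.coe_neg, Matrix.SpecialLinearGroup.coe_one]
  show !![(0 : F), 1; -1, 0] * !![(0 : F), 1; -1, 0] = -1
  ext i j
  fin_cases i <;> fin_cases j <;> simp [Matrix.mul_apply]

section Pair

variable {G : Type*} [Group G] {L : Subgroup G}

/-- An involution of a copy of `SL₂` is the image of `-1`. -/
theorem apply_eq_neg_one (hF : Odd (Fintype.card F)) (e : ↥L ≃* SL₂F) {j : G} (hjL : j ∈ L)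
    (hj : orderOf j = 2) : e ⟨j, hjL⟩ = -1 := by
  have h2 : (⟨j, hjL⟩ : ↥L) * ⟨j, hjL⟩ = 1 :=
    Subtype.ext (show j * j = 1 by rw [← pow_two, ← hj, pow_orderOf_eq_one])
  refine (eq_of_sq_eq_one hF (by rw [← map_mul, h2, map_one])).resolve_left fun h => ?_
  rw [map_eq_one_iff e e.injective] at h
  rw [show j = 1 from congrArg Subtype.val h, orderOf_one] at hj
  exact absurd hj (by norm_num)

/-- Square roots of `1` in a copy of `SL₂` containing the involution `j`. -/
theorem mem_pair_of_sq_eq_one (hF : Odd (Fintype.card F)) (e : ↥L ≃* SL₂F) {j : G} (hjL : j ∈ L)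
    (hj : orderOf j = 2) {a : G} (ha : a ∈ L) (h : a * a = 1) : a = 1 ∨ a = j := by
  have h2 : (⟨a, ha⟩ : ↥L) * ⟨a, ha⟩ = 1 := Subtype.ext h
  rcases eq_of_sq_eq_one hF (g := e ⟨a, ha⟩) (by rw [← map_mul, h2, map_one]) with h' | h'
  · rw [map_eq_one_iff e e.injective] at h'
    exact Or.inl (congrArg Subtype.val h')
  · rw [← apply_eq_neg_one hF e hjL hj] at h'
    exact Or.inr (congrArg Subtype.val (e.injective h'))

/-- Square roots of the involution in a copy of `SL₂` are conjugate in that copy. -/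
theorem exists_conj_of_sq_eq (hF : Odd (Fintype.card F)) (e : ↥L ≃* SL₂F) {j : G} (hjL : j ∈ L)
    (hj : orderOf j = 2) {a b : G} (ha : a ∈ L) (hb : b ∈ L) (h : a * a = j) (h' : b * b = j) :
    ∃ g ∈ L, g * a * g⁻¹ = b := by
  have e1 : e ⟨a, ha⟩ * e ⟨a, ha⟩ = -1 := by
    rw [← map_mul, ← apply_eq_neg_one hF e hjL hj]; exact congrArg e (Subtype.ext h)
  have e2 : e ⟨b, hb⟩ * e ⟨b, hb⟩ = -1 := by
    rw [← map_mul, ← apply_eq_neg_one hF e hjL hj]; exact congrArg e (Subtype.ext h')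
  obtain ⟨c, hc⟩ := isConj_iff.1 (isConj_of_sq_eq_neg_one hF e1 e2)
  refine ⟨(e.symm c : G), (e.symm c).2, ?_⟩
  have := congrArg e.symm hc
  simp only [map_mul, map_inv, MulEquiv.symm_apply_apply] at this
  exact congrArg Subtype.val this

/-- A square root of the involution in a copy of `SL₂`. -/
theorem exists_sq_eq (hF : Odd (Fintype.card F)) (e : ↥L ≃* SL₂F) {j : G} (hjL : j ∈ L)
    (hj : orderOf j = 2) : ∃ a ∈ L, a * a = j := by
  refine ⟨(e.symm rootNegOne : G), (e.symm rootNegOne).2, ?_⟩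
  have := congrArg e.symm (rootNegOne_sq (F := F))
  rw [map_mul, ← apply_eq_neg_one hF e hjL hj, MulEquiv.symm_apply_apply] at this
  exact congrArg Subtype.val this

/-- Decomposition in the join of two elementwise commuting subgroups. -/
theorem exists_mul_of_mem_sup {L₁ L₂ : Subgroup G} (hc : ∀ x ∈ L₁, ∀ y ∈ L₂, x * y = y * x) {w : G}
    (hw : w ∈ L₁ ⊔ L₂) : ∃ x ∈ L₁, ∃ y ∈ L₂, x * y = w := by
  rw [← SetLike.mem_coe, Subgroup.coe_mul_of_right_le_normalizer_left] at hw
  · obtain ⟨x, hx, y, hy, h⟩ := Set.mem_mul.1 hw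
    exact ⟨x, hx, y, hy, h⟩
  · intro y hy
    exact Subgroup.centralizer_le_normalizer _ (Subgroup.mem_centralizer_iff.2 fun x hx => hc x hx y hy)

end Pair

end Cfsg.Agent.H77.SLPair

namespace Cfsg.Agent.H77.SLPair

open Matrix

variable {F : Type*} [Field F] [Fintype F]

local notation "SL₂F" => Matrix.SpecialLinearGroup (Fin 2) F

/-- `SL₂` in odd characteristic is generated by its elements of odd order. -/
theorem closure_odd_order (hF : Odd (Fintype.card F)) :
    Subgroup.closure {g : SL₂F | Odd (orderOf g)} = ⊤ := by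
  classical
  refine Cfsg.Agent.H1.SL_eq_top_of_transvection_mem _ fun i j hij c => Subgroup.subset_closure ?_
  haveI : CharP F (ringChar F) := ringChar.charP F
  have hp : (ringChar F).Prime := CharP.char_is_prime F _
  have hp2 : ringChar F ≠ 2 := fun h =>
    Nat.not_even_iff_odd.2 hF (Nat.even_iff.2 (FiniteField.even_card_iff_char_two.1 h))
  have hpow : ∀ n : ℕ, ((Matrix.SpecialLinearGroup.transvection hij c : SL₂F) ^ n : SL₂F).1 =
      Matrix.transvection i j ((n : F) * c) := by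
    intro n
    induction n with
    | zero => simp
    | succ n ih =>
      rw [pow_succ, Matrix.SpecialLinearGroup.coe_mul, ih, Matrix.SpecialLinearGroup.transvection_coe]
      change Matrix.transvection i j ((n : F) * c) * Matrix.transvection i j c = _
      rw [Matrix.transvection_mul_transvection_same i j hij]
      push_cast
      ring_nf
  refine Odd.of_dvd_nat (hp.odd_of_ne_two hp2) (orderOf_dvd_of_pow_eq_one (Subtype.ext ?_))
  rw [hpow, CharP.cast_eq_zero, zero_mul, Matrix.transvection_zero, Matrix.SpecialLinearGroup.coe_one]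

omit [Fintype F] in
/-- Centralizers of non-central elements of `SL₂` are abelian. -/
theorem commute_of_commute {M X Y : SL₂F} (hM : M ∉ Subgroup.center SL₂F) (hX : Commute M X)
    (hY : Commute M Y) : Commute X Y := by
  rw [Cfsg.Agent.H69.sl2_mem_center_iff] at hM
  obtain ⟨a, b, hab⟩ := Cfsg.Agent.H69.exists_eq_smul_add_smul_of_commute hM
    (X := X.1) (congrArg Subtype.val hX.eq)
  obtain ⟨c, d, hcd⟩ := Cfsg.Agent.H69.exists_eq_smul_add_smul_of_commute hM
    (X := Y.1) (congrArg Subtype.val hY.eq)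
  apply Subtype.ext
  show X.1 * Y.1 = Y.1 * X.1
  rw [hab, hcd]
  simp only [add_mul, mul_add, smul_mul_assoc, mul_smul_comm, one_mul, mul_one, smul_smul, smul_add]
  module

omit [Fintype F] in
/-- Centralizers of non-central elements in a copy of `SL₂` are abelian. -/
theorem commute_of_commute_copy {G : Type*} [Group G] {L : Subgroup G} (e : ↥L ≃* SL₂F)
    {m x y : G} (hm : m ∈ L) (hx : x ∈ L) (hy : y ∈ L) (hnc : ∃ z ∈ L, ¬ Commute m z)
    (h1 : Commute m x) (h2 : Commute m y) : Commute x y := by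
  obtain ⟨z, hz, hzc⟩ := hnc
  have hmem : e ⟨m, hm⟩ ∉ Subgroup.center SL₂F := by
    intro h
    have := Subgroup.mem_center_iff.1 h (e ⟨z, hz⟩)
    rw [← map_mul, ← map_mul] at this
    exact hzc (congrArg Subtype.val (e.injective this)).symm
  have key : Commute (e ⟨x, hx⟩) (e ⟨y, hy⟩) :=
    commute_of_commute hmem ((show Commute (⟨m, hm⟩ : ↥L) ⟨x, hx⟩ from Subtype.ext h1.eq).map e)
      ((show Commute (⟨m, hm⟩ : ↥L) ⟨y, hy⟩ from Subtype.ext h2.eq).map e)
  have h3 := key.map e.symm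
  simp only [MulEquiv.symm_apply_apply] at h3
  exact congrArg Subtype.val h3.eq

/-- If `L₁ ∘ L₂` is also generated by commuting subgroups `N₁ ≅ SL₂` and `N₂`, one of these lies in `L₂`. -/
theorem le_or_le {G : Type*} [Group G] [Finite G] {F₁ : Type*} [Field F₁] [Fintype F₁]
    (hF : Odd (Fintype.card F)) {L₁ L₂ : Subgroup G} (e₁ : ↥L₁ ≃* Matrix.SpecialLinearGroup (Fin 2) F₁)
    (hc : ∀ x ∈ L₁, ∀ y ∈ L₂, x * y = y * x) {j : G} (hj : orderOf j = 2)
    (hm : L₁ ⊓ L₂ = Subgroup.zpowers j) {N₁ N₂ : Subgroup G} (f : ↥N₁ ≃* SL₂F)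
    (hN : ∀ x ∈ N₁, ∀ y ∈ N₂, x * y = y * x) (hsup : N₁ ⊔ N₂ = L₁ ⊔ L₂) : N₁ ≤ L₂ ∨ N₂ ≤ L₂ := by
  classical
  by_contra hno
  push Not at hno
  have hjj : j ∈ L₁ ⊓ L₂ := hm ▸ Subgroup.mem_zpowers j
  have hinter : ∀ z ∈ L₁ ⊓ L₂, z * z = 1 ∧ ∀ x ∈ L₁, Commute x z := by
    intro z hz
    refine ⟨?_, fun x hx => hc x hx z (Subgroup.mem_inf.1 hz).2⟩
    rw [hm] at hz
    obtain ⟨k, rfl⟩ := Subgroup.mem_zpowers_iff.1 hz
    rw [← _root_.zpow_add, ← two_mul, _root_.zpow_mul, show j ^ (2 : ℤ) = 1 by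
      rw [show (2 : ℤ) = ((2 : ℕ) : ℤ) from rfl, zpow_natCast, ← hj, pow_orderOf_eq_one], _root_.one_zpow]
  have hgen : N₁ = Subgroup.closure {g : G | g ∈ N₁ ∧ Odd (orderOf g)} := by
    refine le_antisymm (fun g hg => ?_) ((Subgroup.closure_le _).2 fun g hg => hg.1)
    have h1 := congrArg (Subgroup.map (N₁.subtype.comp f.symm.toMonoidHom)) (closure_odd_order (F := F) hF)
    rw [MonoidHom.map_closure, ← MonoidHom.range_eq_map, MonoidHom.range_comp,
      MonoidHom.range_eq_top.2 (fun x => f.symm.surjective x), ← MonoidHom.range_eq_map, Subgroup.range_subtype] at h1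
    rw [← h1] at hg
    refine Subgroup.closure_mono ?_ hg
    rintro _ ⟨x, hx, rfl⟩
    refine ⟨(f.symm x).2, ?_⟩
    show Odd (orderOf ((N₁.subtype.comp f.symm.toMonoidHom) x))
    rw [orderOf_injective (N₁.subtype.comp f.symm.toMonoidHom) (fun a b h => f.symm.injective (N₁.subtype_injective h))]
    exact hx
  have hY1 : N₁ ≤ L₁ ⊔ L₂ := hsup ▸ le_sup_left
  have hY2 : N₂ ≤ L₁ ⊔ L₂ := hsup ▸ le_sup_right
  let A' : G → Prop := fun l => l ∈ L₁ ∧ Odd (orderOf l) ∧ ∃ m ∈ L₂, l * m ∈ N₁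
  let B' : G → Prop := fun b => b ∈ L₁ ∧ ∃ m ∈ L₂, b * m ∈ N₂
  have hAB : ∀ l b, A' l → B' b → Commute l b := by
    rintro l b ⟨hl, ho, m, hm', hlm⟩ ⟨hb, m', hm'', hbm⟩
    have h := hN _ hlm _ hbm
    set z := (b * l)⁻¹ * (l * b) with hz
    have hz' : z = (m' * m) * (m * m')⁻¹ := by
      have e1 : l * b * (m * m') = b * l * (m' * m) := by
        calc l * b * (m * m') = l * (b * m) * m' := by group
          _ = l * (m * b) * m' := by rw [hc b hb m hm']
          _ = (l * m) * (b * m') := by group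
          _ = (b * m') * (l * m) := h
          _ = b * (m' * l) * m := by group
          _ = b * (l * m') * m := by rw [hc l hl m' hm'']
          _ = b * l * (m' * m) := by group
      rw [hz, eq_mul_inv_iff_mul_eq, mul_assoc, e1, inv_mul_cancel_left]
    have hzi : z ∈ L₁ ⊓ L₂ := Subgroup.mem_inf.2 ⟨mul_mem (inv_mem (mul_mem hb hl)) (mul_mem hl hb),
      hz' ▸ mul_mem (mul_mem hm'' hm') (inv_mem (mul_mem hm' hm''))⟩
    obtain ⟨hzz, hzc⟩ := hinter z hzi
    have e2 : b⁻¹ * l * b = l * z := by rw [hz]; group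
    have e3 := congrArg (· ^ orderOf l) e2
    rw [show b⁻¹ * l * b = b⁻¹ * l * b⁻¹⁻¹ by rw [inv_inv], conj_pow, pow_orderOf_eq_one, mul_one, mul_inv_cancel,
      (hzc l hl).mul_pow, pow_orderOf_eq_one, one_mul] at e3
    obtain ⟨i, hi⟩ := ho
    rw [hi, pow_succ, pow_mul, pow_two, hzz, one_pow, one_mul] at e3
    rw [← e3, mul_one, mul_assoc, inv_mul_eq_iff_eq_mul] at e2
    exact e2
  have hdecA : ∀ g ∈ N₁, Odd (orderOf g) → ∃ l, A' l ∧ ∃ m ∈ L₂, l * m = g := by
    intro g hg ho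
    obtain ⟨l, hl, m, hm', rfl⟩ := exists_mul_of_mem_sup hc (hY1 hg)
    set o := orderOf (l * m) with hodef
    have hlm : Commute l m := hc l hl m hm'
    have hpo : l ^ o * m ^ o = 1 := by rw [← hlm.mul_pow, hodef, pow_orderOf_eq_one]
    have hlo : l ^ o ∈ L₁ ⊓ L₂ :=
      Subgroup.mem_inf.2 ⟨pow_mem hl o, by rw [mul_eq_one_iff_eq_inv.1 hpo]; exact inv_mem (pow_mem hm' o)⟩
    have hev : Even (o + 1) := ho.add_one
    have heq : l ^ (o + 1) * m ^ (o + 1) = l * m := by
      rw [← hlm.mul_pow, pow_succ, hodef, pow_orderOf_eq_one, one_mul]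
    refine ⟨l ^ (o + 1), ⟨pow_mem hl _, ?_, m ^ (o + 1), pow_mem hm' _, by rwa [heq]⟩, m ^ (o + 1), pow_mem hm' _, heq⟩
    refine Odd.of_dvd_nat ho (orderOf_dvd_of_pow_eq_one ?_)
    obtain ⟨i, hi⟩ := hev
    rw [← pow_mul, mul_comm, pow_mul, hi, pow_add, ← (Commute.refl (l ^ o)).mul_pow, (hinter _ hlo).1, one_pow]
  obtain ⟨l0, hA0, hl0⟩ : ∃ l, A' l ∧ ∃ z ∈ L₁, ¬ Commute l z := by
    by_contra hall
    push Not at hall
    apply hno.1
    rw [hgen, Subgroup.closure_le]
    rintro g ⟨hg, ho⟩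
    obtain ⟨l, hA, m, hm', rfl⟩ := hdecA g hg ho
    have hcen : e₁ ⟨l, hA.1⟩ ∈ Subgroup.center (Matrix.SpecialLinearGroup (Fin 2) F₁) := by
      rw [Subgroup.mem_center_iff]
      intro x
      obtain ⟨⟨x, hx⟩, rfl⟩ := e₁.surjective x
      rw [← map_mul, ← map_mul]
      exact congrArg e₁ (Subtype.ext (hall l hA x hx).eq.symm)
    have hl2 : l * l = 1 := by
      rcases (Cfsg.Agent.H69.sl2_mem_center_iff_eq _).1 hcen with h | h <;>
      · have h2 := congrArg (fun x => x * x) h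
        simp only [← map_mul, neg_mul_neg, one_mul] at h2
        rw [map_eq_one_iff e₁ e₁.injective] at h2
        exact congrArg Subtype.val h2
    have hl1 : l = 1 := by
      obtain ⟨i, hi⟩ := hA.2.1
      have := pow_orderOf_eq_one l
      rwa [hi, pow_succ, pow_mul, pow_two, hl2, one_pow, one_mul] at this
    rw [hl1, one_mul]
    exact hm'
  obtain ⟨b0, hB0, hb0⟩ : ∃ b, B' b ∧ ∃ z ∈ L₁, ¬ Commute b z := by
    by_contra hall
    push Not at hall
    apply hno.2
    intro g hg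
    obtain ⟨b, hb, m, hm', rfl⟩ := exists_mul_of_mem_sup hc (hY2 hg)
    have hcen : e₁ ⟨b, hb⟩ ∈ Subgroup.center (Matrix.SpecialLinearGroup (Fin 2) F₁) := by
      rw [Subgroup.mem_center_iff]
      intro x
      obtain ⟨⟨x, hx⟩, rfl⟩ := e₁.surjective x
      rw [← map_mul, ← map_mul]
      exact congrArg e₁ (Subtype.ext (hall b ⟨hb, m, hm', hg⟩ x hx).eq.symm)
    refine mul_mem ?_ hm'
    rcases (Cfsg.Agent.H69.sl2_mem_center_iff_eq _).1 hcen with h | h
    · rw [map_eq_one_iff e₁ e₁.injective] at h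
      rw [show b = 1 from congrArg Subtype.val h]
      exact one_mem _
    · by_cases hne : (-1 : Matrix.SpecialLinearGroup (Fin 2) F₁) = 1
      · rw [hne, map_eq_one_iff e₁ e₁.injective] at h
        rw [show b = 1 from congrArg Subtype.val h]
        exact one_mem _
      · have hj2 : e₁ ⟨j, (Subgroup.mem_inf.1 hjj).1⟩ = -1 := by
          have hjc : e₁ ⟨j, (Subgroup.mem_inf.1 hjj).1⟩ ∈ Subgroup.center (Matrix.SpecialLinearGroup (Fin 2) F₁) := by
            rw [Subgroup.mem_center_iff]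
            intro x
            obtain ⟨⟨x, hx⟩, rfl⟩ := e₁.surjective x
            rw [← map_mul, ← map_mul]
            exact congrArg e₁ (Subtype.ext ((hinter j hjj).2 x hx).eq)
          refine ((Cfsg.Agent.H69.sl2_mem_center_iff_eq _).1 hjc).resolve_left fun h1 => ?_
          rw [map_eq_one_iff e₁ e₁.injective] at h1
          rw [show j = 1 from congrArg Subtype.val h1, orderOf_one] at hj
          exact absurd hj (by norm_num)
        rw [show b = j from congrArg Subtype.val (e₁.injective (h.trans hj2.symm))]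
        exact (Subgroup.mem_inf.1 hjj).2
  have hlb : Commute l0 b0 := hAB _ _ hA0 hB0
  have hA : ∀ l, A' l → Commute l0 l := fun l hl =>
    commute_of_commute_copy e₁ hB0.1 hA0.1 hl.1 hb0 hlb.symm (hAB _ _ hl hB0).symm
  let K := (L₁ ⊓ Subgroup.centralizer {l0}) ⊔ L₂
  have hK : L₁ ⊔ L₂ ≤ K := by
    rw [← hsup]
    refine sup_le ?_ fun g hg => ?_
    · rw [hgen, Subgroup.closure_le]
      rintro g ⟨hg, ho⟩
      obtain ⟨l, hl, m, hm', rfl⟩ := hdecA g hg ho
      exact mul_mem (Subgroup.mem_sup_left (Subgroup.mem_inf.2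
        ⟨hl.1, Subgroup.mem_centralizer_singleton_iff.2 (hA l hl).eq.symm⟩)) (Subgroup.mem_sup_right hm')
    · obtain ⟨b, hb, m, hm', rfl⟩ := exists_mul_of_mem_sup hc (hY2 hg)
      exact mul_mem (Subgroup.mem_sup_left (Subgroup.mem_inf.2
        ⟨hb, Subgroup.mem_centralizer_singleton_iff.2 (hAB l0 b hA0 ⟨hb, m, hm', hg⟩).eq.symm⟩)) (Subgroup.mem_sup_right hm')
  obtain ⟨z, hz, hzc⟩ := hl0
  obtain ⟨c, hcm, m, hm', hzeq⟩ := exists_mul_of_mem_sup
    (L₁ := L₁ ⊓ Subgroup.centralizer {l0}) (fun x hx y hy => hc x (Subgroup.mem_inf.1 hx).1 y hy)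
    (hK (Subgroup.mem_sup_left hz))
  obtain ⟨hc1, hc2⟩ := Subgroup.mem_inf.1 hcm
  have hmi : m ∈ L₁ ⊓ L₂ := Subgroup.mem_inf.2
    ⟨by rw [show m = c⁻¹ * z by rw [← hzeq, inv_mul_cancel_left]]; exact mul_mem (inv_mem hc1) hz, hm'⟩
  refine hzc ?_
  rw [← hzeq]
  exact Commute.mul_right (show Commute l0 c from (Subgroup.mem_centralizer_singleton_iff.1 hc2).symm)
    ((hinter m hmi).2 l0 hA0.1)

end Cfsg.Agent.H77.SLPair
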