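import Cfsg.Agent.H77.SylowBasics

set_option autoImplicit false

namespace Cfsg.Agent.H77

open Subgroup

/-- A `p`-subgroup contained in the full preimage of a Sylow subgroup of a quotient lies in a Sylow
subgroup mapping onto it. -/
theorem exists_sylow_over {G H : Type*} [Group G] [Finite G] [Group H] {p : ℕ} [Fact p.Prime]
    {f : G →* H} (hf : Function.Surjective f) (P : Sylow p H) {D : Subgroup G} (hD : IsPGroup p ↥D)
    (hDP : D ≤ (P : Subgroup H).comap f) :
    ∃ S : Sylow p G, D ≤ S ∧ (S : Subgroup G).map f = P := by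
  obtain ⟨S₀, hS₀⟩ := Sylow.mapSurjective_surjective hf p P
  have hS₀' : (S₀ : Subgroup G).map f = P := by rw [← hS₀, Sylow.coe_mapSurjective]
  have hle : (S₀ : Subgroup G) ≤ (P : Subgroup H).comap f := map_le_iff_le_comap.1 hS₀'.le
  obtain ⟨n, hn, hnD⟩ := exists_conj_mem_le_sylow S₀ hle hDP hD
  refine ⟨n⁻¹ • S₀, fun d hd => ?_, ?_⟩
  · rw [Sylow.coe_subgroup_smul]
    refine ⟨n * d * n⁻¹, hnD d hd, ?_⟩
    simp [mul_assoc]
  · apply le_antisymm
    · rintro _ ⟨x, hx, rfl⟩
      rw [SetLike.mem_coe, Sylow.coe_subgroup_smul] at hx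
      obtain ⟨s, hs, rfl⟩ := hx
      have h1 : f n ∈ (P : Subgroup H) := hn
      have h2 : f s ∈ (P : Subgroup H) := hS₀'.le ⟨s, hs, rfl⟩
      simpa using mul_mem (mul_mem (inv_mem h1) h2) h1
    · intro y hy
      have h1 : f n ∈ (P : Subgroup H) := hn
      have hy' : f n * y * (f n)⁻¹ ∈ (S₀ : Subgroup G).map f := hS₀'.ge (mul_mem (mul_mem h1 hy) (inv_mem h1))
      obtain ⟨s, hs, hs'⟩ := hy'
      refine ⟨n⁻¹ * s * n, ?_, by rw [map_mul, map_mul, hs', map_inv]; group⟩
      rw [SetLike.mem_coe, Sylow.coe_subgroup_smul]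
      exact ⟨s, hs, by simp⟩

/-- An intersection of two Sylow subgroups of a quotient is the image of a `p`-subgroup lying in the
intersection of two Sylow subgroups over them. -/
theorem exists_sylow_inter_over {G H : Type*} [Group G] [Finite G] [Group H] {p : ℕ} [Fact p.Prime]
    {f : G →* H} (hf : Function.Surjective f) (P Q : Sylow p H) :
    ∃ S T : Sylow p G, (S : Subgroup G).map f = P ∧ (T : Subgroup G).map f = Q ∧
      (P : Subgroup H) ⊓ Q ≤ ((S : Subgroup G) ⊓ T).map f := by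
  set K := ((P : Subgroup H) ⊓ Q).comap f with hK
  let g : ↥K →* ↥((P : Subgroup H) ⊓ Q) := f.subgroupComap _
  have hg : Function.Surjective g := by
    rintro ⟨y, hy⟩
    obtain ⟨x, rfl⟩ := hf y
    exact ⟨⟨x, hy⟩, rfl⟩
  obtain ⟨D⟩ : Nonempty (Sylow p ↥K) := inferInstance
  haveI : Finite H := Finite.of_surjective f hf
  have htop : (D.mapSurjective hg : Subgroup ↥((P : Subgroup H) ⊓ Q)) = ⊤ :=
    Subgroup.map_top_of_surjective g hg ▸
      ((D.mapSurjective hg).is_maximal' ((P.isPGroup'.to_le inf_le_left).to_subgroup ⊤) le_top).symm.trans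
        (Subgroup.map_top_of_surjective g hg).symm
  have hD : IsPGroup p ↥((D : Subgroup ↥K).map K.subtype) := D.isPGroup'.map _
  have hDK : (D : Subgroup ↥K).map K.subtype ≤ K := map_subtype_le _
  obtain ⟨S, hDS, hS⟩ := exists_sylow_over hf P hD (hDK.trans (comap_mono inf_le_left))
  obtain ⟨T, hDT, hT⟩ := exists_sylow_over hf Q hD (hDK.trans (comap_mono inf_le_right))
  refine ⟨S, T, hS, hT, fun y hy => ?_⟩
  have : (⟨y, hy⟩ : ↥((P : Subgroup H) ⊓ Q)) ∈ (D.mapSurjective hg : Subgroup _) := htop ▸ mem_top _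
  rw [Sylow.coe_mapSurjective] at this
  obtain ⟨d, hd, hdy⟩ := this
  exact ⟨d.1, ⟨hDS ⟨d, hd, rfl⟩, hDT ⟨d, hd, rfl⟩⟩, congrArg Subtype.val hdy⟩

/-- Cyclicity of the intersections of distinct Sylow subgroups is inherited by homomorphic images. -/
theorem cyclic_intersections_map {G H : Type*} [Group G] [Finite G] [Group H] {p : ℕ} [Fact p.Prime]
    {f : G →* H} (hf : Function.Surjective f)
    (hC : ∀ S T : Sylow p G, S ≠ T → IsCyclic ↥((S : Subgroup G) ⊓ (T : Subgroup G)))
    (P Q : Sylow p H) (hne : P ≠ Q) : IsCyclic ↥((P : Subgroup H) ⊓ (Q : Subgroup H)) := by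
  obtain ⟨S, T, hS, hT, hle⟩ := exists_sylow_inter_over hf P Q
  have hST : S ≠ T := by
    rintro rfl
    exact hne (Sylow.ext (hS.symm.trans hT))
  haveI := hC S T hST
  haveI : IsCyclic ↥(((S : Subgroup G) ⊓ T).map f) :=
    isCyclic_of_surjective (f.subgroupMap _) (f.subgroupMap_surjective _)
  exact isCyclic_of_injective (Subgroup.inclusion hle) (Subgroup.inclusion_injective hle)

end Cfsg.Agent.H77
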